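import Cfsg.Agent.M22Count.Defs
import Cfsg.Agent.OrderCounts.Basic
import Cfsg.Agent.SylowToolkit.Counting
import Cfsg.Agent.SylowToolkit.Intersection
import Mathlib

/-!
What the order `443520` and the element-order counts of `M₂₂` give directly: one class of
involutions and one of elements of order three, and the centralisers of all elements of odd order.
-/

set_option autoImplicit false
set_option linter.style.haveILetI false

namespace CfsgLib.M22Count

open Subgroup

universe u

variable {G : Type u} [Group G] [Finite G]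

namespace Counts

theorem cnt_eq (n : ℕ) : cnt G n = Cfsg.Agent.S3995.cnt G n := rfl

theorem cnt_ne_zero {n : ℕ} {x : G} (hx : orderOf x = n) : cnt G n ≠ 0 :=
  (CfsgLib.OrderCounts.cnt_ne_zero_iff n).mpr ⟨x, hx⟩

omit [Finite G] in
theorem orderOf_conj (a x : G) : orderOf (a * x * a⁻¹) = orderOf x :=
  orderOf_injective (MulAut.conj a).toMonoidHom (MulAut.conj a).injective x

omit [Finite G] in
theorem mem_cent {g y : G} (h : Commute g y) : y ∈ centralizer ({g} : Set G) :=
  mem_centralizer_singleton_iff.2 h.eq.symm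

omit [Finite G] in
theorem comm_of_mem {g y : G} (h : y ∈ centralizer ({g} : Set G)) : Commute g y :=
  (mem_centralizer_singleton_iff.1 h).symm

omit [Finite G] in
theorem cent_le_norm (g : G) : centralizer ({g} : Set G) ≤ normalizer (zpowers g : Set G) := by
  refine le_trans (fun a ha => ?_) (centralizer_le_normalizer _)
  refine mem_centralizer_iff.2 fun z hz => ?_
  obtain ⟨k, rfl⟩ := mem_zpowers_iff.1 hz
  exact ((comm_of_mem ha).zpow_left k).eq

/-- The map from cosets of a centraliser to the elements of the same order. -/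
noncomputable def classMap (t : G) (n : ℕ) (ht : orderOf t = n)
    (q : G ⧸ centralizer ({t} : Set G)) : {g : G // orderOf g = n} :=
  ⟨q.out * t * q.out⁻¹, (orderOf_conj _ _).trans ht⟩

theorem classMap_injective (t : G) (n : ℕ) (ht : orderOf t = n) :
    Function.Injective (classMap t n ht) := fun q r e => by
  have e' : q.out * t * q.out⁻¹ = r.out * t * r.out⁻¹ := congrArg Subtype.val e
  rw [← q.out_eq', ← r.out_eq', QuotientGroup.eq, mem_centralizer_singleton_iff]
  calc q.out⁻¹ * r.out * t = q.out⁻¹ * (r.out * t * r.out⁻¹) * r.out := by group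
    _ = q.out⁻¹ * (q.out * t * q.out⁻¹) * r.out := by rw [e']
    _ = t * (q.out⁻¹ * r.out) := by group

theorem index_le (t : G) (n : ℕ) (ht : orderOf t = n) :
    (centralizer ({t} : Set G)).index ≤ cnt G n :=
  Nat.card_le_card_of_injective _ (classMap_injective t n ht)

/-- A class as large as the set of elements of that order is the whole set. -/
theorem conj_of_index_eq (t : G) (n : ℕ) (ht : orderOf t = n)
    (h : (centralizer ({t} : Set G)).index = cnt G n) {y : G} (hy : orderOf y = n) :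
    ∃ z : G, z * t * z⁻¹ = y := by
  obtain ⟨q, hq⟩ :=
    ((Nat.bijective_iff_injective_and_card _).mpr ⟨classMap_injective t n ht, h⟩).2 ⟨y, hy⟩
  exact ⟨q.out, congrArg Subtype.val hq⟩

theorem index_eq_of_conj (t : G) (n : ℕ) (ht : orderOf t = n)
    (h : ∀ y : G, orderOf y = n → ∃ z : G, z * t * z⁻¹ = y) :
    (centralizer ({t} : Set G)).index = cnt G n := by
  refine Nat.card_eq_of_bijective (classMap t n ht) ⟨classMap_injective t n ht, ?_⟩
  rintro ⟨y, hy⟩
  obtain ⟨z, rfl⟩ := h y hy
  refine ⟨(z : G ⧸ centralizer ({t} : Set G)), Subtype.ext ?_⟩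
  obtain ⟨⟨c, hc⟩, e⟩ := QuotientGroup.mk_out_eq_mul (centralizer ({t} : Set G)) z
  show (z : G ⧸ centralizer ({t} : Set G)).out * t * _⁻¹ = z * t * z⁻¹
  rw [e]
  calc z * c * t * (z * c)⁻¹ = z * (c * t * c⁻¹) * z⁻¹ := by group
    _ = z * t * z⁻¹ := by rw [mul_inv_eq_iff_eq_mul.2 (mem_centralizer_singleton_iff.1 hc)]

/-- An element of prime order `p` dividing the order exactly once generates a Sylow subgroup. -/
theorem exists_sylow_eq {p m : ℕ} [Fact p.Prime] (hG : Nat.card G = p * m) (hm : ¬ p ∣ m) {g : G}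
    (hg : orderOf g = p) : ∃ P : Sylow p G, zpowers g = (P : Subgroup G) := by
  obtain ⟨P, hP⟩ := (IsPGroup.of_card (n := 1) (show Nat.card (zpowers g) = p ^ 1 by
    rw [Nat.card_zpowers, hg, pow_one])).exists_le_sylow
  exact ⟨P, eq_of_le_of_card_ge hP (by
    rw [CfsgLib.SylowToolkit.card_sylow_subgroup_eq (k := 1) (m := m) (by rw [hG, pow_one]) hm P,
      Nat.card_zpowers, hg, pow_one])⟩

theorem mem_conj_zpowers {p m : ℕ} [Fact p.Prime] (hG : Nat.card G = p * m) (hm : ¬ p ∣ m)
    {f x : G} (hf : orderOf f = p) (hx : orderOf x = p) :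
    ∃ a : G, x ∈ zpowers (a * f * a⁻¹) := by
  obtain ⟨P, hP⟩ := exists_sylow_eq hG hm hf
  obtain ⟨Q, hQ⟩ := exists_sylow_eq hG hm hx
  obtain ⟨a, ha⟩ := MulAction.exists_smul_eq G P Q
  refine ⟨a, ?_⟩
  have hxQ : x ∈ (Q : Subgroup G) := hQ ▸ mem_zpowers x
  rw [← ha, Sylow.coe_subgroup_smul] at hxQ
  obtain ⟨w, hw, rfl⟩ := hxQ
  rw [← hP] at hw
  obtain ⟨k, rfl⟩ := mem_zpowers_iff.1 hw
  exact mem_zpowers_iff.2 ⟨k, conj_zpow⟩

/-- If an element of order `p` commutes with one of order `m` then there are at least as many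
elements of order `p * m` as of order `p`. -/
theorem cnt_le_cnt_mul {p q m : ℕ} [Fact p.Prime] (hG : Nat.card G = p * q) (hq : ¬ p ∣ q)
    (hco : Nat.Coprime p m) {f y : G} (hf : orderOf f = p) (hy : orderOf y = m)
    (hfy : Commute f y) : cnt G p ≤ cnt G (p * m) := by
  have hex : ∀ x : {g : G // orderOf g = p}, ∃ z : G, orderOf z = m ∧ Commute (x : G) z := by
    intro x
    obtain ⟨a, ha⟩ := mem_conj_zpowers hG hq hf x.2
    obtain ⟨k, hk⟩ := mem_zpowers_iff.1 ha
    exact ⟨a * y * a⁻¹, (orderOf_conj a y).trans hy, hk ▸ ((Commute.conj_iff a).2 hfy).zpow_left k⟩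
  choose z hz1 hz2 using hex
  refine Nat.card_le_card_of_injective (fun x : {g : G // orderOf g = p} =>
    (⟨(x : G) * z x, by
      rw [(hz2 x).orderOf_mul_eq_mul_orderOf_of_coprime (by rw [x.2, hz1]; exact hco), x.2, hz1]⟩ :
        {g : G // orderOf g = p * m})) fun x x' e => ?_
  have e' : (x : G) * z x = x' * z x' := congrArg Subtype.val e
  have hm : ∀ x : {g : G // orderOf g = p}, ((x : G) * z x) ^ m = (x : G) ^ m := fun x => by
    rw [(hz2 x).mul_pow, ← hz1 x, pow_orderOf_eq_one, mul_one]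
  have hxm : (x : G) ^ m = (x' : G) ^ m := by rw [← hm x, e', hm x']
  obtain ⟨k, hk⟩ := exists_pow_eq_self_of_coprime (n := m) (x := (x : G))
    (by rw [x.2]; exact hco.symm)
  obtain ⟨l, hl⟩ := Nat.exists_mul_mod_eq_one_of_coprime hco.symm (Fact.out : p.Prime).one_lt
  have hred : ∀ x : {g : G // orderOf g = p}, ((x : G) ^ m) ^ l = x := fun x => by
    rw [← pow_mul, ← pow_mod_orderOf, x.2, hl.2, pow_one]
  exact Subtype.ext (by rw [← hred x, hxm, hred x'])

/-- Elements of order six are commuting pairs of elements of orders three and two. -/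
noncomputable def sixEquiv : {z : G // orderOf z = 6} ≃
    {q : G × G // orderOf q.1 = 3 ∧ orderOf q.2 = 2 ∧ Commute q.1 q.2} where
  toFun z := ⟨((z : G) ^ 4, (z : G) ^ 3), by rw [orderOf_pow, z.2]; rfl,
    by rw [orderOf_pow, z.2]; rfl, (Commute.refl (z : G)).pow_pow 4 3⟩
  invFun q := ⟨q.1.1 * q.1.2, by
    rw [q.2.2.2.orderOf_mul_eq_mul_orderOf_of_coprime (by rw [q.2.1, q.2.2.1]; norm_num), q.2.1,
      q.2.2.1]⟩
  left_inv z := Subtype.ext (by
    show (z : G) ^ 4 * (z : G) ^ 3 = z
    rw [← pow_add, ← pow_mod_orderOf, z.2, pow_one])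
  right_inv q := by
    obtain ⟨⟨x, t⟩, hx, ht, hxt⟩ := q
    refine Subtype.ext (Prod.ext ?_ ?_)
    · show (x * t) ^ 4 = x
      rw [hxt.mul_pow, ← pow_mod_orderOf x, ← pow_mod_orderOf t, hx, ht, pow_one, pow_zero, mul_one]
    · show (x * t) ^ 3 = t
      rw [hxt.mul_pow, ← pow_mod_orderOf x, ← pow_mod_orderOf t, hx, ht, pow_one, pow_zero, one_mul]

/-- Elements of order six, sorted by their three-part. -/
theorem sum_invol_three [Fintype {x : G // orderOf x = 3}] :
    ∑ x : {x : G // orderOf x = 3}, Nat.card {t : G // orderOf t = 2 ∧ Commute (x : G) t} =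
      cnt G 6 := by
  rw [← Nat.card_sigma, cnt, Nat.card_congr sixEquiv]
  exact Nat.card_congr
    { toFun := fun s => ⟨(s.1.1, s.2.1), s.1.2, s.2.2.1, s.2.2.2⟩
      invFun := fun q => ⟨⟨q.1.1, q.2.1⟩, ⟨q.1.2, q.2.2.1, q.2.2.2⟩⟩
      left_inv := fun s => rfl
      right_inv := fun q => rfl }

/-- Elements of order six, sorted by their two-part. -/
theorem sum_three_invol [Fintype {t : G // orderOf t = 2}] :
    ∑ t : {t : G // orderOf t = 2}, Nat.card {x : G // orderOf x = 3 ∧ Commute x (t : G)} =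
      cnt G 6 := by
  rw [← Nat.card_sigma, cnt, Nat.card_congr sixEquiv]
  exact Nat.card_congr
    { toFun := fun s => ⟨(s.2.1, s.1.1), s.2.2.1, s.1.2, s.2.2.2⟩
      invFun := fun q => ⟨⟨q.1.2, q.2.2.1⟩, ⟨q.1.1, q.2.1, q.2.2.2⟩⟩
      left_inv := fun s => rfl
      right_inv := fun q => rfl }

theorem dvd_1152 {n : ℕ} (hn : n ∣ 443520) (h5 : ¬ 5 ∣ n) (h7 : ¬ 7 ∣ n) (h11 : ¬ 11 ∣ n) :
    n ∣ 1152 := by
  have e5 := ((Nat.prime_five.coprime_iff_not_dvd).2 h5).symm
  have e7 := (((by norm_num : Nat.Prime 7).coprime_iff_not_dvd).2 h7).symm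
  have e11 := (((by norm_num : Nat.Prime 11).coprime_iff_not_dvd).2 h11).symm
  have h : n ∣ 1152 * 5 * 7 * 11 := by norm_num; exact hn
  exact e5.dvd_of_dvd_mul_right (e7.dvd_of_dvd_mul_right (e11.dvd_of_dvd_mul_right h))

end Counts

open Counts

namespace CountHyp

variable (h : CountHyp G)
include h

theorem values {n : ℕ} (hn : cnt G n ≠ 0) : cnt G n = 1 ∨ cnt G n = 1155 ∨ cnt G n = 12320 ∨
    cnt G n = 41580 ∨ cnt G n = 88704 ∨ cnt G n = 36960 ∨ cnt G n = 126720 ∨ cnt G n = 55440 ∨
    cnt G n = 80640 := by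
  simpa [countValues] using h.mem n hn

theorem cnt_two : cnt G 2 = 1155 := by
  obtain ⟨n, hn⟩ := h.surj 1155 (by decide)
  match n, hn with
  | 0, hn =>
    haveI : IsEmpty {g : G // orderOf g = 0} := ⟨fun g => (orderOf_pos (g : G)).ne' g.2⟩
    rw [cnt, Nat.card_of_isEmpty] at hn
    omega
  | 1, hn =>
    rw [cnt_eq, CfsgLib.OrderCounts.cnt_one] at hn
    omega
  | 2, hn => exact hn
  | k + 3, hn =>
    have h2 : 2 ∣ Cfsg.Agent.S3995.cnt G (k + 3) :=
      (Nat.totient_even (by omega)).two_dvd.trans (Cfsg.Agent.S3995.totient_dvd_cnt _)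
    rw [← cnt_eq, hn] at h2
    omega

/-- The count of a prime is the value congruent to minus one. -/
theorem cnt_prime {p v : ℕ} (hp : p.Prime) (hd : p ∣ 443520)
    (hv : ∀ c ∈ countValues, (c : ZMod p) = -1 → p ≠ 2 → Even c → c = v) (h2 : p ≠ 2) :
    cnt G p = v := by
  have hd' : p ∣ Nat.card G := by rw [h.card]; exact hd
  have hne := CfsgLib.OrderCounts.cnt_prime_ne_zero (G := G) hp hd'
  refine hv _ (h.mem p hne) (CfsgLib.OrderCounts.cast_prime hp hd') h2 ?_
  exact even_iff_two_dvd.2 ((Nat.totient_even (by have := hp.two_le; omega)).two_dvd.trans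
    (Cfsg.Agent.S3995.totient_dvd_cnt p))

theorem cnt_three : cnt G 3 = 12320 :=
  h.cnt_prime Nat.prime_three (by norm_num) (by decide +kernel) (by norm_num)

theorem cnt_five : cnt G 5 = 88704 :=
  h.cnt_prime Nat.prime_five (by norm_num) (by decide +kernel) (by norm_num)

theorem cnt_seven : cnt G 7 = 126720 :=
  h.cnt_prime (by norm_num) (by norm_num) (by decide +kernel) (by norm_num)

theorem cnt_eleven : cnt G 11 = 80640 :=
  h.cnt_prime (by norm_num) (by norm_num) (by decide +kernel) (by norm_num)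

/-- There are exactly three element orders other than `1, 2, 3, 5, 7, 11`. -/
theorem exists_orders : ∃ a b c : ℕ, cnt G a = 41580 ∧ cnt G b = 36960 ∧ cnt G c = 55440 ∧
    ∀ n, cnt G n ≠ 0 →
      n = 1 ∨ n = 2 ∨ n = 3 ∨ n = 5 ∨ n = 7 ∨ n = 11 ∨ n = a ∨ n = b ∨ n = c := by
  obtain ⟨a, ha⟩ := h.surj 41580 (by decide)
  obtain ⟨b, hb⟩ := h.surj 36960 (by decide)
  obtain ⟨c, hc⟩ := h.surj 55440 (by decide)
  refine ⟨a, b, c, ha, hb, hc, fun n hn => ?_⟩
  by_contra hcon
  simp only [not_or] at hcon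
  obtain ⟨n1, n2, n3, n5, n7, n11, na, nb, nc⟩ := hcon
  have hne : ∀ {x y u v : ℕ}, cnt G x = u → cnt G y = v → u ≠ v → x ≠ y :=
    fun hx hy huv e => huv (by subst e; exact hx.symm.trans hy)
  have e1 : cnt G 1 = 1 := by rw [cnt_eq, CfsgLib.OrderCounts.cnt_one]
  have e2 := h.cnt_two
  have e3 := h.cnt_three
  have e5 := h.cnt_five
  have e7 := h.cnt_seven
  have e11 := h.cnt_eleven
  have a1 := hne ha e1 (by norm_num)
  have a2 := hne ha e2 (by norm_num)
  have a3 := hne ha e3 (by norm_num)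
  have a5 := hne ha e5 (by norm_num)
  have a7 := hne ha e7 (by norm_num)
  have a11 := hne ha e11 (by norm_num)
  have b1 := hne hb e1 (by norm_num)
  have b2 := hne hb e2 (by norm_num)
  have b3 := hne hb e3 (by norm_num)
  have b5 := hne hb e5 (by norm_num)
  have b7 := hne hb e7 (by norm_num)
  have b11 := hne hb e11 (by norm_num)
  have c1 := hne hc e1 (by norm_num)
  have c2 := hne hc e2 (by norm_num)
  have c3 := hne hc e3 (by norm_num)
  have c5 := hne hc e5 (by norm_num)
  have c7 := hne hc e7 (by norm_num)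
  have c11 := hne hc e11 (by norm_num)
  have ab := hne ha hb (by norm_num)
  have ac := hne ha hc (by norm_num)
  have bc := hne hb hc (by norm_num)
  have hle := CfsgLib.SylowToolkit.one_add_sum_card_orderOf_le (G := G)
    ({n, 2, 3, 5, 7, 11, a, b, c} : Finset ℕ) (by
      simp only [Finset.mem_insert, Finset.mem_singleton, not_or]
      exact ⟨Ne.symm n1, by norm_num, by norm_num, by norm_num, by norm_num, by norm_num, a1.symm,
        b1.symm, c1.symm⟩)
  change 1 + ∑ k ∈ ({n, 2, 3, 5, 7, 11, a, b, c} : Finset ℕ), cnt G k ≤ _ at hle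
  rw [
    Finset.sum_insert (by
      simp only [Finset.mem_insert, Finset.mem_singleton, not_or]
      exact ⟨n2, n3, n5, n7, n11, na, nb, nc⟩),
    Finset.sum_insert (by
      simp only [Finset.mem_insert, Finset.mem_singleton, not_or]
      exact ⟨by norm_num, by norm_num, by norm_num, by norm_num, a2.symm, b2.symm, c2.symm⟩),
    Finset.sum_insert (by
      simp only [Finset.mem_insert, Finset.mem_singleton, not_or]
      exact ⟨by norm_num, by norm_num, by norm_num, a3.symm, b3.symm, c3.symm⟩),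
    Finset.sum_insert (by
      simp only [Finset.mem_insert, Finset.mem_singleton, not_or]
      exact ⟨by norm_num, by norm_num, a5.symm, b5.symm, c5.symm⟩),
    Finset.sum_insert (by
      simp only [Finset.mem_insert, Finset.mem_singleton, not_or]
      exact ⟨by norm_num, a7.symm, b7.symm, c7.symm⟩),
    Finset.sum_insert (by
      simp only [Finset.mem_insert, Finset.mem_singleton, not_or]
      exact ⟨a11.symm, b11.symm, c11.symm⟩),
    Finset.sum_insert (by
      simp only [Finset.mem_insert, Finset.mem_singleton, not_or]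
      exact ⟨ab, ac⟩),
    Finset.sum_insert (by
      simp only [Finset.mem_insert, Finset.mem_singleton, not_or]
      exact bc),
    Finset.sum_singleton, h.card, e2, e3, e5, e7, e11, ha, hb, hc] at hle
  have hpos : 0 < cnt G n := Nat.pos_of_ne_zero hn
  linarith

/-- An element of order five, seven or eleven commutes only with its powers. -/
theorem cent_prime {p q : ℕ} [Fact p.Prime] (hpq : 443520 = p * q) (hq : ¬ p ∣ q) (h4 : 5 ≤ p)
    (hbig : 80640 ≤ cnt G p) {f : G} (hf : orderOf f = p) :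
    Nat.card (centralizer ({f} : Set G)) = p := by
  have hp : p.Prime := Fact.out
  have hfC : f ∈ centralizer ({f} : Set G) := mem_cent (Commute.refl f)
  obtain ⟨k, hk⟩ : p ∣ Nat.card (centralizer ({f} : Set G)) :=
    hf ▸ Subgroup.orderOf_dvd_natCard (s := centralizer ({f} : Set G)) hfC
  rw [hk]
  suffices k = 1 by rw [this, mul_one]
  by_contra hk1
  obtain ⟨r, hr, hrk⟩ := Nat.exists_prime_and_dvd hk1
  have hdG : p * k ∣ p * q := by
    rw [← hk, ← hpq, ← h.card]
    exact card_subgroup_dvd_card _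
  have hrp : r ≠ p := by
    rintro rfl
    exact hq (hrk.trans (Nat.dvd_of_mul_dvd_mul_left hp.pos hdG))
  haveI := Fact.mk hr
  obtain ⟨y, hy⟩ := exists_prime_orderOf_dvd_card' (G := centralizer ({f} : Set G)) r
    (hk ▸ hrk.mul_left p)
  have hy' : orderOf (y : G) = r := by rw [Subgroup.orderOf_coe]; exact hy
  have hco : Nat.Coprime p r := (Nat.coprime_primes hp hr).2 (Ne.symm hrp)
  have hle := cnt_le_cnt_mul (p := p) (q := q) (m := r) (by rw [h.card, hpq]) hq hco hf hy'
    (comm_of_mem y.2)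
  obtain ⟨a, b, c, ha, hb, hc, hall⟩ := h.exists_orders
  have hnd : ∀ v : ℕ, v.Prime → p * r ≠ v := fun v hv e =>
    (Nat.not_prime_mul hp.ne_one hr.ne_one) (e ▸ hv)
  have h1 : p * r ≠ 1 := fun e => hp.ne_one (Nat.eq_one_of_mul_eq_one_right e)
  rcases hall (p * r) (by omega) with e | e | e | e | e | e | e | e | e
  · exact h1 e
  · exact hnd 2 Nat.prime_two e
  · exact hnd 3 Nat.prime_three e
  · exact hnd 5 Nat.prime_five e
  · exact hnd 7 (by norm_num) e
  · exact hnd 11 (by norm_num) e
  all_goals rw [e] at hle; omega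

theorem cent_five {f : G} (hf : orderOf f = 5) : Nat.card (centralizer ({f} : Set G)) = 5 :=
  haveI : Fact (Nat.Prime 5) := ⟨by norm_num⟩
  h.cent_prime (p := 5) (q := 88704) (by norm_num) (by norm_num) le_rfl
    (by rw [h.cnt_five]; norm_num) hf

theorem cent_seven {f : G} (hf : orderOf f = 7) : Nat.card (centralizer ({f} : Set G)) = 7 :=
  haveI : Fact (Nat.Prime 7) := ⟨by norm_num⟩
  h.cent_prime (p := 7) (q := 63360) (by norm_num) (by norm_num) (by norm_num)
    (by rw [h.cnt_seven]; norm_num) hf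

theorem cent_eleven {f : G} (hf : orderOf f = 11) : Nat.card (centralizer ({f} : Set G)) = 11 :=
  haveI : Fact (Nat.Prime 11) := ⟨by norm_num⟩
  h.cent_prime (p := 11) (q := 40320) (by norm_num) (by norm_num) (by norm_num)
    (by rw [h.cnt_eleven]) hf

theorem norm_prime {p q v e : ℕ} [Fact p.Prime] (hpq : 443520 = p * q) (hq : ¬ p ∣ q)
    (hv : cnt G p = v) (he : v * e = 443520 * (p - 1)) (hv0 : v ≠ 0) {f : G}
    (hf : orderOf f = p) : Nat.card (normalizer (zpowers f : Set G)) = e := by
  obtain ⟨P, hP⟩ := exists_sylow_eq (m := q) (by rw [h.card, hpq]) hq hf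
  have hN := CfsgLib.SylowToolkit.card_normalizer_mul P
  have hn : cnt G p = Nat.card (Sylow p G) * (p - 1) :=
    CfsgLib.SylowToolkit.card_orderOf_eq_prime (m := q) (by rw [h.card, hpq]) hq
  rw [hP]
  rw [h.card] at hN
  refine Nat.eq_of_mul_eq_mul_left (Nat.pos_of_ne_zero hv0) ?_
  rw [he, ← hN, ← hv, hn]
  ring

theorem norm_five {f : G} (hf : orderOf f = 5) :
    Nat.card (normalizer (zpowers f : Set G)) = 20 :=
  haveI : Fact (Nat.Prime 5) := ⟨by norm_num⟩
  h.norm_prime (p := 5) (q := 88704) (by norm_num) (by norm_num) h.cnt_five (by norm_num)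
    (by norm_num) hf

theorem norm_seven {f : G} (hf : orderOf f = 7) :
    Nat.card (normalizer (zpowers f : Set G)) = 21 :=
  haveI : Fact (Nat.Prime 7) := ⟨by norm_num⟩
  h.norm_prime (p := 7) (q := 63360) (by norm_num) (by norm_num) h.cnt_seven (by norm_num)
    (by norm_num) hf

theorem norm_eleven {f : G} (hf : orderOf f = 11) :
    Nat.card (normalizer (zpowers f : Set G)) = 55 :=
  haveI : Fact (Nat.Prime 11) := ⟨by norm_num⟩
  h.norm_prime (p := 11) (q := 40320) (by norm_num) (by norm_num) h.cnt_eleven (by norm_num)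
    (by norm_num) hf

/-- Only elements of order `p` commute with an element of order `p` in `{5, 7, 11}`. -/
theorem eq_of_dvd_orderOf {p : ℕ} (hp : p = 5 ∨ p = 7 ∨ p = 11) {g : G} (hd : p ∣ orderOf g) :
    orderOf g = p := by
  have hf := orderOf_pow_orderOf_div (orderOf_pos g).ne' hd
  have hg : g ∈ centralizer ({g ^ (orderOf g / p)} : Set G) :=
    mem_cent ((Commute.refl g).pow_left _)
  have := Subgroup.orderOf_dvd_natCard (s := centralizer ({g ^ (orderOf g / p)} : Set G)) hg
  rcases hp with rfl | rfl | rfl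
  · rw [h.cent_five hf] at this
    exact Nat.dvd_antisymm this hd
  · rw [h.cent_seven hf] at this
    exact Nat.dvd_antisymm this hd
  · rw [h.cent_eleven hf] at this
    exact Nat.dvd_antisymm this hd

/-- The element orders are `1, 2, 3, 5, 6, 7, 11` and powers of two, and `6` occurs `36960`
times. -/
theorem orders_and_six : cnt G 6 = 36960 ∧ ∀ g : G, orderOf g = 1 ∨ orderOf g = 2 ∨
    orderOf g = 3 ∨ orderOf g = 5 ∨ orderOf g = 6 ∨ orderOf g = 7 ∨ orderOf g = 11 ∨
    orderOf g ∣ 128 := by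
  classical
  obtain ⟨a, b, c, ha, hb, hc, hall⟩ := h.exists_orders
  have hne : ∀ x y : ℕ, cnt G x ≠ cnt G y → x ≠ y := fun x y hxy e => hxy (e ▸ rfl)
  have e1 : cnt G 1 = 1 := by rw [cnt_eq, CfsgLib.OrderCounts.cnt_one]
  have e2 := h.cnt_two
  have e3 := h.cnt_three
  have e5 := h.cnt_five
  have e7 := h.cnt_seven
  have e11 := h.cnt_eleven
  -- the count of solutions of `x ^ 128 = 1`
  have hval : ∀ d ∈ (128 : ℕ).divisors, cnt G d = (if d = 1 then 1 else 0) +
      (if d = 2 then 1155 else 0) + (if d = a then 41580 else 0) + (if d = b then 36960 else 0) +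
      (if d = c then 55440 else 0) := by
    intro d hd
    have hd' : d ∣ 128 := Nat.dvd_of_mem_divisors hd
    by_cases h0 : cnt G d = 0
    · have k1 := hne d 1 (by omega)
      have k2 := hne d 2 (by omega)
      have k3 := hne d a (by omega)
      have k4 := hne d b (by omega)
      have k5 := hne d c (by omega)
      simp [h0, k1, k2, k3, k4, k5]
    · have a1 := hne a 1 (by omega)
      have a2 := hne a 2 (by omega)
      have b1 := hne b 1 (by omega)
      have b2 := hne b 2 (by omega)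
      have c1 := hne c 1 (by omega)
      have c2 := hne c 2 (by omega)
      have ab := hne a b (by omega)
      have ac := hne a c (by omega)
      have bc := hne b c (by omega)
      rcases hall d h0 with e | e | e | e | e | e | e | e | e <;> subst e
      all_goals first
        | (exfalso; norm_num at hd'; done)
        | simp_all [Ne.symm a1, Ne.symm a2, Ne.symm b1, Ne.symm b2, Ne.symm c1, Ne.symm c2,
            Ne.symm ab, Ne.symm ac, Ne.symm bc]
  have hsum := Cfsg.Agent.S3995.dvd_sum_cnt (G := G) (N := 128) (by norm_num)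
    (by rw [h.card]; norm_num)
  change 128 ∣ ∑ d ∈ (128 : ℕ).divisors, cnt G d at hsum
  rw [Finset.sum_congr rfl hval] at hsum
  simp only [Finset.sum_add_distrib, Finset.sum_ite_eq'] at hsum
  have key : a ∈ (128 : ℕ).divisors ∧ b ∉ (128 : ℕ).divisors ∧ c ∈ (128 : ℕ).divisors := by
    rw [if_pos (by decide : (1 : ℕ) ∈ (128 : ℕ).divisors),
      if_pos (by decide : (2 : ℕ) ∈ (128 : ℕ).divisors)] at hsum
    by_cases hA : a ∈ (128 : ℕ).divisors <;> by_cases hB : b ∈ (128 : ℕ).divisors <;>
      by_cases hC : c ∈ (128 : ℕ).divisors <;>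
      simp only [hA, hB, hC, if_true, if_false] at hsum <;>
      first | exact ⟨hA, hB, hC⟩ | (exfalso; norm_num at hsum; done)
  obtain ⟨hA, hB, hC⟩ := key
  have hA' : a ∣ 128 := Nat.dvd_of_mem_divisors hA
  have hC' : c ∣ 128 := Nat.dvd_of_mem_divisors hC
  have hB' : ¬ b ∣ 128 := fun e => hB (Nat.mem_divisors.2 ⟨e, by norm_num⟩)
  obtain ⟨g, hg⟩ : ∃ g : G, orderOf g = b :=
    (CfsgLib.OrderCounts.cnt_ne_zero_iff b).1 (show cnt G b ≠ 0 by omega)
  have hp : ∀ p, (p = 5 ∨ p = 7 ∨ p = 11) → ¬ p ∣ b := by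
    intro p hp hd
    have := h.eq_of_dvd_orderOf hp (g := g) (hg ▸ hd)
    rw [hg] at this
    subst this
    rcases hp with rfl | rfl | rfl <;> omega
  have hb1152 : b ∣ 1152 := dvd_1152 (hg ▸ h.card ▸ _root_.orderOf_dvd_natCard g)
    (hp 5 (Or.inl rfl)) (hp 7 (Or.inr (Or.inl rfl))) (hp 11 (Or.inr (Or.inr rfl)))
  have hb3 : b ≠ 3 := hne b 3 (by omega)
  have hb9 : b ≠ 9 := by
    rintro rfl
    have h9 := Cfsg.Agent.S3995.dvd_sum_cnt (G := G) (N := 9) (by norm_num)
      (by rw [h.card]; norm_num)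
    change 9 ∣ ∑ d ∈ (9 : ℕ).divisors, cnt G d at h9
    rw [show (9 : ℕ).divisors = {1, 3, 9} by decide] at h9
    simp [e1, e3, hb] at h9
  have h6b : 6 ∣ b :=
    (show ∀ n ∈ (1152 : ℕ).divisors, ¬ n ∣ 128 → n ≠ 3 → n ≠ 9 → 6 ∣ n by decide +kernel)
      b (Nat.mem_divisors.2 ⟨hb1152, by norm_num⟩) hB' hb3 hb9
  have h6 : 6 = b := by
    have h60 : cnt G 6 ≠ 0 := cnt_ne_zero (orderOf_pow_orderOf_div (x := g) (n := 6)
      (orderOf_pos g).ne' (hg ▸ h6b))
    rcases hall 6 h60 with e | e | e | e | e | e | e | e | e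
    all_goals first
      | exact e
      | omega
      | (exfalso; rw [← e] at hA'; norm_num at hA'; done)
      | (exfalso; rw [← e] at hC'; norm_num at hC'; done)
  refine ⟨h6 ▸ hb, fun g => ?_⟩
  rcases hall (orderOf g) (cnt_ne_zero rfl) with e | e | e | e | e | e | e | e | e
  · exact Or.inl e
  · exact Or.inr (Or.inl e)
  · exact Or.inr (Or.inr (Or.inl e))
  · exact Or.inr (Or.inr (Or.inr (Or.inl e)))
  · exact Or.inr (Or.inr (Or.inr (Or.inr (Or.inr (Or.inl e)))))
  · exact Or.inr (Or.inr (Or.inr (Or.inr (Or.inr (Or.inr (Or.inl e))))))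
  · exact Or.inr (Or.inr (Or.inr (Or.inr (Or.inr (Or.inr (Or.inr (e ▸ hA')))))))
  · exact Or.inr (Or.inr (Or.inr (Or.inr (Or.inl (e.trans h6.symm)))))
  · exact Or.inr (Or.inr (Or.inr (Or.inr (Or.inr (Or.inr (Or.inr (e ▸ hC')))))))

theorem cnt_six : cnt G 6 = 36960 := h.orders_and_six.1

theorem no_nine (g : G) : orderOf g ≠ 9 := by
  intro e
  have := h.orders_and_six.2 g
  rw [e] at this
  norm_num at this

theorem no_twelve (g : G) : orderOf g ≠ 12 := by
  intro e
  have := h.orders_and_six.2 g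
  rw [e] at this
  norm_num at this

theorem sylow_three (P : Sylow 3 G) : Nat.card (P : Subgroup G) = 9 := by
  haveI : Fact (Nat.Prime 3) := ⟨Nat.prime_three⟩
  exact CfsgLib.SylowToolkit.card_sylow_subgroup_eq (k := 2) (m := 49280) (by rw [h.card]; norm_num)
    (by norm_num) P

/-- The order of the centraliser of an element of order two or three. -/
theorem cent_dvd {x : G} (hx : orderOf x = 2 ∨ orderOf x = 3) :
    Nat.card (centralizer ({x} : Set G)) ∣ 1152 := by
  have hp : ∀ p : ℕ, p = 5 ∨ p = 7 ∨ p = 11 → ¬ p ∣ Nat.card (centralizer ({x} : Set G)) := by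
    intro p hp hd
    haveI : Fact p.Prime := ⟨by rcases hp with rfl | rfl | rfl <;> norm_num⟩
    obtain ⟨y, hy⟩ := exists_prime_orderOf_dvd_card' (G := centralizer ({x} : Set G)) p hd
    have hy' : orderOf (y : G) = p := by rw [Subgroup.orderOf_coe]; exact hy
    have hco : (orderOf x).Coprime (orderOf (y : G)) := by
      rw [hy']
      rcases hx with e | e <;> rw [e] <;> rcases hp with rfl | rfl | rfl <;> norm_num
    have := h.eq_of_dvd_orderOf hp (g := x * y)
      (by rw [(comm_of_mem y.2).orderOf_mul_eq_mul_orderOf_of_coprime hco, hy']; exact dvd_mul_left _ _)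
    rw [(comm_of_mem y.2).orderOf_mul_eq_mul_orderOf_of_coprime hco, hy'] at this
    rcases hx with e | e <;> rw [e] at this <;> rcases hp with rfl | rfl | rfl <;> omega
  exact dvd_1152 (h.card ▸ card_subgroup_dvd_card _) (hp 5 (Or.inl rfl))
    (hp 7 (Or.inr (Or.inl rfl))) (hp 11 (Or.inr (Or.inr rfl)))

/-- A two-group commuting with an element of order three has exponent two. -/
theorem invol_of_commute {x y : G} (hx : orderOf x = 3) (hc : Commute x y)
    (hy : orderOf y ∣ 128) (hy1 : y ≠ 1) : orderOf y = 2 := by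
  have hy1' : orderOf y ≠ 1 := mt orderOf_eq_one_iff.1 hy1
  have hco : (orderOf x).Coprime (orderOf y) := by
    rw [hx]
    exact Nat.Coprime.coprime_dvd_right hy (by norm_num)
  have e := hc.orderOf_mul_eq_mul_orderOf_of_coprime hco
  rw [hx] at e
  have h3 : ¬ 3 * orderOf y ∣ 128 := fun e => by
    have := (dvd_mul_right 3 _).trans e
    norm_num at this
  rcases h.orders_and_six.2 (x * y) with r | r | r | r | r | r | r | r <;> rw [e] at r <;>
    first | omega | exact absurd r h3

/-- A four-subgroup of the centraliser of an element of order three gives three involutions. -/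
theorem exists_invol_embedding {x : G} (hx : orderOf x = 3) {j : ℕ}
    (hj : 2 ^ j ∣ Nat.card (centralizer ({x} : Set G))) (hj7 : j ≤ 7) :
    ∃ R : Subgroup G, Nat.card R = 2 ^ j ∧ R ≤ centralizer ({x} : Set G) ∧
      (∀ r ∈ R, r ≠ 1 → orderOf r = 2) ∧
      2 ^ j - 1 ≤ Nat.card {t : G // orderOf t = 2 ∧ Commute x t} := by
  haveI : Fact (Nat.Prime 2) := ⟨Nat.prime_two⟩
  obtain ⟨R₀, hR₀⟩ := Sylow.exists_subgroup_card_pow_prime (G := centralizer ({x} : Set G)) 2 hj
  refine ⟨R₀.map (centralizer ({x} : Set G)).subtype, ?_, map_subtype_le R₀, ?_, ?_⟩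
  · rw [← hR₀]
    exact Nat.card_congr (R₀.equivMapOfInjective _ (subtype_injective _)).toEquiv.symm
  · rintro r ⟨y, hy, rfl⟩ hr
    refine h.invol_of_commute hx (comm_of_mem y.2) ?_ hr
    show orderOf ((y : G)) ∣ 128
    rw [Subgroup.orderOf_coe]
    exact ((hR₀ ▸ Subgroup.orderOf_dvd_natCard (s := R₀) hy).trans (pow_dvd_pow 2 hj7))
  · classical
    haveI := Fintype.ofFinite R₀
    have hc : Nat.card {r : R₀ // r ≠ 1} = 2 ^ j - 1 := by
      rw [Nat.card_eq_fintype_card, Fintype.card_subtype_compl, Fintype.card_subtype_eq,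
        ← Nat.card_eq_fintype_card, hR₀]
    rw [← hc]
    refine Nat.card_le_card_of_injective (fun r : {r : R₀ // r ≠ 1} =>
      (⟨((r.1 : centralizer ({x} : Set G)) : G), h.invol_of_commute hx (comm_of_mem r.1.1.2) (by
          rw [Subgroup.orderOf_coe]
          exact ((hR₀ ▸ Subgroup.orderOf_dvd_natCard (s := R₀) r.1.2).trans (pow_dvd_pow 2 hj7)))
          (fun e => r.2 (Subtype.ext (Subtype.ext e))),
        comm_of_mem r.1.1.2⟩ : {t : G // orderOf t = 2 ∧ Commute x t})) fun r s e => ?_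
    have e' : ((r.1 : centralizer ({x} : Set G)) : G) = ((s.1 : centralizer ({x} : Set G)) : G) :=
      congrArg (fun z : {t : G // orderOf t = 2 ∧ Commute x t} => z.1) e
    exact Subtype.ext (Subtype.ext (Subtype.ext e'))

omit h in
theorem le_cent_of_mem {P : Subgroup G} [IsMulCommutative P] {y : G} (hy : y ∈ P) :
    P ≤ centralizer ({y} : Set G) := fun z hz =>
  mem_centralizer_singleton_iff.2
    (congrArg Subtype.val (mul_comm' (⟨z, hz⟩ : P) ⟨y, hy⟩))

theorem sylow_comm (P : Sylow 3 G) : IsMulCommutative (P : Subgroup G) := by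
  haveI : Fact (Nat.Prime 3) := ⟨Nat.prime_three⟩
  exact ⟨⟨IsPGroup.commutative_of_card_eq_prime_sq (p := 3) (by rw [h.sylow_three P]; norm_num)⟩⟩

theorem exists_sylow_mem {x : G} (hx : orderOf x = 3) :
    ∃ P : Sylow 3 G, x ∈ (P : Subgroup G) ∧ (P : Subgroup G) ≤ centralizer ({x} : Set G) := by
  haveI : Fact (Nat.Prime 3) := ⟨Nat.prime_three⟩
  obtain ⟨P, hP⟩ := (IsPGroup.of_card (n := 1) (show Nat.card (zpowers x) = 3 ^ 1 by
    rw [Nat.card_zpowers, hx, pow_one])).exists_le_sylow
  haveI := h.sylow_comm P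
  exact ⟨P, hP (mem_zpowers x), le_cent_of_mem (hP (mem_zpowers x))⟩

theorem nine_dvd_cent {x : G} (hx : orderOf x = 3) :
    9 ∣ Nat.card (centralizer ({x} : Set G)) := by
  obtain ⟨P, -, hPC⟩ := h.exists_sylow_mem hx
  exact h.sylow_three P ▸ card_dvd_of_le hPC

theorem four_dvd_cent {x : G} (hx : orderOf x = 3) :
    4 ∣ Nat.card (centralizer ({x} : Set G)) ∧
      (Nat.card (centralizer ({x} : Set G)) = 36 ∨
        8 ∣ Nat.card (centralizer ({x} : Set G))) := by
  have hd := h.cent_dvd (Or.inr hx)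
  have hle := index_le x 3 hx
  have hmul := Subgroup.card_mul_index (centralizer ({x} : Set G))
  rw [h.cnt_three] at hle
  rw [h.card] at hmul
  have h36 : 36 ≤ Nat.card (centralizer ({x} : Set G)) := by
    by_contra hlt
    have := Nat.mul_le_mul (show Nat.card (centralizer ({x} : Set G)) ≤ 35 by omega) hle
    omega
  exact (show ∀ n ∈ (1152 : ℕ).divisors, 36 ≤ n → 9 ∣ n → 4 ∣ n ∧ (n = 36 ∨ 8 ∣ n) by
    decide +kernel) _ (Nat.mem_divisors.2 ⟨hd, by norm_num⟩) h36 (h.nine_dvd_cent hx)

theorem three_invol {x : G} (hx : orderOf x = 3) :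
    Nat.card {t : G // orderOf t = 2 ∧ Commute x t} = 3 := by
  classical
  haveI := Fintype.ofFinite {y : G // orderOf y = 3}
  have hlow : ∀ y : {y : G // orderOf y = 3},
      3 ≤ Nat.card {t : G // orderOf t = 2 ∧ Commute (y : G) t} := fun y => by
    obtain ⟨R, -, -, -, hR⟩ := h.exists_invol_embedding y.2 (j := 2)
      (by simpa using (h.four_dvd_cent y.2).1) (by norm_num)
    simpa using hR
  have hsum : ∑ _y : {y : G // orderOf y = 3}, 3 =
      ∑ y : {y : G // orderOf y = 3}, Nat.card {t : G // orderOf t = 2 ∧ Commute (y : G) t} := by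
    rw [sum_invol_three, h.cnt_six, Finset.sum_const, Finset.card_univ, smul_eq_mul,
      ← Nat.card_eq_fintype_card, show Nat.card {y : G // orderOf y = 3} = 12320 from h.cnt_three]
  exact ((Finset.sum_eq_sum_iff_of_le fun y _ => hlow y).1 hsum ⟨x, hx⟩ (Finset.mem_univ _)).symm

theorem cent_three {x : G} (hx : orderOf x = 3) :
    Nat.card (centralizer ({x} : Set G)) = 36 := by
  refine (h.four_dvd_cent hx).2.resolve_right fun h8 => ?_
  obtain ⟨R, -, -, -, hR⟩ := h.exists_invol_embedding hx (j := 3) (by simpa using h8) (by norm_num)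
  rw [h.three_invol hx] at hR
  norm_num at hR

theorem conj_three {x y : G} (hx : orderOf x = 3) (hy : orderOf y = 3) :
    ∃ z : G, z * x * z⁻¹ = y := by
  refine conj_of_index_eq x 3 hx ?_ hy
  have hmul := Subgroup.card_mul_index (centralizer ({x} : Set G))
  rw [h.cent_three hx, h.card] at hmul
  rw [h.cnt_three]
  omega

/-- With abelian centralisers of elements of order three, an involution centralises at most one
Sylow `3`-subgroup. -/
theorem three_le_nine (hab : ∀ y : G, orderOf y = 3 → ∀ u v : G, Commute y u → Commute y v →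
    Commute u v) {t : G} (ht : orderOf t = 2) :
    Nat.card {x : G // orderOf x = 3 ∧ Commute x t} ≤ 9 := by
  haveI : Fact (Nat.Prime 3) := ⟨Nat.prime_three⟩
  rcases isEmpty_or_nonempty {x : G // orderOf x = 3 ∧ Commute x t} with he | ⟨⟨y, hy, hyt⟩⟩
  · rw [Nat.card_of_isEmpty]; norm_num
  set H := centralizer ({t} : Set G) with hH
  have hCH : ∀ w : G, orderOf w = 3 → Commute w t → centralizer ({w} : Set G) ≤ H :=
    fun w hw hwt u hu => mem_cent (hab w hw t u hwt (comm_of_mem hu))
  obtain ⟨P₀, hyP, hP₀C⟩ := h.exists_sylow_mem hy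
  have hP₀H : (P₀ : Subgroup G) ≤ H := hP₀C.trans (hCH y hy hyt)
  have hdH := h.cent_dvd (Or.inl ht)
  rw [← hH] at hdH
  have h9 : 9 ∣ Nat.card H := h.sylow_three P₀ ▸ card_dvd_of_le hP₀H
  obtain ⟨m, hm⟩ := h9
  have hm128 : m ∣ 128 := by
    rw [hm, show (1152 : ℕ) = 9 * 128 by norm_num] at hdH
    exact Nat.dvd_of_mul_dvd_mul_left (by norm_num) hdH
  have hm3 : ¬ 3 ∣ m := fun e => by
    have := e.trans hm128
    norm_num at this
  set P : Sylow 3 H := P₀.subtype hP₀H
  have hcardP : ∀ Q : Sylow 3 H, Nat.card (Q : Subgroup H) = 9 := fun Q => by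
    simpa using CfsgLib.SylowToolkit.card_sylow_subgroup_eq (k := 2) (m := m)
      (by rw [hm]; norm_num) hm3 Q
  have hcomm : ∀ Q : Sylow 3 H, ∀ a ∈ (Q : Subgroup H), ∀ b ∈ (Q : Subgroup H), a * b = b * a := by
    intro Q a ha b hb
    exact congrArg Subtype.val (IsPGroup.commutative_of_card_eq_prime_sq (p := 3)
      (by rw [hcardP Q]; norm_num) (⟨a, ha⟩ : (Q : Subgroup H)) ⟨b, hb⟩)
  have hord : ∀ w : H, ∀ Q : Sylow 3 H, w ∈ (Q : Subgroup H) → w ≠ 1 → orderOf (w : G) = 3 := by
    intro w Q hw hw1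
    have hd : orderOf (w : G) ∣ 3 ^ 2 := by
      rw [Subgroup.orderOf_coe, show (3 : ℕ) ^ 2 = 9 by norm_num, ← hcardP Q]
      exact Subgroup.orderOf_dvd_natCard (s := (Q : Subgroup H)) hw
    obtain ⟨i, hi, e⟩ := (Nat.dvd_prime_pow Nat.prime_three).1 hd
    interval_cases i
    · exact absurd (Subtype.ext (orderOf_eq_one_iff.1 (by rw [e]; rfl))) hw1
    · simpa using e
    · exact absurd (by rw [e]; rfl) (h.no_nine (w : G))
  have hwt : ∀ w : H, Commute (w : G) t := fun w => (comm_of_mem w.2).symm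
  have hmod : Nat.card (Sylow 3 H) ≡ 1 [MOD 3 ^ 2] := by
    by_contra hcon
    obtain ⟨Q, hQ, hlt⟩ := CfsgLib.SylowToolkit.exists_relIndex_lt P hcon
    obtain ⟨w, hw, hw1⟩ : ∃ w : H, w ∈ (Q : Subgroup H) ⊓ (P : Subgroup H) ∧ w ≠ 1 := by
      by_contra hno
      have hbot : (Q : Subgroup H) ⊓ (P : Subgroup H) = ⊥ := by
        rw [eq_bot_iff]
        intro w hw
        rw [mem_bot]
        by_contra hw1
        exact hno ⟨w, hw, hw1⟩
      rw [← inf_relIndex_right, hbot, relIndex_bot_left, hcardP P] at hlt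
      norm_num at hlt
    have hw3 := hord w Q hw.1 hw1
    have key : ∀ R : Sylow 3 H, w ∈ (R : Subgroup H) → ∀ a ∈ (R : Subgroup H),
        Commute (w : G) (a : G) := fun R hwR a ha =>
      congrArg (Subtype.val) (hcomm R w hwR a ha)
    have hQP : (Q : Subgroup H) ≤ (P : Subgroup H) := by
      intro b hb
      have hn : b ∈ normalizer ((P : Subgroup H) : Set H) := by
        refine mem_normalizer_iff.2 fun a => ?_
        have hfix : ∀ a ∈ (P : Subgroup H), b * a * b⁻¹ = a := fun a ha =>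
          mul_inv_eq_iff_eq_mul.2 (Subtype.ext
            (hab _ hw3 (b : G) (a : G) (key Q hw.1 b hb) (key P hw.2 a ha)).eq)
        refine ⟨fun ha => by rw [hfix a ha]; exact ha, fun ha => ?_⟩
        have e := hfix _ ha
        have : b * a * b⁻¹ = a := by
          have := congrArg (fun z => b⁻¹ * z * b) e
          simp only [mul_assoc, inv_mul_cancel_left, inv_mul_cancel, mul_one] at this
          simpa [mul_assoc] using this
        rwa [this] at ha
      exact (Q.isPGroup'.inf_normalizer_sylow P).le ⟨hb, hn⟩ |>.2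
    exact hQ (Sylow.ext (eq_of_le_of_card_ge hQP (by rw [hcardP P, hcardP Q])))
  have hN := CfsgLib.SylowToolkit.card_normalizer_mul P
  have h36 : 36 ∣ Nat.card (normalizer ((P : Subgroup H) : Set H)) := by
    have hle : (centralizer ({y} : Set G)).subgroupOf H ≤
        normalizer ((P : Subgroup H) : Set H) := by
      intro b hb
      refine (centralizer_le_normalizer _) (mem_centralizer_iff.2 fun a ha => ?_)
      have haC : (a : G) ∈ centralizer ({y} : Set G) := hP₀C ha
      exact Subtype.ext (hab y hy (a : G) (b : G) (comm_of_mem haC) (comm_of_mem hb)).eq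
    have := card_dvd_of_le hle
    rwa [Nat.card_congr (subgroupOfEquivOfLe (hCH y hy hyt)).toEquiv, h.cent_three hy] at this
  have hn1 : Nat.card (Sylow 3 H) = 1 := by
    have hdvd : Nat.card (Sylow 3 H) ∣ 128 :=
      (CfsgLib.SylowToolkit.card_sylow_dvd (k := 2) (by rw [hm]; norm_num) hm3).trans hm128
    obtain ⟨k, hk⟩ := h36
    rw [hk] at hN
    have hpos : 0 < Nat.card H := Nat.card_pos
    have hle : Nat.card (Sylow 3 H) ≤ 32 := by
      have hk0 : 1 ≤ k := by
        rcases Nat.eq_zero_or_pos k with rfl | hk0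
        · simp at hN
          omega
        · exact hk0
      have h1 : Nat.card H ≤ 1152 := Nat.le_of_dvd (by norm_num) hdH
      nlinarith
    exact (show ∀ n ∈ (128 : ℕ).divisors, n ≤ 32 → n % 9 = 1 → n = 1 by decide +kernel) _
      (Nat.mem_divisors.2 ⟨hdvd, by norm_num⟩) hle (by simpa [Nat.ModEq] using hmod)
  have hsub : Subsingleton (Sylow 3 H) := (Nat.card_eq_one_iff_unique.1 hn1).1
  have hmemP : ∀ x : G, orderOf x = 3 → Commute x t → x ∈ (P₀ : Subgroup G) := by
    intro x hx hxt
    have hxH : x ∈ H := mem_cent hxt.symm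
    obtain ⟨Q, hQ⟩ := (IsPGroup.of_card (n := 1) (show Nat.card (zpowers (⟨x, hxH⟩ : H)) = 3 ^ 1 by
      rw [Nat.card_zpowers, Subgroup.orderOf_mk, hx, pow_one])).exists_le_sylow
    have := hQ (mem_zpowers (⟨x, hxH⟩ : H))
    rw [Subsingleton.elim Q P] at this
    exact this
  refine le_of_le_of_eq (Nat.card_le_card_of_injective
    (fun x : {x : G // orderOf x = 3 ∧ Commute x t} =>
      (⟨x.1, hmemP x.1 x.2.1 x.2.2⟩ : (P₀ : Subgroup G))) fun a b e => ?_) (h.sylow_three P₀)
  exact Subtype.ext (by simpa using congrArg Subtype.val e)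

theorem three_fuse {x s t : G} (hx : orderOf x = 3) (hs : orderOf s = 2) (ht : orderOf t = 2)
    (hxs : Commute x s) (hxt : Commute x t) : ∃ z : G, Commute z x ∧ z * s * z⁻¹ = t := by
  classical
  set C := centralizer ({x} : Set G) with hC
  haveI : Fact (Nat.Prime 2) := ⟨Nat.prime_two⟩
  obtain ⟨R, hRc, hRC, hR2, -⟩ :=
    h.exists_invol_embedding hx (j := 2) (by simpa using (h.four_dvd_cent hx).1) (by norm_num)
  -- the three involutions are the nonidentity elements of `R`
  have hmemR : ∀ u : G, orderOf u = 2 → Commute x u → u ∈ R := by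
    intro u hu hxu
    haveI := Fintype.ofFinite R
    let f : {r : R // r ≠ 1} → {t : G // orderOf t = 2 ∧ Commute x t} := fun r =>
      ⟨(r.1 : G), hR2 _ r.1.2 (fun e => r.2 (Subtype.ext e)), comm_of_mem (hRC r.1.2)⟩
    have hf : Function.Bijective f := by
      refine (Nat.bijective_iff_injective_and_card f).2
        ⟨fun r r' e => Subtype.ext (Subtype.ext
          (congrArg (fun z : {t : G // orderOf t = 2 ∧ Commute x t} => z.1) e :)), ?_⟩
      rw [h.three_invol hx, Nat.card_eq_fintype_card, Fintype.card_subtype_compl,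
        Fintype.card_subtype_eq, ← Nat.card_eq_fintype_card, hRc]
      norm_num
    obtain ⟨r, hr⟩ := hf.2 ⟨u, hu, hxu⟩
    have : (r.1 : G) = u := congrArg Subtype.val hr
    exact this ▸ r.1.2
  have hRcomm : ∀ a ∈ R, ∀ b ∈ R, a * b = b * a := fun a ha b hb =>
    congrArg Subtype.val (IsPGroup.commutative_of_card_eq_prime_sq (p := 2) hRc
      (⟨a, ha⟩ : R) ⟨b, hb⟩)
  -- an involution is either central in `C` or fused to all three
  have hdich : ∀ u : G, orderOf u = 2 → Commute x u → C ≤ centralizer ({u} : Set G) ∨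
      ∀ v : G, orderOf v = 2 → Commute x v → ∃ z : G, Commute z x ∧ z * u * z⁻¹ = v := by
    intro u hu hxu
    set K := C ⊓ centralizer ({u} : Set G) with hK
    have hRK : R ≤ K :=
      le_inf hRC fun r hr => mem_cent (hRcomm u (hmemR u hu hxu) r hr)
    have hxK : x ∈ K := ⟨mem_cent (Commute.refl x), mem_cent hxu.symm⟩
    have h4 : 4 ∣ Nat.card K := by simpa [hRc] using card_dvd_of_le hRK
    have h3 : 3 ∣ Nat.card K := hx ▸ Subgroup.orderOf_dvd_natCard (s := K) hxK
    have hK36 : Nat.card K ∣ 36 := h.cent_three hx ▸ card_dvd_of_le (inf_le_left : K ≤ C)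
    rcases (show ∀ n ∈ (36 : ℕ).divisors, 4 ∣ n → 3 ∣ n → n = 12 ∨ n = 36 by decide) _
      (Nat.mem_divisors.2 ⟨hK36, by norm_num⟩) h4 h3 with e | e
    swap
    · left
      exact (eq_of_le_of_card_ge (inf_le_left : K ≤ C) (by rw [h.cent_three hx, e])).ge.trans
        inf_le_right
    right
    intro v hv hxv
    let f : C ⧸ K.subgroupOf C → {t : G // orderOf t = 2 ∧ Commute x t} := fun q =>
      ⟨((q.out : C) : G) * u * ((q.out : C) : G)⁻¹, (orderOf_conj _ _).trans hu, by
        have h1 := (Commute.conj_iff ((q.out : C) : G)).2 hxu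
        rwa [mul_inv_eq_iff_eq_mul.2 (mem_centralizer_singleton_iff.1 q.out.2)] at h1⟩
    have hf : Function.Bijective f := by
      refine (Nat.bijective_iff_injective_and_card f).2 ⟨fun q r e' => ?_, ?_⟩
      · have e' : ((q.out : C) : G) * u * ((q.out : C) : G)⁻¹ =
            ((r.out : C) : G) * u * ((r.out : C) : G)⁻¹ := congrArg Subtype.val e'
        rw [← q.out_eq', ← r.out_eq', QuotientGroup.eq, mem_subgroupOf]
        refine ⟨(q.out⁻¹ * r.out).2, mem_centralizer_singleton_iff.2 ?_⟩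
        calc ((q.out : C) : G)⁻¹ * (r.out : C) * u
            = ((q.out : C) : G)⁻¹ * (((r.out : C) : G) * u * ((r.out : C) : G)⁻¹) * (r.out : C) := by
              group
          _ = ((q.out : C) : G)⁻¹ * (((q.out : C) : G) * u * ((q.out : C) : G)⁻¹) * (r.out : C) := by
              rw [e']
          _ = u * (((q.out : C) : G)⁻¹ * (r.out : C)) := by group
      · rw [h.three_invol hx]
        show (K.subgroupOf C).index = 3
        have := Subgroup.card_mul_index (K.subgroupOf C)
        rw [Nat.card_congr (subgroupOfEquivOfLe (inf_le_left : K ≤ C)).toEquiv, e,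
          h.cent_three hx] at this
        omega
    obtain ⟨q, hq⟩ := hf.2 ⟨v, hv, hxv⟩
    exact ⟨(q.out : C), (comm_of_mem q.out.2).symm, congrArg Subtype.val hq⟩
  by_contra hcon
  have hsC : C ≤ centralizer ({s} : Set G) :=
    (hdich s hs hxs).resolve_right fun hf => hcon (hf t ht hxt)
  -- then all three involutions are central
  have hall : ∀ u : G, orderOf u = 2 → Commute x u → C ≤ centralizer ({u} : Set G) := by
    intro u hu hxu
    rcases hdich u hu hxu with hl | hr
    · exact hl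
    · obtain ⟨z, hzx, hz⟩ := hr s hs hxs
      have hzs : z * s * z⁻¹ = s :=
        mul_inv_eq_iff_eq_mul.2 (mem_centralizer_singleton_iff.1 (hsC (mem_cent hzx.symm)))
      have hus : u = s := by
        have e := hz.trans hzs.symm
        exact mul_left_cancel (mul_right_cancel e)
      rw [hus]
      exact hsC
  -- so the centraliser is abelian
  obtain ⟨P, hxP, hPC⟩ := h.exists_sylow_mem hx
  haveI := h.sylow_comm P
  have hCab : ∀ u ∈ C, ∀ v ∈ C, Commute u v := by
    have hdisj : (P : Subgroup G) ⊓ R = ⊥ :=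
      inf_eq_bot_of_coprime (by rw [h.sylow_three P, hRc]; norm_num)
    have hRz : ∀ r ∈ R, ∀ c ∈ C, Commute r c := by
      intro r hr c hc
      by_cases hr1 : r = 1
      · rw [hr1]; exact Commute.one_left c
      · exact comm_of_mem (hall r (hR2 r hr hr1) (comm_of_mem (hRC hr)) hc)
    let f : ↥(P : Subgroup G) × ↥R → C := fun a => ⟨a.1.1 * a.2.1, mul_mem (hPC a.1.2) (hRC a.2.2)⟩
    have hf : Function.Bijective f := by
      refine (Nat.bijective_iff_injective_and_card f).2 ⟨fun a b e => ?_, ?_⟩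
      · exact mul_injective_of_disjoint (disjoint_iff.2 hdisj) (congrArg Subtype.val e)
      · rw [Nat.card_prod, h.sylow_three P, hRc, hC, h.cent_three hx]
        norm_num
    intro u hu v hv
    obtain ⟨⟨p, r⟩, hpr⟩ := hf.2 ⟨u, hu⟩
    obtain ⟨⟨p', r'⟩, hpr'⟩ := hf.2 ⟨v, hv⟩
    have e1 : u = p.1 * r.1 := (congrArg Subtype.val hpr).symm
    have e2 : v = p'.1 * r'.1 := (congrArg Subtype.val hpr').symm
    rw [e1, e2]
    have hpp : Commute (p : G) (p' : G) := congrArg Subtype.val (mul_comm' p p')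
    exact Commute.mul_left
      (hpp.mul_right (hRz _ r'.2 _ (hPC p.2)).symm) (hRz _ r.2 _ (mul_mem (hPC p'.2) (hRC r'.2)))
  have hab : ∀ y : G, orderOf y = 3 → ∀ u v : G, Commute y u → Commute y v → Commute u v := by
    intro y hy u v hu hv
    obtain ⟨z, rfl⟩ := h.conj_three hx hy
    have hmem : ∀ u : G, Commute (z * x * z⁻¹) u → z⁻¹ * u * z ∈ C := fun u hu => mem_cent (by
      have h1 := (Commute.conj_iff z⁻¹).2 hu
      simpa [mul_assoc] using h1)
    have h1 := (Commute.conj_iff z).2 (hCab _ (hmem u hu) _ (hmem v hv))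
    simpa [mul_assoc] using h1
  haveI := Fintype.ofFinite {t : G // orderOf t = 2}
  have hle : ∑ t : {t : G // orderOf t = 2}, Nat.card {x : G // orderOf x = 3 ∧ Commute x (t : G)} ≤
      ∑ _t : {t : G // orderOf t = 2}, 9 :=
    Finset.sum_le_sum fun t _ => h.three_le_nine hab t.2
  rw [sum_three_invol, h.cnt_six, Finset.sum_const, Finset.card_univ, smul_eq_mul,
    ← Nat.card_eq_fintype_card, show Nat.card {t : G // orderOf t = 2} = 1155 from h.cnt_two] at hle
  norm_num at hle

theorem exists_three_commute {t : G} (ht : orderOf t = 2) :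
    ∃ x : G, orderOf x = 3 ∧ Commute x t := by
  haveI : Fact (Nat.Prime 3) := ⟨Nat.prime_three⟩
  by_cases h3 : 3 ∣ Nat.card (centralizer ({t} : Set G))
  · obtain ⟨x, hx⟩ := exists_prime_orderOf_dvd_card' (G := centralizer ({t} : Set G)) 3 h3
    exact ⟨x, by rw [Subgroup.orderOf_coe]; exact hx, (comm_of_mem x.2).symm⟩
  exfalso
  have hd : Nat.card (centralizer ({t} : Set G)) ∣ 128 := by
    have h9 : (Nat.card (centralizer ({t} : Set G))).Coprime 9 := by
      rw [show (9 : ℕ) = 3 ^ 2 by norm_num]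
      exact ((Nat.prime_three.coprime_iff_not_dvd).2 h3).symm.pow_right 2
    exact h9.dvd_of_dvd_mul_right (show _ ∣ 128 * 9 from h.cent_dvd (Or.inl ht))
  have hle := index_le t 2 ht
  have hmul := Subgroup.card_mul_index (centralizer ({t} : Set G))
  rw [h.cnt_two] at hle
  rw [h.card] at hmul
  have := Nat.mul_le_mul (Nat.le_of_dvd (by norm_num) hd) hle
  omega

theorem invol_conj {s t : G} (hs : orderOf s = 2) (ht : orderOf t = 2) :
    ∃ z : G, z * s * z⁻¹ = t := by
  obtain ⟨x, hx, hxs⟩ := h.exists_three_commute hs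
  obtain ⟨y, hy, hyt⟩ := h.exists_three_commute ht
  obtain ⟨a, rfl⟩ := h.conj_three hx hy
  obtain ⟨z, -, hz⟩ := h.three_fuse hy ((orderOf_conj a s).trans hs) ht
    ((Commute.conj_iff a).2 hxs) hyt
  exact ⟨z * a, by rw [← hz]; group⟩

theorem cent_invol {t : G} (ht : orderOf t = 2) :
    Nat.card (centralizer ({t} : Set G)) = 384 := by
  have hi := index_eq_of_conj t 2 ht fun y hy => h.invol_conj ht hy
  have hmul := Subgroup.card_mul_index (centralizer ({t} : Set G))
  rw [hi, h.cnt_two, h.card] at hmul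
  omega

theorem invol_three {t : G} (ht : orderOf t = 2) :
    Nat.card {x : G // orderOf x = 3 ∧ Commute x t} = 32 := by
  classical
  haveI := Fintype.ofFinite {t : G // orderOf t = 2}
  have hconst : ∀ v : {t : G // orderOf t = 2},
      Nat.card {x : G // orderOf x = 3 ∧ Commute x (v : G)} =
        Nat.card {x : G // orderOf x = 3 ∧ Commute x t} := fun v => by
    obtain ⟨z, hz⟩ := h.invol_conj ht v.2
    refine (Nat.card_congr ((MulAut.conj z).toEquiv.subtypeEquiv fun x => ?_)).symm
    show _ ↔ orderOf ((MulAut.conj z) x) = 3 ∧ Commute ((MulAut.conj z) x) (v : G)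
    rw [MulEquiv.orderOf_eq, MulAut.conj_apply, ← hz, Commute.conj_iff]
  have hsum := sum_three_invol (G := G)
  rw [Finset.sum_congr rfl (fun v _ => hconst v), Finset.sum_const, Finset.card_univ, smul_eq_mul,
    ← Nat.card_eq_fintype_card, h.cnt_six,
    show Nat.card {t : G // orderOf t = 2} = 1155 from h.cnt_two] at hsum
  omega

/-- The facts read off from the counts. -/
theorem setup : Setup G where
  card := h.card
  invol_conj _ _ hs ht := isConj_iff.2 (h.invol_conj hs ht)
  cent_invol _ ht := h.cent_invol ht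
  cent_three _ hx := h.cent_three hx
  three_invol _ hx := h.three_invol hx
  three_fuse _ _ _ hx hs ht hxs hxt := h.three_fuse hx hs ht hxs hxt
  invol_three _ ht := h.invol_three ht
  cent_five _ hf := h.cent_five hf
  cent_seven _ hf := h.cent_seven hf
  cent_eleven _ hf := h.cent_eleven hf
  norm_five _ hf := h.norm_five hf
  norm_seven _ hf := h.norm_seven hf
  norm_eleven _ hf := h.norm_eleven hf
  no_nine := h.no_nine
  no_twelve := h.no_twelve
  sylow_three := h.sylow_three

end CountHyp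

end CfsgLib.M22Count
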