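import Cfsg.Prelude.Def_Spor_Mathieu
import Mathlib.GroupTheory.Sylow

/-!
Shared definitions for the recognition of `M₂₂` by its order and its element-order counts.

Route: the counts give `Setup`; `Setup` gives an elementary abelian `E` of order 16 (`Hexad`) whose
77 conjugates, joined when their involutions do not commute with each other, form a strongly
regular graph with parameters `(77, 16, 0, 4)`.
-/

set_option autoImplicit false

open scoped Pointwise

namespace CfsgLib.M22Count

universe u

/-- The number of elements of order `n`. -/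
noncomputable def cnt (G : Type u) [Group G] (n : ℕ) : ℕ := Nat.card {g : G // orderOf g = n}

/-- The values taken by the element-order counts of `M₂₂`. -/
def countValues : Finset ℕ :=
  {1, 1155, 12320, 41580, 88704, 36960, 126720, 55440, 80640}

/-- The hypothesis on a group with the order and the set of counts of `M₂₂`. -/
structure CountHyp (G : Type u) [Group G] : Prop where
  card : Nat.card G = 443520
  mem : ∀ n : ℕ, cnt G n ≠ 0 → cnt G n ∈ countValues
  surj : ∀ c ∈ countValues, ∃ n : ℕ, cnt G n = c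

/-- The facts read off from the counts. -/
structure Setup (G : Type u) [Group G] : Prop where
  card : Nat.card G = 443520
  invol_conj : ∀ s t : G, orderOf s = 2 → orderOf t = 2 → IsConj s t
  cent_invol : ∀ t : G, orderOf t = 2 → Nat.card (Subgroup.centralizer ({t} : Set G)) = 384
  cent_three : ∀ x : G, orderOf x = 3 → Nat.card (Subgroup.centralizer ({x} : Set G)) = 36
  three_invol : ∀ x : G, orderOf x = 3 →
    Nat.card {t : G // orderOf t = 2 ∧ Commute x t} = 3
  three_fuse : ∀ x s t : G, orderOf x = 3 → orderOf s = 2 → orderOf t = 2 → Commute x s →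
    Commute x t → ∃ z : G, Commute z x ∧ z * s * z⁻¹ = t
  invol_three : ∀ t : G, orderOf t = 2 → Nat.card {x : G // orderOf x = 3 ∧ Commute x t} = 32
  cent_five : ∀ f : G, orderOf f = 5 → Nat.card (Subgroup.centralizer ({f} : Set G)) = 5
  cent_seven : ∀ f : G, orderOf f = 7 → Nat.card (Subgroup.centralizer ({f} : Set G)) = 7
  cent_eleven : ∀ f : G, orderOf f = 11 → Nat.card (Subgroup.centralizer ({f} : Set G)) = 11
  norm_five : ∀ f : G, orderOf f = 5 →
    Nat.card (Subgroup.normalizer (Subgroup.zpowers f : Set G)) = 20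
  norm_seven : ∀ f : G, orderOf f = 7 →
    Nat.card (Subgroup.normalizer (Subgroup.zpowers f : Set G)) = 21
  norm_eleven : ∀ f : G, orderOf f = 11 →
    Nat.card (Subgroup.normalizer (Subgroup.zpowers f : Set G)) = 55
  no_nine : ∀ g : G, orderOf g ≠ 9
  no_twelve : ∀ g : G, orderOf g ≠ 12
  sylow_three : ∀ P : Sylow 3 G, Nat.card (P : Subgroup G) = 9

/-- An elementary abelian subgroup of order 16 with normaliser `2⁴ : A₆`. -/
structure Hexad {G : Type u} [Group G] (E : Subgroup G) : Prop where
  card : Nat.card E = 16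
  comm : ∀ a ∈ E, ∀ b ∈ E, a * b = b * a
  sq : ∀ a ∈ E, a * a = 1
  self_cent : Subgroup.centralizer (E : Set G) = E
  norm_card : Nat.card (Subgroup.normalizer (E : Set G)) = 5760
  cent_le : ∀ u ∈ E, u ≠ 1 →
    Subgroup.centralizer ({u} : Set G) ≤ Subgroup.normalizer (E : Set G)
  trans : ∀ u ∈ E, ∀ w ∈ E, u ≠ 1 → w ≠ 1 →
    ∃ n ∈ Subgroup.normalizer (E : Set G), n * u * n⁻¹ = w
  ti : ∀ g : G, ∀ u ∈ E, u ≠ 1 → g * u * g⁻¹ ∈ E → g ∈ Subgroup.normalizer (E : Set G)
  small : ∀ a ∈ Subgroup.normalizer (E : Set G), orderOf a = 2 → a ∉ E →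
    Nat.card ↥(E ⊓ Subgroup.centralizer ({a} : Set G)) = 4
  noline : ∀ u ∈ E, ∀ w ∈ E, u ≠ 1 → w ≠ 1 → u ≠ w → ∀ x : G, orderOf x = 3 → Commute x u →
    Commute x w → ∀ a : G, orderOf a = 2 → Commute a u → Commute a w → a ∈ E

end CfsgLib.M22Count
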