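import Cfsg.Prelude.Def_Spor_Mathieu
import Cfsg.Agent.HSGraph.Srg77
import Cfsg.Agent.DesignUnique.Aut
import Cfsg.Agent.Mathieu.Simple

/-!
A group of order 443520 acting faithfully on a strongly regular graph with parameters (77, 16, 0, 4)
is isomorphic to `M₂₂`: it acts on the design of the graph, and `M₂₂` is the only subgroup of index
two of the automorphism group of the design.
-/

set_option autoImplicit false

open scoped Pointwise
open Finset Cfsg Cfsg.Spor CfsgLib.HSGraph CfsgLib.DesignUnique CfsgLib.Mathieu

namespace CfsgLib.M22Count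

/-- A simple subgroup of index two with more than two elements is the only subgroup of index two. -/
theorem eq_of_index_two_simple {A : Type*} [Group A] [Finite A] {H K : Subgroup A} [IsSimpleGroup H]
    (h4 : 2 < Nat.card H) (hH : H.index = 2) (hK : K.index = 2) : K = H := by
  have hn : K.Normal := Subgroup.normal_of_index_eq_two hK
  have hcard : Nat.card K = Nat.card H := by
    have h1 := Subgroup.card_mul_index H
    have h2 := Subgroup.card_mul_index K
    rw [hH, ← h2, hK] at h1
    omega
  rcases Subgroup.Normal.eq_bot_or_eq_top (inferInstance : (K.subgroupOf H).Normal) with h | h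
  · have hi : K.relIndex H = Nat.card H := by
      rw [Subgroup.relIndex, h, Subgroup.index_bot]
    have hle : K.relIndex H ≤ K.index := by
      rw [← Subgroup.relIndex_top_right]
      exact Subgroup.relIndex_le_of_le_right le_top (by rw [Subgroup.relIndex_top_right, hK]; norm_num)
    omega
  · exact (Subgroup.eq_of_le_of_card_ge (Subgroup.subgroupOf_eq_top.1 h) hcard.le).symm

/-- The recognition from the graph. -/
theorem iso_M22_of_srg {G : Type*} [Group G] [Finite G] (hcard : Nat.card G = 443520) {V : Type*}
    [Fintype V] [MulAction G V] [FaithfulSMul G V] (Γ : SimpleGraph V) [DecidableRel Γ.Adj]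
    (hsrg : Γ.IsSRGWith 77 16 0 4) (hadj : ∀ (g : G) (a b : V), Γ.Adj a b → Γ.Adj (g • a) (g • b)) :
    Nonempty (G ≃* ↥Cfsg.Spor.M22) := by
  classical
  obtain ⟨hS, hbinj⟩ := Srg77.block_steiner hsrg
  obtain ⟨e, he⟩ := exists_equiv22 (Srg77.card_pts hsrg) hS
  obtain ⟨f⟩ := aut_transport e he autEquiv22
  have hco : ∀ (g : G) (C : Srg77.Pts Γ), Srg77.IsCoclique Γ (C.1.image (g • ·)) := by
    intro g C
    refine ⟨by rw [Finset.card_image_of_injective _ (MulAction.injective g), C.2.1], ?_⟩
    simp only [Finset.mem_image]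
    rintro _ ⟨a, ha, rfl⟩ _ ⟨b, hb, rfl⟩ h
    refine C.2.2 a ha b hb ?_
    simpa using hadj g⁻¹ _ _ h
  letI : MulAction G (Srg77.Pts Γ) :=
    { smul := fun g C => ⟨C.1.image (g • ·), hco g C⟩
      one_smul := fun C => Subtype.ext (by show C.1.image ((1 : G) • ·) = C.1; simp)
      mul_smul := fun g h C => Subtype.ext (by
        show C.1.image ((g * h) • ·) = (C.1.image (h • ·)).image (g • ·)
        rw [Finset.image_image]
        exact Finset.image_congr fun x _ => mul_smul g h x) }
  let φ : G →* Equiv.Perm (Srg77.Pts Γ) := MulAction.toPermHom G _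
  have hblock : ∀ (g : G) (v : V), φ g • Srg77.block Γ v = Srg77.block Γ (g • v) := by
    intro g v
    ext C
    rw [Finset.smul_finset_def, Finset.mem_image]
    constructor
    · rintro ⟨D, hD, rfl⟩
      refine Finset.mem_filter.2 ⟨Finset.mem_univ _, ?_⟩
      show g • v ∈ D.1.image (g • ·)
      exact Finset.mem_image_of_mem _ (Finset.mem_filter.1 hD).2
    · intro hC
      refine ⟨g⁻¹ • C, Finset.mem_filter.2 ⟨Finset.mem_univ _, ?_⟩, smul_inv_smul g C⟩
      show v ∈ C.1.image (g⁻¹ • ·)
      exact Finset.mem_image.2 ⟨g • v, (Finset.mem_filter.1 hC).2, inv_smul_smul g v⟩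
  have hmem : ∀ g, φ g ∈ setSystemAut (Set.range (Srg77.block Γ)) := fun g =>
    mem_aut_iff.2 fun b hb => by
      obtain ⟨v, rfl⟩ := hb
      exact ⟨g • v, (hblock g v).symm⟩
  have hinj : Function.Injective φ := by
    refine (injective_iff_map_eq_one φ).2 fun g hg => eq_of_smul_eq_smul (α := V) fun v => ?_
    refine hbinj ?_
    rw [← hblock, hg, one_smul, one_smul]
  let ψ : G →* ↥pairStab := f.toMonoidHom.comp (φ.codRestrict _ hmem)
  have hψ : Function.Injective ψ :=
    f.injective.comp fun a b h => hinj (congrArg Subtype.val h)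
  let H : Subgroup ↥pairStab := Cfsg.Spor.M22.subgroupOf pairStab
  have hle : Cfsg.Spor.M22 ≤ pairStab := by
    rintro g ⟨⟨hg, hn : g none = none⟩, h0 : g (some 0) = some 0⟩
    refine ⟨hg, ?_⟩
    show g • pairInf = pairInf
    simp [pairInf, Finset.smul_finset_insert, Finset.smul_finset_singleton, hn, h0]
  have hHcard : Nat.card H = 443520 := by
    rw [Nat.card_congr (Subgroup.subgroupOfEquivOfLe hle).toEquiv]
    exact card_fixPair (p := (none : GolayPt)) (q := some 0) (by simp)
  have hHi : H.index = 2 := by
    have h := Subgroup.card_mul_index H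
    rw [hHcard, card_pairStab] at h
    omega
  haveI : IsSimpleGroup ↥Cfsg.Spor.M22 := isSimpleGroup_fixPair (p := (none : GolayPt)) (q := some 0) (by simp)
  haveI : IsSimpleGroup H := (Subgroup.subgroupOfEquivOfLe hle).isSimpleGroup
  have hKi : ψ.range.index = 2 := by
    have h := Subgroup.card_mul_index ψ.range
    rw [← Nat.card_congr (MonoidHom.ofInjective hψ).toEquiv, hcard, card_pairStab] at h
    omega
  have hKH : ψ.range = H := eq_of_index_two_simple (by rw [hHcard]; norm_num) hHi hKi
  exact ⟨((MonoidHom.ofInjective hψ).trans (MulEquiv.subgroupCongr hKH)).trans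
    (Subgroup.subgroupOfEquivOfLe hle)⟩

end CfsgLib.M22Count
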