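import Cfsg.Agent.M22Count.Local
import Mathlib.GroupTheory.Nilpotent
import Mathlib.GroupTheory.Perm.Cycle.Type
import Mathlib.GroupTheory.GroupAction.Quotient
import Mathlib.Data.Fintype.Perm

/-!
The core of an involution centraliser and the centraliser of a four group inside it.
-/

set_option autoImplicit false
set_option linter.style.haveILetI false

open scoped Pointwise

namespace CfsgLib.M22Count

variable {G : Type*} [Group G] [Finite G]

omit [Finite G] in
theorem conj_mul_eq (g a b : G) : g * (a * b) * g⁻¹ = (g * a * g⁻¹) * (g * b * g⁻¹) := by group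

omit [Finite G] in
theorem order_conj (g a : G) : orderOf (g * a * g⁻¹) = orderOf a :=
  MulEquiv.orderOf_eq (MulAut.conj g) a

omit [Finite G] in
theorem commute_conj {g a b : G} (h : Commute a b) : Commute (g * a * g⁻¹) (g * b * g⁻¹) := by
  show _ = _
  rw [← conj_mul_eq, ← conj_mul_eq, h.eq]

omit [Finite G] in
theorem conj_eq_self {g a : G} : g * a * g⁻¹ = a ↔ Commute g a :=
  mul_inv_eq_iff_eq_mul

omit [Finite G] in
theorem commute_conj_left {g a b : G} (h : Commute a b) {b' : G} (e : g * b * g⁻¹ = b') :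
    Commute (g * a * g⁻¹) b' := e ▸ commute_conj h

omit [Finite G] in
theorem pow_card_of_mem {A : Subgroup G} {a : G} (ha : a ∈ A) {n : ℕ} (hA : Nat.card A ∣ n) :
    a ^ n = 1 :=
  orderOf_dvd_iff_pow_eq_one.1 (((Subgroup.orderOf_dvd_natCard A ha)).trans hA)

/-- Counting modulo three with an element of order three acting. -/
theorem growth {x : G} (hx : orderOf x = 3) {A M : Subgroup G} (hAM : A ≤ M)
    (hA : ∀ a ∈ A, x * a * x⁻¹ ∈ A) (hM : ∀ m ∈ M, x * m * x⁻¹ ∈ M)
    (hfix : ∀ m ∈ M, Commute x m → m ∈ A) : ∃ k : ℕ, Nat.card M = Nat.card A + 3 * k := by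
  classical
  haveI : Fact (Nat.Prime 3) := ⟨Nat.prime_three⟩
  let X := {m : G // m ∈ M ∧ m ∉ A}
  haveI := Fintype.ofFinite X
  have hcard : Nat.card X + Nat.card A = Nat.card M := by
    have h := Set.ncard_sdiff_add_ncard_of_subset (s := (A : Set G)) (t := (M : Set G)) hAM
    rw [← Nat.card_coe_set_eq, ← Nat.card_coe_set_eq, ← Nat.card_coe_set_eq] at h
    exact h
  have hinv : ∀ m : G, x * (x * (x * m * x⁻¹) * x⁻¹) * x⁻¹ = m := by
    intro m
    rw [show x * (x * (x * m * x⁻¹) * x⁻¹) * x⁻¹ = x ^ 3 * m * (x ^ 3)⁻¹ by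
      simp only [pow_succ, pow_zero, one_mul]; group, pow_three_of hx, one_mul, inv_one, mul_one]
  let f : X → X := fun m => ⟨x * m.1 * x⁻¹, hM _ m.2.1, fun h => m.2.2 (by
    rw [← hinv m.1]; exact hA _ (hA _ h))⟩
  have hf : ∀ m, f (f (f m)) = m := fun m => Subtype.ext (hinv m.1)
  let σ : Equiv.Perm X := ⟨f, fun m => f (f m), hf, hf⟩
  have hσ : σ ^ 3 ^ 1 = 1 := by
    ext m
    simp only [pow_one, pow_succ, pow_zero, one_mul, Equiv.Perm.mul_apply, Equiv.Perm.one_apply]
    exact congrArg Subtype.val (hf m)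
  by_cases h3 : 3 ∣ Fintype.card X
  · obtain ⟨k, hk⟩ := h3
    exact ⟨k, by rw [← hcard, Nat.card_eq_fintype_card, hk]; ring⟩
  · obtain ⟨m, hm⟩ := Equiv.Perm.exists_fixed_point_of_prime h3 hσ
    exact absurd (hfix _ m.2.1 (conj_eq_self.1 (congrArg Subtype.val hm))) m.2.2

/-- A proper subgroup of a `2`-group is properly contained in its normaliser. -/
theorem exists_normalizer_gt {A B : Subgroup G} (hAB : A ≤ B) (hne : A ≠ B) {n : ℕ}
    (hB : Nat.card B = 2 ^ n) : ∃ b ∈ B, b ∉ A ∧ ∀ a ∈ A, b * a * b⁻¹ ∈ A := by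
  haveI : Fact (Nat.Prime 2) := ⟨Nat.prime_two⟩
  haveI := IsPGroup.isNilpotent (IsPGroup.of_card (p := 2) hB)
  have hlt : A.subgroupOf B < ⊤ := by
    refine lt_top_iff_ne_top.2 fun h => hne (le_antisymm hAB ?_)
    exact Subgroup.subgroupOf_eq_top.1 h
  obtain ⟨-, b, hb, hb'⟩ := SetLike.lt_iff_le_and_exists.1
    (Group.normalizerCondition_of_isNilpotent (G := B) _ hlt)
  refine ⟨b, b.2, fun h => hb' (Subgroup.mem_subgroupOf.2 h), fun a ha => ?_⟩
  have h := (Subgroup.mem_normalizer_iff.1 hb ⟨a, hAB ha⟩).1 (Subgroup.mem_subgroupOf.2 ha)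
  exact Subgroup.mem_subgroupOf.1 h

/-- The largest normal `2`-subgroup of the centraliser of the involution `t`. -/
structure Core (t : G) (Q : Subgroup G) : Prop where
  card : Nat.card Q = 64
  comm : ∀ q ∈ Q, Commute q t
  conj : ∀ c : G, Commute c t → ∀ q ∈ Q, c * q * c⁻¹ ∈ Q
  max : ∀ x : G, orderOf x = 3 → Commute x t → ∀ A : Subgroup G, (∀ a ∈ A, Commute a t) →
    (∀ a ∈ A, a ^ 128 = 1) → (∀ a ∈ A, x * a * x⁻¹ ∈ A) → A ≤ Q

theorem perm_three_aux : ∀ a : Equiv.Perm (Fin 3), ∀ b : Equiv.Perm (Fin 3),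
    (a * a * a = 1 ∧ ¬ a = 1 ∧ b * b = 1 ∧ (b * (a * b * a⁻¹)) * (b * (a * b * a⁻¹)) = 1) →
    b = 1 := by decide +kernel

theorem perm_three_two (a : Equiv.Perm (Fin 3)) : a ^ 6 = 1 := by
  have h := pow_card_eq_one' (x := a)
  rwa [Nat.card_perm, Nat.card_fin] at h

theorem zmod_three_sq : ∀ i : ZMod 3, i ≠ 0 → i.val * i.val % 3 = 1 := by decide

theorem Setup.exists_trio (hs : Setup G) {t : G} (ht : orderOf t = 2) :
    ∃ x v : G, Trio x t v := by
  classical
  have h32 := hs.invol_three t ht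
  obtain ⟨⟨x, hx, hxt⟩⟩ : Nonempty {x : G // orderOf x = 3 ∧ Commute x t} := by
    refine (Nat.card_pos_iff.1 ?_).1
    rw [h32]; norm_num
  have h3 := hs.three_invol x hx
  haveI := Fintype.ofFinite {w : G // orderOf w = 2 ∧ Commute x w}
  rw [Nat.card_eq_fintype_card] at h3
  obtain ⟨v, hv⟩ := Fintype.exists_ne_of_one_lt_card
    (by omega) (⟨t, ht, hxt⟩ : {w : G // orderOf w = 2 ∧ Commute x w})
  exact ⟨x, v, hx, ht, v.2.1, hxt, v.2.2, fun e => hv (Subtype.ext e.symm)⟩

theorem Setup.exists_core (hs : Setup G) {t : G} (ht : orderOf t = 2) :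
    ∃ Q : Subgroup G, Core t Q := by
  classical
  haveI : Fact (Nat.Prime 2) := ⟨Nat.prime_two⟩
  obtain ⟨x, v, T⟩ := hs.exists_trio ht
  obtain ⟨s, hst, hsx, -, -⟩ := T.exists_s hs
  set C := Subgroup.centralizer ({t} : Set G) with hC
  have hCc : Nat.card C = 384 := hs.cent_invol t ht
  obtain ⟨P, hP⟩ := Sylow.exists_subgroup_card_pow_prime 2 (n := 7) (G := C)
    (by rw [hCc]; norm_num)
  have hidx : Nat.card (C ⧸ P) = 3 := by
    rw [← Subgroup.index_eq_card]
    have h := Subgroup.card_mul_index P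
    rw [hP, hCc] at h
    omega
  obtain ⟨φ, hker⟩ : ∃ φ : C →* Equiv.Perm (Fin 3), φ.ker ≤ P := by
    let e := (Finite.equivFinOfCardEq hidx).permCongrHom
    refine ⟨e.toMonoidHom.comp (MulAction.toPermHom C (C ⧸ P)), fun a ha => P.normalCore_le ?_⟩
    rw [Subgroup.normalCore_eq_ker]
    have h : e (MulAction.toPermHom C (C ⧸ P) a) = 1 := ha
    exact (EmbeddingLike.map_eq_one_iff (f := e)).1 h
  have hx3 : ∀ a : C, (a : G) = x → a ∉ P := by
    intro a ha hmem
    have h1 := pow_card_of_mem (A := P) hmem dvd_rfl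
    rw [hP] at h1
    have h2 := congrArg (fun b : C => (b : G)) h1
    simp only [SubmonoidClass.coe_pow, OneMemClass.coe_one, ha] at h2
    have h3 := orderOf_dvd_of_pow_eq_one h2
    rw [T.hx] at h3
    norm_num at h3
  let xC : C := ⟨x, mem_cent.2 T.cxt⟩
  let sC : C := ⟨s, mem_cent.2 hst⟩
  have hrange : Nat.card φ.range = 6 := by
    have hd : Nat.card φ.range ∣ 6 := by
      refine (Subgroup.card_subgroup_dvd_card φ.range).trans ?_
      rw [Nat.card_perm, Nat.card_fin]
      rfl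
    have hm : Nat.card φ.ker * Nat.card φ.range = 384 := by
      rw [← hCc, ← Subgroup.card_mul_index φ.ker, Subgroup.index_ker]
    have hk : Nat.card φ.ker ∣ 128 := by
      have h := Subgroup.card_dvd_of_le hker
      rwa [hP] at h
    have h6 := Nat.le_of_dvd (by norm_num) hd
    have hk128 := Nat.le_of_dvd (by norm_num) hk
    rcases (show Nat.card φ.range = 6 ∨ Nat.card φ.range = 3 by
      generalize Nat.card φ.range = r at *
      generalize Nat.card φ.ker = k at *
      interval_cases r <;> omega) with h | h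
    · exact h
    exfalso
    have hkP : φ.ker = P := Subgroup.eq_of_le_of_card_ge hker (by
      rw [hP]; rw [h] at hm; omega)
    haveI : P.Normal := hkP ▸ φ.normal_ker
    haveI := isCyclic_of_prime_card (p := 3) (hp := ⟨Nat.prime_three⟩) hidx
    refine hx3 (sC * xC * sC⁻¹ * xC⁻¹) ?_ ?_
    · push_cast
      show s * x * s⁻¹ * x⁻¹ = x
      rw [hsx, ← mul_inv_rev]
      exact inv_eq_of_mul_eq_one_right (by
        rw [← pow_three_of T.hx]; simp only [pow_succ, pow_zero, one_mul, mul_assoc])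
    · rw [← QuotientGroup.eq_one_iff]
      simp only [QuotientGroup.mk_mul, QuotientGroup.mk_inv]
      rw [IsCyclic.commGroup.mul_comm (sC : C ⧸ P) (xC : C ⧸ P)]
      group
  have hkc : Nat.card φ.ker = 64 := by
    have h := Subgroup.card_mul_index φ.ker
    rw [Subgroup.index_ker, hrange, hCc] at h
    omega
  refine ⟨φ.ker.map C.subtype, ?_, ?_, ?_, ?_⟩
  · rw [Subgroup.card_map_of_injective C.subtype_injective]; exact hkc
  · rintro q ⟨a, -, rfl⟩
    exact mem_cent.1 a.2
  · rintro c hc q ⟨a, ha, rfl⟩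
    exact ⟨⟨c, mem_cent.2 hc⟩ * a * ⟨c, mem_cent.2 hc⟩⁻¹, φ.normal_ker.conj_mem a ha _, by simp⟩
  · intro x' hx' hxt' A hAt hA2 hAx a ha
    refine ⟨⟨a, mem_cent.2 (hAt a ha)⟩, ?_, rfl⟩
    set aC : C := ⟨a, mem_cent.2 (hAt a ha)⟩ with haC
    let x'C : C := ⟨x', mem_cent.2 hxt'⟩
    have hx'3 : φ x'C * φ x'C * φ x'C = 1 := by
      rw [← map_mul, ← map_mul]
      convert map_one φ
      refine Subtype.ext ?_
      have h := pow_three_of hx'
      simp only [pow_succ, pow_zero, one_mul] at h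
      exact h
    have hx'ne : φ x'C ≠ 1 := by
      intro h
      have h1 := pow_card_of_mem (A := P) (hker h) dvd_rfl
      rw [hP] at h1
      have h2 := congrArg (fun b : C => (b : G)) h1
      simp only [SubmonoidClass.coe_pow, OneMemClass.coe_one] at h2
      have h3 := orderOf_dvd_of_pow_eq_one h2
      rw [hx'] at h3
      norm_num at h3
    have hsq : ∀ b : C, (b : G) ∈ A → φ b * φ b = 1 := by
      intro b hb
      have h1 : φ b ^ 128 = 1 := by
        rw [← map_pow, show b ^ 128 = 1 from Subtype.ext (by simpa using hA2 _ hb), map_one]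
      rw [← pow_two]
      exact pow_gcd_eq_one.2 ⟨h1, perm_three_two (φ b)⟩
    have hb := hsq (aC * (x'C * aC * x'C⁻¹)) (by
      push_cast
      exact A.mul_mem ha (hAx a ha))
    simp only [map_mul, map_inv] at hb
    exact perm_three_aux _ _ ⟨hx'3, hx'ne, hsq aC ha, hb⟩

namespace Core

variable {t : G} {Q : Subgroup G} (hQ : Core t Q)

include hQ in
theorem pow_eq {q : G} (hq : q ∈ Q) : q ^ 128 = 1 :=
  pow_card_of_mem hq (by rw [hQ.card]; norm_num)

end Core

namespace Trio

variable {x t v : G} (hs : Setup G) (T : Trio x t v)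

include hs T in
theorem mem_four {a : G} (hax : Commute a x) (hat : Commute a t) (h2 : a ^ 128 = 1) :
    a = 1 ∨ a = t ∨ a = v ∨ a = t * v := by
  obtain ⟨i, w, hw, e⟩ := T.mem_fix hs hax hat
  have hw' : w * w = 1 ∧ Commute x w := by
    simp only [Set.mem_insert_iff, Set.mem_singleton_iff] at hw
    rcases hw with rfl | rfl | rfl | rfl
    exacts [⟨one_mul _, Commute.one_right _⟩, ⟨sq_of_order_two T.ht, T.cxt⟩,
      ⟨sq_of_order_two T.hv, T.cxv⟩, ⟨sq_of_order_two (T.htv hs), T.cxt.mul_right T.cxv⟩]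
  have hi : (i : ℕ) = 0 := by
    rw [e, (hw'.2.pow_left _).mul_pow, show 128 = 2 * 64 from rfl, pow_mul w, pow_two w, hw'.1,
      one_pow, mul_one, ← pow_mul] at h2
    have h := orderOf_dvd_of_pow_eq_one h2
    rw [T.hx] at h
    have := i.2
    omega
  rw [hi, pow_zero, one_mul] at e
  simp only [Set.mem_insert_iff, Set.mem_singleton_iff] at hw
  rcases hw with rfl | rfl | rfl | rfl <;> simp [e]

include hs T in
theorem exists_V : ∃ V : Subgroup G, Nat.card V = 4 ∧
    ∀ h : G, h ∈ V ↔ h = 1 ∨ h = t ∨ h = v ∨ h = t * v := by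
  classical
  have t2 := sq_of_order_two T.ht
  have v2 := sq_of_order_two T.hv
  have tv2 := sq_of_order_two (T.htv hs)
  have c : v * t = t * v := (T.comm hs).eq.symm
  have t1 := ne_one_of_order T.ht (by norm_num)
  have v1 := ne_one_of_order T.hv (by norm_num)
  have tv1 := ne_one_of_order (T.htv hs) (by norm_num)
  have a1 : t ≠ t * v := fun e => v1 (by simpa using e.symm)
  have a2 : v ≠ t * v := fun e => t1 (by simpa using e.symm)
  let V : Subgroup G :=
  { carrier := {h : G | h = 1 ∨ h = t ∨ h = v ∨ h = t * v}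
    one_mem' := Or.inl rfl
    inv_mem' := by
      intro a ha
      rcases ha with rfl | rfl | rfl | rfl
      · simp
      · rw [inv_of_order_two T.ht]; simp
      · rw [inv_of_order_two T.hv]; simp
      · rw [inv_of_order_two (T.htv hs)]; simp
    mul_mem' := by
      intro a b ha hb
      have h1 : t * (t * v) = v := by rw [← mul_assoc, t2, one_mul]
      have h2 : v * (t * v) = t := by rw [← mul_assoc, c, mul_assoc, v2, mul_one]
      have h3 : t * v * t = v := by rw [mul_assoc, c, h1]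
      have h4 : t * v * v = t := by rw [mul_assoc, v2, mul_one]
      rcases ha with rfl | rfl | rfl | rfl <;> rcases hb with rfl | rfl | rfl | rfl <;>
        simp only [Set.mem_ofPred_eq, one_mul, mul_one, true_or, or_true, t2, v2, c, h1, h2, h3, h4,
          tv2] }
  refine ⟨V, ?_, fun h => Iff.rfl⟩
  rw [show Nat.card V = Set.ncard ({1, t, v, t * v} : Set G) from by
    rw [← Nat.card_coe_set_eq]; rfl]
  rw [Set.ncard_insert_of_notMem (by simp [t1.symm, v1.symm, tv1.symm]),
    Set.ncard_insert_of_notMem (by simp [T.ne, a1]), Set.ncard_pair a2]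

include hs T in
/-- An element moved by `x` and by `y` and fixed by some `x ^ k * y`. -/
theorem exists_fixed {y : G} (hy : orderOf y = 3) (hyx : Commute y x) {S : Set G}
    (hSx : ∀ r ∈ S, x * r * x⁻¹ ∈ S) (hSy : ∀ r ∈ S, y * r * y⁻¹ ∈ S)
    (hno : ∀ r ∈ S, ¬ Commute x r) (h9 : ¬ 9 ∣ Nat.card S) :
    ∃ k : ℕ, ∃ r ∈ S, Commute r (x ^ k * y) := by
  classical
  by_contra hcon
  push Not at hcon
  have hx := T.hx
  let g : Multiplicative (ZMod 3 × ZMod 3) → G := fun p =>
    x ^ p.toAdd.1.val * y ^ p.toAdd.2.val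
  have hmod : ∀ {a : G}, orderOf a = 3 → ∀ i j : ZMod 3, a ^ (i + j).val = a ^ i.val * a ^ j.val := by
    intro a ha i j
    rw [← pow_add, pow_mod_three ha (i.val + j.val), ZMod.val_add]
  have hg : ∀ p q, g (p * q) = g p * g q := by
    intro p q
    show x ^ (p.toAdd.1 + q.toAdd.1).val * y ^ (p.toAdd.2 + q.toAdd.2).val = _
    rw [hmod hx, hmod hy]
    show _ = x ^ p.toAdd.1.val * y ^ p.toAdd.2.val * (x ^ q.toAdd.1.val * y ^ q.toAdd.2.val)
    rw [mul_assoc, mul_assoc, ← mul_assoc (y ^ p.toAdd.2.val),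
      (hyx.pow_pow p.toAdd.2.val q.toAdd.1.val).eq, mul_assoc]
  have hg1 : g 1 = 1 := by simp [g]
  have hgS : ∀ p, ∀ r ∈ S, g p * r * (g p)⁻¹ ∈ S := by
    have hp : ∀ {a : G}, (∀ r ∈ S, a * r * a⁻¹ ∈ S) → ∀ n : ℕ, ∀ r ∈ S,
        a ^ n * r * (a ^ n)⁻¹ ∈ S := by
      intro a h n
      induction n with
      | zero => intro r hr; simpa using hr
      | succ n ih =>
        intro r hr
        rw [pow_succ, show a ^ n * a * r * (a ^ n * a)⁻¹ = a ^ n * (a * r * a⁻¹) * (a ^ n)⁻¹ by
          group]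
        exact ih _ (h r hr)
    intro p r hr
    show x ^ p.toAdd.1.val * y ^ p.toAdd.2.val * r * _ ∈ S
    rw [show x ^ p.toAdd.1.val * y ^ p.toAdd.2.val * r * (g p)⁻¹ = x ^ p.toAdd.1.val *
      (y ^ p.toAdd.2.val * r * (y ^ p.toAdd.2.val)⁻¹) * (x ^ p.toAdd.1.val)⁻¹ by
        simp only [g]; group]
    exact hp hSx _ _ (hp hSy _ _ hr)
  letI : MulAction (Multiplicative (ZMod 3 × ZMod 3)) S :=
  { smul := fun p r => ⟨g p * r.1 * (g p)⁻¹, hgS p r.1 r.2⟩
    one_smul := fun r => Subtype.ext (by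
      show g 1 * r.1 * (g 1)⁻¹ = r.1
      rw [hg1]; group)
    mul_smul := fun p q r => Subtype.ext (by
      show g (p * q) * r.1 * (g (p * q))⁻¹ = g p * (g q * r.1 * (g q)⁻¹) * (g p)⁻¹
      rw [hg]; group) }
  have hstab : ∀ r : S, MulAction.stabilizer (Multiplicative (ZMod 3 × ZMod 3)) r = ⊥ := by
    intro r
    refine (Subgroup.eq_bot_iff_forall _).2 fun p hp => ?_
    have hc : Commute (g p) r.1 := conj_eq_self.1 (congrArg Subtype.val hp)
    obtain ⟨i, j, rfl⟩ : ∃ i j : ZMod 3, Multiplicative.ofAdd (i, j) = p :=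
      ⟨p.toAdd.1, p.toAdd.2, rfl⟩
    have hc' : Commute (x ^ i.val * y ^ j.val) r.1 := hc
    by_cases hj : j = 0
    · subst hj
      rw [ZMod.val_zero, pow_zero, mul_one] at hc'
      by_cases hi : i = 0
      · subst hi; rfl
      exfalso
      refine hno r.1 r.2 ?_
      have h := hc'.pow_left i.val
      rw [← pow_mul, pow_mod_three hx] at h
      have : i.val * i.val % 3 = 1 := zmod_three_sq i hi
      rwa [this, pow_one] at h
    · exfalso
      have h := hc'.pow_left j.val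
      rw [((hyx.pow_pow j.val i.val).symm).mul_pow, ← pow_mul, ← pow_mul,
        pow_mod_three hy (j.val * j.val)] at h
      have : j.val * j.val % 3 = 1 := zmod_three_sq j hj
      rw [this, pow_one] at h
      exact hcon _ r.1 r.2 h.symm
  refine h9 ?_
  rw [Nat.card_congr (MulAction.selfEquivOrbitsQuotientProd hstab), Nat.card_prod]
  refine Dvd.dvd.mul_left ?_ _
  rw [Nat.card_congr Multiplicative.toAdd, Nat.card_prod, Nat.card_zmod]

variable {Q R : Subgroup G} (hQ : Core t Q)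
  (hR : ∀ h : G, h ∈ R ↔ Commute h t ∧ Commute h v ∧ h ^ 128 = 1)

include hs T hQ in
theorem fix_core {q : G} (hq : q ∈ Q) (hxq : Commute x q) :
    q = 1 ∨ q = t ∨ q = v ∨ q = t * v :=
  T.mem_four hs hxq.symm (hQ.comm q hq) (hQ.pow_eq hq)

include T hR in
omit [Finite G] in
theorem R_inv_x : ∀ a ∈ R, x * a * x⁻¹ ∈ R := by
  intro a ha
  obtain ⟨h1, h2, h3⟩ := (hR a).1 ha
  exact (hR _).2 ⟨commute_conj_left h1 (conj_eq_self.2 T.cxt),
    commute_conj_left h2 (conj_eq_self.2 T.cxv), by rw [conj_pow, h3]; group⟩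

include hR in
omit [Finite G] in
theorem R_inv_of {z : G} (h1 : z * (t * v) * z⁻¹ = t) (h2 : z * t * z⁻¹ = v) :
    ∀ a ∈ R, z * a * z⁻¹ ∈ R := by
  intro a ha
  obtain ⟨e1, e2, e3⟩ := (hR a).1 ha
  exact (hR _).2 ⟨commute_conj_left (e1.mul_right e2) h1, commute_conj_left e1 h2,
    by rw [conj_pow, e3]; group⟩

include hR in
omit [Finite G] in
theorem R_inv_s {z : G} (h1 : Commute z t) (h2 : z * (t * v) * z⁻¹ = v) :
    ∀ a ∈ R, z * a * z⁻¹ ∈ R := by
  intro a ha
  obtain ⟨e1, e2, e3⟩ := (hR a).1 ha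
  exact (hR _).2 ⟨commute_conj_left e1 (conj_eq_self.2 h1), commute_conj_left (e1.mul_right e2) h2,
    by rw [conj_pow, e3]; group⟩

include T hQ hR in
theorem R_le : R ≤ Q :=
  hQ.max x T.hx T.cxt R (fun a ha => ((hR a).1 ha).1) (fun a ha => ((hR a).1 ha).2.2)
    (T.R_inv_x hR)

include hs T hQ in
/-- The possible orders of `x`-invariant subgroups between the four group and the core. -/
theorem core_card {M : Subgroup G} (hMQ : M ≤ Q) (hMx : ∀ m ∈ M, x * m * x⁻¹ ∈ M) (ht : t ∈ M)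
    (hv : v ∈ M) : Nat.card M = 4 ∨ Nat.card M = 16 ∨ Nat.card M = 64 := by
  obtain ⟨V, hVc, hV⟩ := T.exists_V hs
  have hVM : V ≤ M := by
    intro a ha
    rcases (hV a).1 ha with rfl | rfl | rfl | rfl
    exacts [M.one_mem, ht, hv, M.mul_mem ht hv]
  obtain ⟨k, hk⟩ := growth T.hx hVM (A := V) (fun a ha => by
      rw [conj_eq_self.2 (?_ : Commute x a)]
      · exact ha
      rcases (hV a).1 ha with rfl | rfl | rfl | rfl
      exacts [Commute.one_right _, T.cxt, T.cxv, T.cxt.mul_right T.cxv]) hMx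
    (fun m hm hxm => (hV m).2 (T.fix_core hs hQ (hMQ hm) hxm))
  have hd : Nat.card M ∣ 2 ^ 6 := by
    have h := Subgroup.card_dvd_of_le hMQ
    rwa [hQ.card] at h
  obtain ⟨i, hi, e⟩ := (Nat.dvd_prime_pow Nat.prime_two).1 hd
  rw [e, hVc] at hk
  rw [e]
  interval_cases i <;> omega

include hs T hQ in
/-- A subgroup of the centraliser containing the core, `x` and an inverting element is full. -/
theorem full (S : Subgroup G) (hSC : S ≤ Subgroup.centralizer ({t} : Set G)) (hQS : Q ≤ S)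
    (hx : x ∈ S) {s : G} (hsS : s ∈ S) (hsx : s * x * s⁻¹ = x⁻¹) :
    Subgroup.centralizer ({t} : Set G) ≤ S := by
  have hxQ : x ∉ Q := by
    intro h
    have h1 := orderOf_dvd_of_pow_eq_one (hQ.pow_eq h)
    rw [T.hx] at h1
    norm_num at h1
  have hd : Nat.card S ∣ 384 := by
    rw [← hs.cent_invol t T.ht]; exact Subgroup.card_dvd_of_le hSC
  have h64 : 64 ∣ Nat.card S := hQ.card ▸ Subgroup.card_dvd_of_le hQS
  have h3 : 3 ∣ Nat.card S := T.hx ▸ Subgroup.orderOf_dvd_natCard S hx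
  have h192 : 192 ∣ Nat.card S :=
    Nat.Coprime.mul_dvd_of_dvd_of_dvd (by norm_num : Nat.Coprime 64 3) h64 h3
  obtain ⟨k, hk⟩ := h192
  have hk2 : k = 1 ∨ k = 2 := by
    rw [hk] at hd
    have h2 : k ∣ 2 := Nat.dvd_of_mul_dvd_mul_left (by norm_num : 0 < 192) hd
    exact (Nat.dvd_prime Nat.prime_two).1 h2
  rcases hk2 with rfl | rfl
  · exfalso
    haveI : (Q.subgroupOf S).Normal := ⟨fun q hq g => by
      rw [Subgroup.mem_subgroupOf] at hq ⊢
      push_cast
      exact hQ.conj g (mem_cent.1 (hSC g.2)) _ hq⟩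
    have hidx : Nat.card (S ⧸ Q.subgroupOf S) = 3 := by
      rw [← Subgroup.index_eq_card]
      have h := Subgroup.card_mul_index (Q.subgroupOf S)
      rw [Nat.card_congr (Subgroup.subgroupOfEquivOfLe hQS).toEquiv, hQ.card, hk] at h
      omega
    haveI := isCyclic_of_prime_card (p := 3) (hp := ⟨Nat.prime_three⟩) hidx
    let xS : S := ⟨x, hx⟩
    let sS : S := ⟨s, hsS⟩
    have h : sS * xS * sS⁻¹ * xS⁻¹ ∈ Q.subgroupOf S := by
      rw [← QuotientGroup.eq_one_iff]
      simp only [QuotientGroup.mk_mul, QuotientGroup.mk_inv]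
      rw [IsCyclic.commGroup.mul_comm (sS : S ⧸ Q.subgroupOf S) (xS : S ⧸ Q.subgroupOf S)]
      group
    rw [Subgroup.mem_subgroupOf] at h
    push_cast at h
    refine hxQ ?_
    have e : s * x * s⁻¹ * x⁻¹ = x := by
      rw [hsx, ← mul_inv_rev]
      exact inv_eq_of_mul_eq_one_right (by
        rw [← pow_three_of T.hx]; simp only [pow_succ, pow_zero, one_mul, mul_assoc])
    rwa [e] at h
  · exact ((Subgroup.eq_of_le_of_card_ge hSC (by rw [hs.cent_invol t T.ht, hk])).symm).le

include hs T hQ hR in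
/-- The centraliser of the four group has Sylow `2`-subgroup of order 16, or is the whole core. -/
theorem R_cases : (Nat.card R = 16 ∨ R = Q) ∧ ∀ c : G, Commute c t → ∀ a ∈ R, c * a * c⁻¹ ∈ R := by
  have hle := T.R_le hQ hR
  have htR : t ∈ R := (hR t).2 ⟨Commute.refl t, T.comm hs, pow_card_of_mem (A := Subgroup.zpowers t)
    (Subgroup.mem_zpowers t) (by rw [Nat.card_zpowers, T.ht]; norm_num)⟩
  have hvR : v ∈ R := (hR v).2 ⟨(T.comm hs).symm, Commute.refl v,
    pow_card_of_mem (A := Subgroup.zpowers v)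
      (Subgroup.mem_zpowers v) (by rw [Nat.card_zpowers, T.hv]; norm_num)⟩
  -- the normaliser of `R` in the core
  have hM : ∀ A : Subgroup G, A ≤ Q → A ≠ Q → (∀ a ∈ A, x * a * x⁻¹ ∈ A) →
      ∃ M : Subgroup G, M ≤ Q ∧ A ≤ M ∧ A ≠ M ∧ (∀ m ∈ M, ∀ a ∈ A, m * a * m⁻¹ ∈ A) ∧
        ∀ m ∈ M, x * m * x⁻¹ ∈ M := by
    intro A hAQ hne hAx
    have hxN : x ∈ Subgroup.normalizer (A : Set G) := mem_normalizer_of hAx
    refine ⟨Q ⊓ Subgroup.normalizer (A : Set G), inf_le_left,
      le_inf hAQ Subgroup.le_normalizer, ?_, fun m hm a ha =>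
        (Subgroup.mem_normalizer_iff.1 hm.2 a).1 ha, fun m hm => ⟨hQ.conj x T.cxt m hm.1, ?_⟩⟩
    · obtain ⟨b, hb, hbA, hbn⟩ := exists_normalizer_gt hAQ hne (n := 6) hQ.card
      exact fun e => hbA (e ▸ ⟨hb, mem_normalizer_of hbn⟩)
    · exact (Subgroup.normalizer (A : Set G)).mul_mem
        ((Subgroup.normalizer (A : Set G)).mul_mem hxN hm.2)
        ((Subgroup.normalizer (A : Set G)).inv_mem hxN)
  have hcard : ∀ {A M : Subgroup G}, A ≤ M → A ≠ M → Nat.card A < Nat.card M := by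
    intro A M h1 h2
    by_contra h
    exact h2 (Subgroup.eq_of_le_of_card_ge h1 (not_lt.1 h))
  obtain ⟨s, hst, hsx, sv, stv⟩ := T.exists_s hs
  have hcases : Nat.card R = 16 ∨ R = Q := by
    rcases T.core_card hs hQ hle (T.R_inv_x hR) htR hvR with h4 | h | h
    · exfalso
      obtain ⟨M, hMQ, hRM, hne, hnorm, hMx⟩ := hM R hle (fun e => by
        rw [e, hQ.card] at h4; norm_num at h4) (T.R_inv_x hR)
      have hlt := hcard hRM hne
      have h16 : 16 ≤ Nat.card M := by
        rcases T.core_card hs hQ hMQ hMx (hRM htR) (hRM hvR) with h | h | h <;> omega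
      have ho := orbit_card M v
      have h1 : Nat.card ↥(M ⊓ Subgroup.centralizer ({v} : Set G)) ≤ 4 := by
        rw [← h4]
        refine Subgroup.card_le_of_le (fun a ha => (hR a).2 ⟨hQ.comm a (hMQ ha.1),
          mem_cent.1 ha.2, hQ.pow_eq (hMQ ha.1)⟩)
      have h2 : Nat.card {w : G // ∃ a ∈ M, a * v * a⁻¹ = w} ≤ 2 := by
        obtain ⟨V, hVc, hV⟩ := T.exists_V hs
        have hRV : V = R := Subgroup.eq_of_le_of_card_ge (fun a ha => by
          rcases (hV a).1 ha with rfl | rfl | rfl | rfl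
          exacts [R.one_mem, htR, hvR, R.mul_mem htR hvR]) (by rw [hVc, h4])
        calc Nat.card {w : G // ∃ a ∈ M, a * v * a⁻¹ = w}
            = ({w : G | ∃ a ∈ M, a * v * a⁻¹ = w} : Set G).ncard := rfl
          _ ≤ ({v, t * v} : Set G).ncard := by
              refine Set.ncard_le_ncard (fun w hw => ?_) (Set.toFinite _)
              obtain ⟨a, ha, rfl⟩ := hw
              have hmem : a * v * a⁻¹ ∈ V := hRV ▸ hnorm a ha v hvR
              rcases (hV _).1 hmem with e | e | e | e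
              · exact absurd (conj_eq_one_iff.1 e) (ne_one_of_order T.hv (by norm_num))
              · refine absurd ?_ T.ne.symm
                have hat : a * t * a⁻¹ = t := conj_eq_self.2 (hQ.comm a (hMQ ha))
                exact mul_left_cancel (mul_right_cancel (e.trans hat.symm))
              · exact Or.inl e
              · exact Or.inr e
          _ ≤ 2 := (Set.ncard_insert_le _ _).trans (by simp)
      have := Nat.mul_le_mul h1 h2
      omega
    · exact Or.inl h
    · exact Or.inr (Subgroup.eq_of_le_of_card_ge hle (by rw [h, hQ.card]))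
  refine ⟨hcases, ?_⟩
  have hQN : Q ≤ Subgroup.normalizer (R : Set G) := by
    rcases hcases with h16 | h
    · obtain ⟨M, hMQ, hRM, hne, hnorm, hMx⟩ := hM R hle (fun e => by
        rw [e, hQ.card] at h16; norm_num at h16) (T.R_inv_x hR)
      have hlt := hcard hRM hne
      have h64 : M = Q := Subgroup.eq_of_le_of_card_ge hMQ (by
        rw [hQ.card]
        rcases T.core_card hs hQ hMQ hMx (hRM htR) (hRM hvR) with h | h | h <;> omega)
      exact fun q hq => mem_normalizer_of (hnorm q (h64 ▸ hq))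
    · rw [h]; exact Subgroup.le_normalizer
  intro c hc a ha
  have hfull := T.full hs hQ
    (Subgroup.centralizer ({t} : Set G) ⊓ Subgroup.normalizer (R : Set G)) inf_le_left
    (le_inf (fun q hq => mem_cent.2 (hQ.comm q hq)) hQN)
    ⟨mem_cent.2 T.cxt, mem_normalizer_of (T.R_inv_x hR)⟩
    (s := s) ⟨mem_cent.2 hst, mem_normalizer_of (R_inv_s hR hst stv)⟩ hsx (mem_cent.2 hc)
  exact (Subgroup.mem_normalizer_iff.1 hfull.2 a).1 ha

end Trio

end CfsgLib.M22Count
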