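/-
The graph on the 77 conjugates of a hexad subgroup of a group with the order and element-order
counts of `M₂₂`: two conjugates are joined when no involution of one commutes with an involution of
the other. It is strongly regular with parameters `(77, 16, 0, 4)`.
-/
import Cfsg.Agent.M22Count.Defs
import Mathlib.Combinatorics.SimpleGraph.StronglyRegular
import Mathlib.GroupTheory.GroupAction.Quotient

set_option autoImplicit false

open MulAction

namespace CfsgLib.M22Count.HexGraph

universe u

variable {G : Type u} [Group G] (E : Subgroup G)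

/-- The normalizer of `E`. -/
abbrev nE : Subgroup G := Subgroup.normalizer (E : Set G)

/-- The vertices: the cosets of the normalizer. -/
abbrev Pt : Type u := G ⧸ nE E

/-- The base vertex. -/
def base : Pt E := ((1 : G) : G ⧸ nE E)

/-- The conjugate of `E` attached to a vertex. -/
noncomputable def blk (v : Pt E) : Subgroup G := E.map (MulAut.conj (Quotient.out v)).toMonoidHom

theorem mem_blk_out {v : Pt E} {e : G} :
    e ∈ blk E v ↔ (Quotient.out v)⁻¹ * e * Quotient.out v ∈ E := by
  constructor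
  · rintro ⟨x, hx, rfl⟩
    simpa [mul_assoc] using hx
  · intro h
    exact ⟨_, h, by simp [mul_assoc]⟩

theorem mem_blk_mk {g e : G} : e ∈ blk E (g : G ⧸ nE E) ↔ g⁻¹ * e * g ∈ E := by
  obtain ⟨n, hn⟩ := QuotientGroup.mk_out_eq_mul (nE E) g
  rw [mem_blk_out, hn]
  have h := Subgroup.mem_normalizer_iff''.mp n.2 (g⁻¹ * e * g)
  rw [h]
  simp [mul_assoc]

theorem mem_blk_smul {x e : G} {v : Pt E} : x * e * x⁻¹ ∈ blk E (x • v) ↔ e ∈ blk E v := by
  induction v using QuotientGroup.induction_on with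
  | H g =>
    rw [MulAction.Quotient.smul_coe, smul_eq_mul, mem_blk_mk, mem_blk_mk]
    simp [mul_assoc]

theorem mem_blk_base {e : G} : e ∈ blk E (base E) ↔ e ∈ E := by
  rw [base, mem_blk_mk]; simp

theorem smul_base_iff {x : G} : x • base E = base E ↔ x ∈ nE E := by
  rw [base, MulAction.Quotient.smul_coe, smul_eq_mul, mul_one, QuotientGroup.eq]
  simp

/-- Adjacency: no involution of one block commutes with one of the other. -/
def graph : SimpleGraph (Pt E) where
  Adj v w := v ≠ w ∧ ∀ a ∈ blk E v, ∀ b ∈ blk E w, a ≠ 1 → b ≠ 1 → a * b ≠ b * a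
  symm := ⟨fun _ _ h => ⟨h.1.symm, fun a ha b hb h1 h2 he => h.2 b hb a ha h2 h1 he.symm⟩⟩
  loopless := ⟨fun _ h => h.1 rfl⟩

theorem graph_smul {g : G} {v w : Pt E} (h : (graph E).Adj v w) :
    (graph E).Adj (g • v) (g • w) := by
  refine ⟨fun he => h.1 (smul_left_cancel g he), fun a ha b hb h1 h2 he => ?_⟩
  have ha' : g⁻¹ * a * g ∈ blk E v := by
    rw [← mem_blk_smul E (x := g)]; simpa [mul_assoc] using ha
  have hb' : g⁻¹ * b * g ∈ blk E w := by
    rw [← mem_blk_smul E (x := g)]; simpa [mul_assoc] using hb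
  refine h.2 _ ha' _ hb' ?_ ?_ ?_
  · exact fun h' => h1 (by simpa [mul_assoc] using congrArg (fun t => g * t * g⁻¹) h')
  · exact fun h' => h2 (by simpa [mul_assoc] using congrArg (fun t => g * t * g⁻¹) h')
  · calc g⁻¹ * a * g * (g⁻¹ * b * g) = g⁻¹ * (a * b) * g := by group
      _ = g⁻¹ * (b * a) * g := by rw [he]
      _ = g⁻¹ * b * g * (g⁻¹ * a * g) := by group

theorem graph_smul_iff {g : G} {v w : Pt E} :
    (graph E).Adj (g • v) (g • w) ↔ (graph E).Adj v w :=
  ⟨fun h => by simpa using graph_smul E (g := g⁻¹) h, fun h => graph_smul E h⟩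

/-- The vertices other than the base meeting the normalizer of `E` nontrivially. -/
def Meets (v : Pt E) : Prop := v ≠ base E ∧ ∃ a ∈ blk E v, a ≠ 1 ∧ a ∈ nE E

variable {E}
variable (h : Hexad E)
include h

theorem orderOf_two {v : Pt E} {a : G} (ha : a ∈ blk E v) (h1 : a ≠ 1) : orderOf a = 2 := by
  rw [mem_blk_out] at ha
  refine orderOf_eq_prime ?_ h1
  rw [pow_two]
  have h2 := h.sq _ ha
  calc a * a = Quotient.out v * (((Quotient.out v)⁻¹ * a * Quotient.out v) *
        ((Quotient.out v)⁻¹ * a * Quotient.out v)) * (Quotient.out v)⁻¹ := by group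
    _ = 1 := by rw [h2]; group

theorem eq_of_mem_blk {v w : Pt E} {e : G} (hv : e ∈ blk E v) (hw : e ∈ blk E w) (h1 : e ≠ 1) :
    v = w := by
  induction v using QuotientGroup.induction_on with
  | H g =>
    induction w using QuotientGroup.induction_on with
    | H k =>
      rw [mem_blk_mk] at hv hw
      rw [QuotientGroup.eq]
      have hn := h.ti (g⁻¹ * k) _ hw
        (fun he => h1 (by simpa [mul_assoc] using congrArg (fun t => k * t * k⁻¹) he))
        (by simpa [mul_assoc] using hv)
      exact hn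

/-- An element commuting with a nontrivial element of a block fixes the vertex. -/
theorem smul_eq_of_commute {v : Pt E} {a c : G} (ha : a ∈ blk E v) (h1 : a ≠ 1)
    (hc : c * a = a * c) : c • v = v := by
  have h2 : c * a * c⁻¹ ∈ blk E (c • v) := (mem_blk_smul E).mpr ha
  rw [hc, mul_inv_cancel_right] at h2
  exact eq_of_mem_blk h h2 ha h1

theorem mem_nE_of_commute {b c : G} (hb : b ∈ E) (h1 : b ≠ 1) (hc : c * b = b * c) : c ∈ nE E :=
  (smul_base_iff E).mp (smul_eq_of_commute h ((mem_blk_base E).mpr hb) h1 hc)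

theorem not_mem_E {v : Pt E} {a : G} (hv : v ≠ base E) (ha : a ∈ blk E v) (h1 : a ≠ 1) : a ∉ E :=
  fun he => hv (eq_of_mem_blk h ha ((mem_blk_base E).mpr he) h1)

/-- Elements of the two stabilizing parts commute. -/
theorem commute_parts {v : Pt E} (hv : v ≠ base E) {a b : G} (ha : a ∈ blk E v) (haN : a ∈ nE E)
    (hb : b ∈ E) (hbv : b • v = v) : a * b = b * a := by
  by_contra hne
  have hne' : a * b * a⁻¹ * b⁻¹ ≠ 1 := fun he => hne (by
    calc a * b = a * b * a⁻¹ * b⁻¹ * (b * a) := by group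
      _ = b * a := by rw [he, one_mul])
  refine not_mem_E h hv ?_ hne' (mul_mem ((Subgroup.mem_normalizer_iff.mp haN b).mp hb) (inv_mem hb))
  have h2 : b * a⁻¹ * b⁻¹ ∈ blk E (b • v) := (mem_blk_smul E).mpr (inv_mem ha)
  rw [hbv] at h2
  simpa [mul_assoc] using mul_mem ha h2

variable [Finite G]

theorem card_cent_in_blk {v : Pt E} (hv : v ≠ base E) {b : G} (hb : b ∈ E) (h1 : b ≠ 1)
    (hbv : b • v = v) : Nat.card {f : G // f ∈ blk E v ∧ f * b = b * f} = 4 := by
  induction v using QuotientGroup.induction_on with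
  | H g =>
    have hN : g⁻¹ * b * g ∈ nE E := by
      rw [MulAction.Quotient.smul_coe, smul_eq_mul, QuotientGroup.eq] at hbv
      simpa [mul_assoc] using inv_mem hbv
    have hE : g⁻¹ * b * g ∉ E := fun he =>
      hv (eq_of_mem_blk h ((mem_blk_mk E).mpr he) ((mem_blk_base E).mpr hb) h1)
    have h2 : orderOf (g⁻¹ * b * g) = 2 := by
      refine orderOf_eq_prime ?_ fun he => h1 (by simpa [mul_assoc] using congrArg (fun t => g * t * g⁻¹) he)
      rw [pow_two]
      calc g⁻¹ * b * g * (g⁻¹ * b * g) = g⁻¹ * (b * b) * g := by group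
        _ = 1 := by rw [h.sq b hb]; group
    rw [← h.small _ hN h2 hE]
    refine Nat.card_congr
      { toFun := fun f => ⟨g⁻¹ * f.1 * g, ⟨(mem_blk_mk E).mp f.2.1, ?_⟩⟩
        invFun := fun e => ⟨g * e.1 * g⁻¹, ?_, ?_⟩
        left_inv := fun f => Subtype.ext (by simp [mul_assoc])
        right_inv := fun e => Subtype.ext (by simp [mul_assoc]) }
    · refine Subgroup.mem_centralizer_singleton_iff.mpr ?_
      calc g⁻¹ * f.1 * g * (g⁻¹ * b * g) = g⁻¹ * (f.1 * b) * g := by group
        _ = g⁻¹ * (b * f.1) * g := by rw [f.2.2]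
        _ = g⁻¹ * b * g * (g⁻¹ * f.1 * g) := by group
    · rw [mem_blk_mk]
      simpa [mul_assoc] using e.2.1
    · have he := Subgroup.mem_centralizer_singleton_iff.mp e.2.2
      calc g * e.1 * g⁻¹ * b = g * (e.1 * (g⁻¹ * b * g)) * g⁻¹ := by group
        _ = g * (g⁻¹ * b * g * e.1) * g⁻¹ := by rw [he]
        _ = b * (g * e.1 * g⁻¹) := by group

omit h in
theorem exists_ne_one_of_card_four {p : G → Prop} (hc : Nat.card {f : G // p f} = 4) :
    ∃ f, p f ∧ f ≠ 1 := by
  by_contra hn
  push Not at hn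
  have : Nat.card {f : G // p f} ≤ 1 := by
    rw [Finite.card_le_one_iff_subsingleton]
    exact ⟨fun x y => Subtype.ext ((hn _ x.2).trans (hn _ y.2).symm)⟩
  omega

theorem card_cent_in_E {v : Pt E} (hv : v ≠ base E) {a : G} (ha : a ∈ blk E v) (h1 : a ≠ 1)
    (haN : a ∈ nE E) : Nat.card {b : G // b ∈ E ∧ b * a = a * b} = 4 := by
  rw [← h.small a haN (orderOf_two h ha h1) (not_mem_E h hv ha h1)]
  refine Nat.card_congr (Equiv.subtypeEquivRight fun b => ?_)
  rw [Subgroup.mem_inf, Subgroup.mem_centralizer_singleton_iff]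

theorem meets_iff_fix {v : Pt E} (hv : v ≠ base E) :
    Meets E v ↔ ∃ b ∈ E, b ≠ 1 ∧ b • v = v := by
  constructor
  · rintro ⟨_, a, ha, h1, haN⟩
    obtain ⟨b, ⟨hb, hc⟩, hb1⟩ := exists_ne_one_of_card_four (card_cent_in_E h hv ha h1 haN)
    exact ⟨b, hb, hb1, smul_eq_of_commute h ha h1 hc⟩
  · rintro ⟨b, hb, hb1, hbv⟩
    obtain ⟨f, ⟨hf, hc⟩, hf1⟩ := exists_ne_one_of_card_four (card_cent_in_blk h hv hb hb1 hbv)
    exact ⟨hv, f, hf, hf1, mem_nE_of_commute h hb hb1 hc⟩

/-- The elements of `E` fixing a meeting vertex. -/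
theorem card_fix_E {v : Pt E} (hm : Meets E v) : Nat.card {b : G // b ∈ E ∧ b • v = v} = 4 := by
  obtain ⟨hv, a, ha, h1, haN⟩ := hm
  rw [← card_cent_in_E h hv ha h1 haN]
  exact Nat.card_congr (Equiv.subtypeEquivRight fun b =>
    ⟨fun hb => ⟨hb.1, (commute_parts h hv ha haN hb.1 hb.2).symm⟩,
      fun hb => ⟨hb.1, smul_eq_of_commute h ha h1 hb.2⟩⟩)

/-- The part of a meeting block inside the normalizer. -/
theorem card_part {v : Pt E} (hm : Meets E v) :
    Nat.card {a : G // a ∈ blk E v ∧ a ∈ nE E} = 4 := by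
  have hv := hm.1
  obtain ⟨b, hb, hb1, hbv⟩ := (meets_iff_fix h hv).mp hm
  rw [← card_cent_in_blk h hv hb hb1 hbv]
  exact Nat.card_congr (Equiv.subtypeEquivRight fun a =>
    ⟨fun ha => ⟨ha.1, commute_parts h hv ha.1 ha.2 hb hbv⟩,
      fun ha => ⟨ha.1, mem_nE_of_commute h hb hb1 ha.2⟩⟩)

theorem adj_base_iff {v : Pt E} : (graph E).Adj (base E) v ↔ v ≠ base E ∧ ¬ Meets E v := by
  constructor
  · rintro ⟨hne, hc⟩
    refine ⟨hne.symm, ?_⟩
    rintro ⟨hv, a, ha, h1, haN⟩
    obtain ⟨b, ⟨hb, hcb⟩, hb1⟩ := exists_ne_one_of_card_four (card_cent_in_E h hv ha h1 haN)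
    exact hc b ((mem_blk_base E).mpr hb) a ha hb1 h1 hcb
  · rintro ⟨hv, hm⟩
    refine ⟨hv.symm, fun b hb a ha hb1 h1 he => hm ⟨hv, a, ha, h1, ?_⟩⟩
    exact mem_nE_of_commute h ((mem_blk_base E).mp hb) hb1 he.symm

theorem meets_smul {n : G} (hn : n ∈ nE E) {v : Pt E} (hm : Meets E v) : Meets E (n • v) := by
  obtain ⟨hv, a, ha, h1, haN⟩ := hm
  refine ⟨fun he => hv (smul_left_cancel n (he.trans ((smul_base_iff E).mpr hn).symm)),
    n * a * n⁻¹, (mem_blk_smul E).mpr ha, ?_, mul_mem (mul_mem hn haN) (inv_mem hn)⟩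
  exact fun he => h1 (by simpa [mul_assoc] using congrArg (fun t => n⁻¹ * t * n) he)

theorem adj_base_smul {n : G} (hn : n ∈ nE E) {v : Pt E} (ha : (graph E).Adj (base E) v) :
    (graph E).Adj (base E) (n • v) := by
  have h2 := graph_smul E (g := n) ha
  rwa [(smul_base_iff E).mpr hn] at h2

omit h in
/-- A subgroup with stabilizers of constant order on an invariant set: the orbit length divides
the size of the set. -/
theorem dvd_card_of_stabilizer {X : Type*} [MulAction G X] [Finite X] (H : Subgroup G) (S : Set X)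
    (hS : ∀ g ∈ H, ∀ x ∈ S, g • x ∈ S) (c m : ℕ) (hc : c * m = Nat.card H) (hc0 : 0 < c)
    (hstab : ∀ x ∈ S, Nat.card {g : G // g ∈ H ∧ g • x = x} = c) : m ∣ Nat.card S := by
  classical
  let T : SubMulAction H X :=
    { carrier := S, smul_mem' := fun g x hx => hS g.1 g.2 x hx }
  have horb : ∀ ω : orbitRel.Quotient H T, Nat.card ω.orbit = m := by
    intro ω
    induction ω using Quotient.inductionOn' with
    | h x =>
      rw [orbitRel.Quotient.orbit_mk]
      have e : stabilizer H x ≃ {g : G // g ∈ H ∧ g • (x : X) = x} :=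
        { toFun := fun g => ⟨g.1.1, g.1.2, congrArg Subtype.val g.2⟩
          invFun := fun g => ⟨⟨g.1, g.2.1⟩, Subtype.ext g.2.2⟩
          left_inv := fun _ => rfl
          right_inv := fun _ => rfl }
      have h2 : Nat.card (orbit H x) * Nat.card (stabilizer H x) = Nat.card H := by
        rw [← Nat.card_prod]
        exact Nat.card_congr (orbitProdStabilizerEquivGroup H x)
      rw [Nat.card_congr e, hstab _ x.2, ← hc, mul_comm c m] at h2
      exact Nat.eq_of_mul_eq_mul_right hc0 h2
  haveI : Finite T := Finite.of_injective (Subtype.val : T → X) Subtype.val_injective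
  haveI := Fintype.ofFinite (orbitRel.Quotient H T)
  have h3 : Nat.card T = Nat.card S := rfl
  rw [← h3, Nat.card_congr (selfEquivSigmaOrbits' H T), Nat.card_sigma]
  exact Finset.dvd_sum fun ω _ => (horb ω).symm.dvd

theorem dvd_meets (S : Set (Pt E)) (hS : ∀ g ∈ E, ∀ x ∈ S, g • x ∈ S)
    (hm : ∀ x ∈ S, Meets E x) : 4 ∣ Nat.card S :=
  dvd_card_of_stabilizer E S hS 4 4 (by rw [h.card]) (by norm_num) fun x hx => card_fix_E h (hm x hx)

omit h [Finite G] in
theorem mem_nE_of_mem {e : G} (he : e ∈ E) : e ∈ nE E := Subgroup.le_normalizer he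

theorem dvd_not_meets : 16 ∣ Nat.card {v : Pt E | (graph E).Adj (base E) v} := by
  refine dvd_card_of_stabilizer E {v : Pt E | (graph E).Adj (base E) v}
    (fun g hg x hx => adj_base_smul h (mem_nE_of_mem hg) hx) 1 16
    (by rw [h.card]) (by norm_num) fun x hx => ?_
  obtain ⟨hx1, hx2⟩ := (adj_base_iff h).mp hx
  rw [Nat.card_eq_one_iff_unique]
  refine ⟨⟨fun a b => ?_⟩, ⟨⟨1, one_mem _, one_smul _ _⟩⟩⟩
  have key : ∀ c : {g : G // g ∈ E ∧ g • x = x}, c.1 = 1 := fun c => by
    by_contra hc
    exact hx2 ((meets_iff_fix h hx1).mpr ⟨c.1, c.2.1, hc, c.2.2⟩)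
  exact Subtype.ext ((key a).trans (key b).symm)

omit h in
theorem card_split_one {p : G → Prop} (hp : p 1) :
    Nat.card {x : G // p x} = Nat.card {x : G // p x ∧ x ≠ 1} + 1 := by
  classical
  haveI := Fintype.ofFinite G
  simp only [Nat.card_eq_fintype_card, Fintype.card_subtype]
  rw [← Finset.card_erase_add_one (s := Finset.univ.filter p) (a := (1 : G)) (by simpa using hp)]
  congr 2
  ext x
  simp [and_comm]

variable (hs : Setup G)
include hs

theorem card_pt : Nat.card (Pt E) = 77 := by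
  have h2 := (nE E).index_mul_card
  rw [h.norm_card, hs.card] at h2
  rw [show Nat.card (Pt E) = (nE E).index from rfl]
  omega

/-- The number of meeting vertices is a multiple of five: count commuting pairs. -/
theorem five_dvd_meets : 5 ∣ Nat.card {v : Pt E | Meets E v} := by
  classical
  haveI := Fintype.ofFinite G
  haveI := Fintype.ofFinite {v : Pt E | Meets E v}
  -- the involutions of the normalizer outside `E`
  let I2 := {a : G // a ∈ nE E ∧ orderOf a = 2 ∧ a ∉ E}
  let S3 := fun v : {v : Pt E | Meets E v} => {a : G // (a ∈ blk E v.1 ∧ a ∈ nE E) ∧ a ≠ 1}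
  have hexists : ∀ a : G, orderOf a = 2 → ∃ v : Pt E, a ∈ blk E v := by
    intro a ha
    obtain ⟨b, hb, hb1⟩ : ∃ b ∈ E, b ≠ 1 := by
      by_contra hn
      push Not at hn
      have := h.card
      rw [(Subgroup.eq_bot_iff_forall E).mpr hn, Subgroup.card_bot] at this
      norm_num at this
    obtain ⟨g, hg⟩ := isConj_iff.mp (hs.invol_conj b a
      (orderOf_two h ((mem_blk_base E).mpr hb) hb1) ha)
    refine ⟨(g : G ⧸ nE E), (mem_blk_mk E).mpr ?_⟩
    rw [← hg]
    simpa [mul_assoc] using hb
  let f : (Σ v, S3 v) → I2 := fun x =>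
    ⟨x.2.1, x.2.2.1.2, orderOf_two h x.2.2.1.1 x.2.2.2, not_mem_E h x.1.2.1 x.2.2.1.1 x.2.2.2⟩
  have hf : Function.Bijective f := by
    constructor
    · rintro ⟨⟨v, hv⟩, a, ha⟩ ⟨⟨w, hw⟩, b, hb⟩ he
      have he' : a = b := congrArg Subtype.val he
      subst he'
      obtain rfl := eq_of_mem_blk h ha.1.1 hb.1.1 ha.2
      rfl
    · rintro ⟨a, haN, ha2, haE⟩
      obtain ⟨v, hv⟩ := hexists a ha2
      have h1 : a ≠ 1 := fun he => by simp [he] at ha2
      have hvb : v ≠ base E := fun he => haE ((mem_blk_base E).mp (he ▸ hv))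
      exact ⟨⟨⟨v, hvb, a, hv, h1, haN⟩, a, ⟨hv, haN⟩, h1⟩, rfl⟩
  have hI2 : Nat.card I2 = 3 * Nat.card {v : Pt E | Meets E v} := by
    rw [← Nat.card_congr (Equiv.ofBijective f hf), Nat.card_sigma]
    have hS3 : ∀ v, Nat.card (S3 v) = 3 := by
      intro v
      have h4 := card_part h v.2
      rw [card_split_one ⟨one_mem _, one_mem _⟩] at h4
      change Nat.card {a : G // (a ∈ blk E v.1 ∧ a ∈ nE E) ∧ a ≠ 1} = 3
      omega
    simp only [hS3]
    rw [Finset.sum_const, Finset.card_univ, Nat.card_eq_fintype_card]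
    simp [mul_comm]
  let E1 := {e : G // e ∈ E ∧ e ≠ 1}
  have hE1 : Nat.card E1 = 15 := by
    have h4 : Nat.card {e : G // e ∈ E} = 16 := h.card
    rw [card_split_one (one_mem E)] at h4
    change Nat.card {e : G // e ∈ E ∧ e ≠ 1} = 15
    omega
  have hrow : ∀ a : I2, Nat.card {e : E1 // e.1 * a.1 = a.1 * e.1} = 3 := by
    rintro ⟨a, haN, ha2, haE⟩
    have h4 := h.small a haN ha2 haE
    have h5 : Nat.card {e : G // e ∈ E ∧ e * a = a * e} = 4 := by
      rw [← h4]
      exact Nat.card_congr (Equiv.subtypeEquivRight fun b => by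
        rw [Subgroup.mem_inf, Subgroup.mem_centralizer_singleton_iff])
    rw [card_split_one (by simp)] at h5
    have e2 : {e : E1 // e.1 * a = a * e.1} ≃ {e : G // (e ∈ E ∧ e * a = a * e) ∧ e ≠ 1} :=
      { toFun := fun e => ⟨e.1.1, ⟨e.1.2.1, e.2⟩, e.1.2.2⟩
        invFun := fun e => ⟨⟨e.1, e.2.1.1, e.2.2⟩, e.2.1.2⟩
        left_inv := fun _ => rfl
        right_inv := fun _ => rfl }
    rw [Nat.card_congr e2]
    omega
  obtain ⟨b0⟩ : Nonempty E1 := (Nat.card_pos_iff.mp (by omega)).1
  have hcol : ∀ e : E1, Nat.card {a : I2 // e.1 * a.1 = a.1 * e.1} =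
      Nat.card {a : I2 // b0.1 * a.1 = a.1 * b0.1} := by
    rintro ⟨e, he, he1⟩
    obtain ⟨n, hn, hne⟩ := h.trans b0.1 b0.2.1 e he b0.2.2 he1
    have hI : ∀ g ∈ nE E, ∀ a : I2, g * a.1 * g⁻¹ ∈ nE E ∧ orderOf (g * a.1 * g⁻¹) = 2 ∧
        g * a.1 * g⁻¹ ∉ E := fun g hg a =>
      ⟨mul_mem (mul_mem hg a.2.1) (inv_mem hg),
        by simpa using (orderOf_injective (MulAut.conj g).toMonoidHom (MulAut.conj g).injective a.1).trans a.2.2.1,
        fun hm => a.2.2.2 ((Subgroup.mem_normalizer_iff.mp hg a.1).mpr hm)⟩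
    have hcomm : ∀ g x y : G, x * y = y * x →
        (g * x * g⁻¹) * (g * y * g⁻¹) = (g * y * g⁻¹) * (g * x * g⁻¹) := fun g x y hxy => by
      calc (g * x * g⁻¹) * (g * y * g⁻¹) = g * (x * y) * g⁻¹ := by group
        _ = g * (y * x) * g⁻¹ := by rw [hxy]
        _ = _ := by group
    refine Nat.card_congr
      { toFun := fun a => ⟨⟨n⁻¹ * a.1.1 * n⁻¹⁻¹, hI _ (inv_mem hn) a.1⟩, ?_⟩
        invFun := fun a => ⟨⟨n * a.1.1 * n⁻¹, hI _ hn a.1⟩, ?_⟩
        left_inv := fun a => Subtype.ext (Subtype.ext (by simp [mul_assoc]))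
        right_inv := fun a => Subtype.ext (Subtype.ext (by simp [mul_assoc])) }
    · have := hcomm n⁻¹ e a.1.1 a.2
      rwa [show n⁻¹ * e * n⁻¹⁻¹ = b0.1 by rw [← hne]; group] at this
    · have := hcomm n b0.1 a.1.1 a.2
      rwa [hne] at this
  haveI := Fintype.ofFinite I2
  haveI := Fintype.ofFinite E1
  have hcount : Nat.card (Σ a : I2, {e : E1 // e.1 * a.1 = a.1 * e.1}) =
      Nat.card (Σ e : E1, {a : I2 // e.1 * a.1 = a.1 * e.1}) := Nat.card_congr
    { toFun := fun x => ⟨x.2.1, x.1, x.2.2⟩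
      invFun := fun x => ⟨x.2.1, x.1, x.2.2⟩
      left_inv := fun _ => rfl
      right_inv := fun _ => rfl }
  rw [Nat.card_sigma, Nat.card_sigma] at hcount
  simp only [hrow, hcol] at hcount
  rw [Finset.sum_const, Finset.sum_const, Finset.card_univ, Finset.card_univ] at hcount
  simp only [smul_eq_mul, ← Nat.card_eq_fintype_card, hI2, hE1] at hcount
  omega

theorem card_meets_adj :
    Nat.card {v : Pt E | Meets E v} = 60 ∧ Nat.card {v : Pt E | (graph E).Adj (base E) v} = 16 := by
  classical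
  haveI := Fintype.ofFinite (Pt E)
  have h5 := five_dvd_meets h hs
  have h4 : 4 ∣ Nat.card {v : Pt E | Meets E v} :=
    dvd_meets h _ (fun g hg x hx => meets_smul h (mem_nE_of_mem hg) hx) fun _ hx => hx
  have h16 := dvd_not_meets h
  have hsum : Nat.card {v : Pt E | Meets E v} + Nat.card {v : Pt E | (graph E).Adj (base E) v} + 1
      = 77 := by
    rw [← card_pt h hs]
    simp only [Nat.card_eq_fintype_card, Set.coe_setOf, Fintype.card_subtype]
    rw [← Finset.card_union_of_disjoint]
    · rw [← Finset.card_univ (α := Pt E),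
        ← Finset.card_erase_add_one (s := (Finset.univ : Finset (Pt E))) (a := base E)
          (Finset.mem_univ _)]
      congr 2
      ext v
      simp only [Finset.mem_union, Finset.mem_filter, Finset.mem_univ, true_and, Finset.mem_erase,
        and_true]
      rw [adj_base_iff h]
      constructor
      · rintro (hm | hm)
        · exact hm.1
        · exact hm.1
      · intro hv
        by_cases hm : Meets E v
        · exact Or.inl hm
        · exact Or.inr ⟨hv, hm⟩
    · rw [Finset.disjoint_filter]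
      exact fun v _ hm ha => ((adj_base_iff h).mp ha).2 hm
  omega

/-- `E` is regular on the neighbours of the base vertex. -/
theorem exists_smul_of_adj {v w : Pt E} (hv : (graph E).Adj (base E) v)
    (hw : (graph E).Adj (base E) w) : ∃ e ∈ E, e • v = w := by
  obtain ⟨hv1, hv2⟩ := (adj_base_iff h).mp hv
  let f : E → {x : Pt E | (graph E).Adj (base E) x} := fun e =>
    ⟨(e : G) • v, adj_base_smul h (mem_nE_of_mem e.2) hv⟩
  have hf : Function.Injective f := by
    intro a b hab
    have h2 : (a : G) • v = (b : G) • v := congrArg Subtype.val hab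
    have h3 : ((b : G)⁻¹ * a) • v = v := by rw [mul_smul, h2, inv_smul_smul]
    by_contra hne
    refine hv2 ((meets_iff_fix h hv1).mpr ⟨_, mul_mem (inv_mem b.2) a.2, fun he => hne ?_, h3⟩)
    exact Subtype.ext (inv_mul_eq_one.mp he).symm
  have hb := hf.bijective_of_nat_card_le (by rw [(card_meets_adj h hs).2, h.card])
  obtain ⟨e, he⟩ := hb.2 ⟨w, hw⟩
  exact ⟨e, e.2, congrArg Subtype.val he⟩

/-- The graph has no triangle through the base vertex. -/
theorem no_triangle {v w : Pt E} (hv : (graph E).Adj (base E) v) (hw : (graph E).Adj (base E) w) :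
    ¬ (graph E).Adj v w := by
  classical
  intro hvw
  haveI := Fintype.ofFinite (Pt E)
  -- one triangle gives that the neighbourhood is a clique
  obtain ⟨e0, he0, hev⟩ := exists_smul_of_adj h hs hv hw
  have he01 : e0 ≠ 1 := fun he => hvw.1 (by rw [← hev, he, one_smul])
  have hall : ∀ e ∈ E, e ≠ 1 → (graph E).Adj v (e • v) := by
    intro e he he1
    obtain ⟨n, hn, hne⟩ := h.trans e0 he0 e he he01 he1
    obtain ⟨e', he', hev'⟩ := exists_smul_of_adj h hs hv (adj_base_smul h hn hv)
    have hk : (e'⁻¹ * n) • v = v := by rw [mul_smul, ← hev', inv_smul_smul]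
    have h2 := graph_smul E (g := e'⁻¹ * n) hvw
    rw [hk, ← hev, smul_smul,
      show e'⁻¹ * n * e0 = (e'⁻¹ * (n * e0 * n⁻¹) * e') * (e'⁻¹ * n) by group, mul_smul, hk,
      hne, mul_assoc, h.comm e he e' he', inv_mul_cancel_left] at h2
    exact h2
  have hclique : ∀ x y, (graph E).Adj (base E) x → (graph E).Adj (base E) y → x ≠ y →
      (graph E).Adj x y := by
    intro x y hx hy hxy
    obtain ⟨a, ha, rfl⟩ := exists_smul_of_adj h hs hv hx
    obtain ⟨b, hb, rfl⟩ := exists_smul_of_adj h hs hv hy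
    have h2 := graph_smul E (g := a) (hall (a⁻¹ * b) (mul_mem (inv_mem ha) hb)
      (fun he => hxy (by rw [inv_mul_eq_one.mp he])))
    rwa [smul_smul, mul_inv_cancel_left] at h2
  let r : Setoid (Pt E) :=
    { r := fun x y => x = y ∨ (graph E).Adj x y
      iseqv :=
        { refl := fun x => Or.inl rfl
          symm := fun {x y} hxy => hxy.imp Eq.symm SimpleGraph.Adj.symm
          trans := fun {x y z} hxy hyz => by
            rcases hxy with rfl | hxy
            · exact hyz
            rcases hyz with rfl | hyz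
            · exact Or.inr hxy
            by_cases hxz : x = z
            · exact Or.inl hxz
            refine Or.inr ?_
            obtain ⟨g, hg⟩ := MulAction.exists_smul_eq G (base E) y
            subst hg
            rw [← graph_smul_iff E (g := g⁻¹)]
            refine hclique _ _ ?_ ?_ fun he => hxz (smul_left_cancel g⁻¹ he)
            · simpa using (graph_smul E (g := g⁻¹) hxy).symm
            · simpa using graph_smul E (g := g⁻¹) hyz } }
  have hfib : ∀ q : Quotient r, Nat.card {x : Pt E // Quotient.mk r x = q} = 17 := by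
    intro q
    induction q using Quotient.inductionOn with
    | h y =>
      obtain ⟨g, hg⟩ := MulAction.exists_smul_eq G (base E) y
      have e : {x : Pt E // Quotient.mk r x = Quotient.mk r y} ≃
          {x : Pt E // x = base E ∨ (graph E).Adj (base E) x} :=
        ((MulAction.toPerm g).subtypeEquiv fun x => by
          constructor
          · intro hx
            refine Quotient.sound ?_
            rcases hx with rfl | hx
            · exact Or.inl (by simp [hg])
            · exact Or.inr (by simpa [hg] using (graph_smul E (g := g) hx).symm)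
          · intro hx
            rcases Quotient.exact hx with he | he
            · exact Or.inl (smul_left_cancel g (he.trans hg.symm))
            · refine Or.inr ((graph_smul_iff E (g := g)).mp ?_)
              simpa [hg] using he.symm).symm
      rw [Nat.card_congr e]
      have h16 := (card_meets_adj h hs).2
      rw [Nat.card_eq_fintype_card, Fintype.card_subtype] at *
      rw [show (Finset.univ.filter fun x => x = base E ∨ (graph E).Adj (base E) x) =
          insert (base E) (Finset.univ.filter fun x => x ∈ {v : Pt E | (graph E).Adj (base E) v}) by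
            ext; simp, Finset.card_insert_of_notMem (by simp)]
      omega
  haveI := Fintype.ofFinite (Quotient r)
  have h17 : 17 ∣ Nat.card (Pt E) := by
    rw [← Nat.card_congr (Equiv.sigmaFiberEquiv (Quotient.mk r)), Nat.card_sigma]
    exact Finset.dvd_sum fun q _ => (hfib q).symm.dvd
  rw [card_pt h hs] at h17
  norm_num at h17

/-- The normalizer is transitive on the meeting vertices. -/
theorem meets_transitive {v w : Pt E} (hv : Meets E v) (hw : Meets E w) :
    ∃ n ∈ nE E, n • v = w := by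
  classical
  haveI := Fintype.ofFinite G
  haveI : Fact (Nat.Prime 3) := ⟨by norm_num⟩
  set L : Set (Pt E) := MulAction.orbit (nE E) v with hL
  have hLm : ∀ x ∈ L, Meets E x := by
    rintro _ ⟨n, rfl⟩
    exact meets_smul h n.2 hv
  have h4 : 4 ∣ Nat.card L := dvd_meets h L (fun g hg x hx => by
    obtain ⟨n, rfl⟩ := hx
    exact ⟨⟨g, mem_nE_of_mem hg⟩ * n, mul_smul _ _ _⟩) hLm
  set S : Subgroup G := nE E ⊓ MulAction.stabilizer G v with hS
  have hLS : Nat.card L * Nat.card S = 5760 := by
    rw [← h.norm_card]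
    have e : MulAction.stabilizer (nE E) v ≃ S :=
      { toFun := fun g => ⟨g.1.1, g.1.2, g.2⟩
        invFun := fun g => ⟨⟨g.1, g.2.1⟩, g.2.2⟩
        left_inv := fun _ => rfl
        right_inv := fun _ => rfl }
    rw [← Nat.card_congr e, ← Nat.card_prod]
    exact Nat.card_congr (orbitProdStabilizerEquivGroup (nE E) v)
  let T := {b : G // (b ∈ E ∧ b • v = v) ∧ b ≠ 1}
  have hT : Nat.card T = 3 := by
    have h4 := card_fix_E h hv
    rw [card_split_one ⟨one_mem _, one_smul _ _⟩] at h4
    change Nat.card {b : G // (b ∈ E ∧ b • v = v) ∧ b ≠ 1} = 3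
    omega
  have hact : ∀ (g : S) (b : T), ((g : G) * b.1 * (g : G)⁻¹ ∈ E ∧
      ((g : G) * b.1 * (g : G)⁻¹) • v = v) ∧ (g : G) * b.1 * (g : G)⁻¹ ≠ 1 := by
    intro g b
    refine ⟨⟨(Subgroup.mem_normalizer_iff.mp g.2.1 b.1).mp b.2.1.1, ?_⟩,
      fun he => b.2.2 (by simpa [mul_assoc] using congrArg (fun t => (g : G)⁻¹ * t * (g : G)) he)⟩
    have hgv : (g : G) • v = v := g.2.2
    have hgv' : (g : G)⁻¹ • v = v := inv_smul_eq_iff.mpr hgv.symm
    rw [mul_smul, mul_smul, hgv', b.2.1.2, hgv]
  letI : MulAction S T :=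
    { smul := fun g b => ⟨_, hact g b⟩
      one_smul := fun b => Subtype.ext (show (1 : G) * b.1 * (1 : G)⁻¹ = b.1 by group)
      mul_smul := fun a b c => Subtype.ext
        (show (a : G) * b * c.1 * ((a : G) * b)⁻¹ = a * ((b : G) * c.1 * (b : G)⁻¹) * (a : G)⁻¹ by group) }
  set φ := MulAction.toPermHom S T with hφ
  have hker : ∀ p : ℕ, p.Prime → ∀ k : ℕ, ¬ p ^ k ∣ 6 → p ^ k ∣ Nat.card S →
      ∃ x : G, orderOf x ∣ p ^ k ∧ x ≠ 1 ∧ ∀ b : T, x * b.1 = b.1 * x := by
    intro p hp k hk hdvd
    haveI : Fact p.Prime := ⟨hp⟩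
    obtain ⟨P, hP⟩ := Sylow.exists_subgroup_card_pow_prime p hdvd
    obtain ⟨x, hx, hx1⟩ : ∃ x ∈ P, x ≠ 1 ∧ φ x = 1 := by
      by_contra hn
      push Not at hn
      have hinj : Function.Injective (φ.comp P.subtype) := by
        rw [← MonoidHom.ker_eq_bot_iff, Subgroup.eq_bot_iff_forall]
        intro y hy
        by_contra hy1
        exact hn y y.2 (fun he => hy1 (Subtype.ext he)) hy
      have h2 := Subgroup.card_dvd_of_injective (φ.comp P.subtype) hinj
      rw [hP, Nat.card_perm, hT] at h2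
      exact hk (by simpa [Nat.factorial] using h2)
    refine ⟨(x : G), ?_, fun he => hx1.1 (Subtype.ext he), fun b => ?_⟩
    · rw [Subgroup.orderOf_coe, ← hP]
      exact Subgroup.orderOf_dvd_natCard _ hx
    · have h2 : x • b = b := by
        have := congrArg (fun σ => (σ : Equiv.Perm T) b) hx1.2
        simpa [hφ] using this
      have h3 : (x : G) * b.1 * (x : G)⁻¹ = b.1 := congrArg Subtype.val h2
      calc (x : G) * b.1 = (x : G) * b.1 * (x : G)⁻¹ * (x : G) := by group
        _ = b.1 * (x : G) := by rw [h3]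
  haveI : Nontrivial T := by
    rw [← Finite.one_lt_card_iff_nontrivial, hT]; norm_num
  obtain ⟨b1, b2, hb12⟩ := exists_pair_ne T
  have hord : ∀ b : T, orderOf b.1 = 2 := fun b =>
    orderOf_two h ((mem_blk_base E).mpr b.2.1.1) b.2.2
  have h5 : ¬ 5 ∣ Nat.card S := by
    intro hd
    obtain ⟨x, hx, hx1, hc⟩ := hker 5 (by norm_num) 1 (by norm_num) (by simpa using hd)
    have hxo : orderOf x = 5 := by
      rw [pow_one] at hx
      rcases (Nat.dvd_prime (by norm_num : Nat.Prime 5)).mp hx with h' | h'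
      · exact absurd (orderOf_eq_one_iff.mp h') hx1
      · exact h'
    have hb : orderOf b1.1 ∣ 5 := by
      rw [← hs.cent_five x hxo]
      exact Subgroup.orderOf_dvd_natCard _ (Subgroup.mem_centralizer_singleton_iff.mpr (hc b1).symm)
    rw [hord] at hb
    norm_num at hb
  have h9 : ¬ 9 ∣ Nat.card S := by
    intro hd
    obtain ⟨x, hx, hx1, hc⟩ := hker 3 (by norm_num) 2 (by norm_num) (by simpa using hd)
    obtain ⟨i, hi2, hi⟩ := (Nat.dvd_prime_pow (by norm_num : Nat.Prime 3)).mp hx
    have hxo : orderOf x = 3 := by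
      interval_cases i
      · exact absurd (orderOf_eq_one_iff.mp (by simpa using hi)) hx1
      · simpa using hi
      · exact absurd (by simpa using hi) (hs.no_nine x)
    obtain ⟨hv1, a, ha, ha1, haN⟩ := hv
    refine not_mem_E h hv1 ha ha1 (h.noline b1.1 b1.2.1.1 b2.1 b2.2.1.1 b1.2.2 b2.2.2
      (fun he => hb12 (Subtype.ext he)) x hxo (hc b1) (hc b2) a (orderOf_two h ha ha1) ?_ ?_)
    · exact commute_parts h hv1 ha haN b1.2.1.1 b1.2.1.2
    · exact commute_parts h hv1 ha haN b2.2.1.1 b2.2.1.2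
  have h5L : 5 ∣ Nat.card L := by
    rcases (Nat.Prime.dvd_mul (by norm_num : Nat.Prime 5)).mp
      (show 5 ∣ Nat.card L * Nat.card S by rw [hLS]; norm_num) with h' | h'
    · exact h'
    · exact absurd h' h5
  have h3L : 3 ∣ Nat.card L := by
    by_contra hn
    exact h9 ((Nat.Coprime.dvd_mul_left (Nat.Coprime.pow_left 2
      ((Nat.Prime.coprime_iff_not_dvd (by norm_num : Nat.Prime 3)).mpr hn))).mp
        (show 3 ^ 2 ∣ Nat.card L * Nat.card S by rw [hLS]; norm_num))
  have hpos : 0 < Nat.card L := by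
    rcases Nat.eq_zero_or_pos (Nat.card L) with h0 | h0
    · rw [h0, zero_mul] at hLS; norm_num at hLS
    · exact h0
  have hle : L ⊆ {x : Pt E | Meets E x} := hLm
  have heq : L = {x : Pt E | Meets E x} := by
    refine Set.eq_of_subset_of_ncard_le hle ?_ (Set.toFinite _)
    rw [← Nat.card_coe_set_eq, ← Nat.card_coe_set_eq, (card_meets_adj h hs).1]
    omega
  obtain ⟨n, hn⟩ : w ∈ L := by rw [heq]; exact hw
  exact ⟨n, n.2, hn⟩

/-- A meeting vertex has four neighbours among those of the base vertex. -/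
theorem card_common {v : Pt E} (hv : Meets E v) :
    Nat.card {w : Pt E // (graph E).Adj (base E) w ∧ (graph E).Adj v w} = 4 := by
  classical
  haveI := Fintype.ofFinite (Pt E)
  let M1 := {x : Pt E | Meets E x}
  let M0 := {x : Pt E | (graph E).Adj (base E) x}
  have hrow : ∀ x : M1, Nat.card {w : M0 // (graph E).Adj x.1 w.1} =
      Nat.card {w : Pt E // (graph E).Adj (base E) w ∧ (graph E).Adj v w} := by
    intro x
    obtain ⟨n, hn, hnx⟩ := meets_transitive h hs hv x.2
    refine (Nat.card_congr ((Equiv.subtypeSubtypeEquivSubtypeInter _ _).trans ?_))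
    refine ((MulAction.toPerm n).subtypeEquiv fun w => ?_).symm
    change (graph E).Adj (base E) w ∧ (graph E).Adj v w ↔
      (graph E).Adj (base E) (n • w) ∧ (graph E).Adj x.1 (n • w)
    rw [← hnx, graph_smul_iff]
    refine and_congr_left' ⟨fun hw => adj_base_smul h hn hw, fun hw => ?_⟩
    simpa using adj_base_smul h (inv_mem hn) hw
  have hcol : ∀ w : M0, Nat.card {x : M1 // (graph E).Adj x.1 w.1} = 15 := by
    rintro ⟨w, hw⟩
    obtain ⟨g, hg⟩ := MulAction.exists_smul_eq G (base E) w
    have h16 : Nat.card {x : Pt E // (graph E).Adj w x} = 16 := by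
      rw [← (card_meets_adj h hs).2]
      refine Nat.card_congr ((MulAction.toPerm g).subtypeEquiv fun x => ?_).symm
      change (graph E).Adj (base E) x ↔ (graph E).Adj w (g • x)
      rw [← hg, graph_smul_iff]
    have e : {x : Pt E // (graph E).Adj w x ∧ x ≠ base E} ≃ {x : M1 // (graph E).Adj x.1 w} :=
      { toFun := fun x => ⟨⟨x.1, by
            by_contra hm
            exact no_triangle h hs hw ((adj_base_iff h).mpr ⟨x.2.2, hm⟩) x.2.1⟩, x.2.1.symm⟩
        invFun := fun x => ⟨x.1.1, x.2.symm, x.1.2.1⟩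
        left_inv := fun _ => rfl
        right_inv := fun _ => rfl }
    rw [← Nat.card_congr e]
    simp only [Nat.card_eq_fintype_card, Fintype.card_subtype] at h16 ⊢
    rw [show (Finset.univ.filter fun x => (graph E).Adj w x ∧ x ≠ base E) =
        (Finset.univ.filter fun x => (graph E).Adj w x).erase (base E) by ext; simp [and_comm],
      Finset.card_erase_of_mem (by simpa using hw.symm), h16]
  haveI := Fintype.ofFinite M1
  haveI := Fintype.ofFinite M0
  have hcount : Nat.card (Σ x : M1, {w : M0 // (graph E).Adj x.1 w.1}) =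
      Nat.card (Σ w : M0, {x : M1 // (graph E).Adj x.1 w.1}) := Nat.card_congr
    { toFun := fun x => ⟨x.2.1, x.1, x.2.2⟩
      invFun := fun x => ⟨x.2.1, x.1, x.2.2⟩
      left_inv := fun _ => rfl
      right_inv := fun _ => rfl }
  rw [Nat.card_sigma, Nat.card_sigma] at hcount
  simp only [hrow, hcol] at hcount
  rw [Finset.sum_const, Finset.sum_const, Finset.card_univ, Finset.card_univ] at hcount
  simp only [smul_eq_mul, ← Nat.card_eq_fintype_card] at hcount
  rw [show Nat.card M1 = 60 from (card_meets_adj h hs).1,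
    show Nat.card M0 = 16 from (card_meets_adj h hs).2] at hcount
  omega

theorem faithful : FaithfulSMul G (Pt E) := by
  constructor
  intro g k hgk
  by_contra hne
  set K : Subgroup G := (MulAction.toPermHom G (Pt E)).ker with hK
  have hmem : k⁻¹ * g ∈ K := by
    rw [hK, MonoidHom.mem_ker]
    ext v
    simp [mul_smul, hgk v]
  have hKN : K ≤ nE E := fun x hx => (smul_base_iff E).mp (by
    have := congrArg (fun σ => (σ : Equiv.Perm (Pt E)) (base E)) (MonoidHom.mem_ker.mp hx)
    simpa using this)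
  obtain ⟨v, hv⟩ : ∃ v, (graph E).Adj (base E) v := by
    have h16 := (card_meets_adj h hs).2
    obtain ⟨⟨v⟩⟩ := Nat.card_pos_iff.mp (h16.symm ▸ (by norm_num : 0 < 16))
    exact ⟨v.1, v.2⟩
  obtain ⟨hv1, hv2⟩ := (adj_base_iff h).mp hv
  have hKE : ∀ x ∈ K, x ∈ E → x = 1 := by
    intro x hxK hxE
    by_contra hx1
    obtain ⟨n, hn⟩ := MulAction.exists_smul_eq G (base E) v
    refine hv2 ⟨hv1, n * x * n⁻¹, ?_, ?_, hKN (hK ▸ (inferInstance : ((MulAction.toPermHom G (Pt E)).ker).Normal).conj_mem x hxK n)⟩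
    · rw [← hn]; exact (mem_blk_smul E).mpr ((mem_blk_base E).mpr hxE)
    · exact fun he => hx1 (by simpa [mul_assoc] using congrArg (fun t => n⁻¹ * t * n) he)
  have hcent : k⁻¹ * g ∈ Subgroup.centralizer (E : Set G) := by
    rw [Subgroup.mem_centralizer_iff]
    intro e he
    set x := k⁻¹ * g with hx
    have h1 : e * x * e⁻¹ * x⁻¹ = 1 := by
      refine hKE _ (mul_mem ?_ (inv_mem hmem)) ?_
      · exact (hK ▸ (inferInstance : ((MulAction.toPermHom G (Pt E)).ker).Normal)).conj_mem x hmem e
      · rw [show e * x * e⁻¹ * x⁻¹ = e * (x * e⁻¹ * x⁻¹) by group]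
        exact mul_mem he ((Subgroup.mem_normalizer_iff.mp (hKN hmem) e⁻¹).mp (inv_mem he))
    calc e * x = e * x * e⁻¹ * x⁻¹ * (x * e) := by group
      _ = x * e := by rw [h1, one_mul]
  rw [h.self_cent] at hcent
  exact hne (inv_mul_eq_one.mp (hKE _ hmem hcent)).symm

theorem isSRG [Fintype (Pt E)] [DecidableRel (graph E).Adj] :
    (graph E).IsSRGWith 77 16 0 4 where
  card := by rw [← Nat.card_eq_fintype_card, card_pt h hs]
  regular := by
    intro v
    obtain ⟨g, rfl⟩ := MulAction.exists_smul_eq G (base E) v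
    rw [← SimpleGraph.card_neighborSet_eq_degree, ← Nat.card_eq_fintype_card]
    rw [← (card_meets_adj h hs).2]
    refine Nat.card_congr ((MulAction.toPerm g).subtypeEquiv fun x => ?_).symm
    change (graph E).Adj (base E) x ↔ (graph E).Adj (g • base E) (g • x)
    rw [graph_smul_iff]
  of_adj := by
    intro v w hvw
    rw [← Nat.card_eq_fintype_card, Nat.card_eq_zero]
    left
    rw [isEmpty_subtype]
    intro x hx
    rw [SimpleGraph.mem_commonNeighbors] at hx
    obtain ⟨g, rfl⟩ := MulAction.exists_smul_eq G (base E) v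
    have a1 := graph_smul E (g := g⁻¹) hvw
    have a2 := graph_smul E (g := g⁻¹) hx.1
    have a3 := graph_smul E (g := g⁻¹) hx.2
    rw [inv_smul_smul] at a1 a2
    exact no_triangle h hs a1 a2 a3
  of_not_adj := by
    intro v w hne hvw
    obtain ⟨g, rfl⟩ := MulAction.exists_smul_eq G (base E) v
    have hm : Meets E (g⁻¹ • w) := by
      by_contra hm
      refine hvw ?_
      have h2 := graph_smul E (g := g) ((adj_base_iff h).mpr ⟨fun he => hne ?_, hm⟩)
      · rwa [smul_inv_smul] at h2
      · rw [← he, smul_inv_smul]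
    rw [← Nat.card_eq_fintype_card, ← card_common h hs hm]
    refine Nat.card_congr ((MulAction.toPerm g).subtypeEquiv fun x => ?_).symm
    rw [SimpleGraph.mem_commonNeighbors]
    change (graph E).Adj (base E) x ∧ (graph E).Adj (g⁻¹ • w) x ↔
      (graph E).Adj (g • base E) (g • x) ∧ (graph E).Adj w (g • x)
    rw [graph_smul_iff]
    refine and_congr_right' ?_
    conv_rhs => rw [← smul_inv_smul g w, graph_smul_iff]

end CfsgLib.M22Count.HexGraph

namespace CfsgLib.M22Count

universe u

open HexGraph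

/-- The conjugates of a hexad subgroup carry a faithful action and an invariant strongly regular
graph with parameters `(77, 16, 0, 4)`. -/
theorem Hexad.exists_graph {G : Type u} [Group G] [Finite G] {E : Subgroup G} (h : Hexad E)
    (hs : Setup G) :
    ∃ (V : Type u) (_ : Fintype V) (_ : MulAction G V) (Γ : SimpleGraph V)
      (_ : DecidableRel Γ.Adj), FaithfulSMul G V ∧ Γ.IsSRGWith 77 16 0 4 ∧
      ∀ (g : G) (a b : V), Γ.Adj a b → Γ.Adj (g • a) (g • b) := by
  classical
  haveI := Fintype.ofFinite (Pt E)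
  exact ⟨Pt E, inferInstance, inferInstance, graph E, inferInstance, faithful h hs, isSRG h hs,
    fun g _ _ hab => graph_smul E hab⟩

end CfsgLib.M22Count
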