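import Cfsg.Agent.M22Count.Frame

/-!
The elementary abelian subgroup of order 16 when the centraliser of the four group is small.
-/

set_option autoImplicit false
set_option linter.style.haveILetI false

open scoped Pointwise

namespace CfsgLib.M22Count

variable {G : Type*} [Group G] [Finite G]

omit [Finite G] in
theorem sq_of_commute_three (hs : Setup G) {a y : G} (hy : orderOf y = 3) (hc : Commute a y)
    (h2 : a ^ 128 = 1) : a * a = 1 := by
  obtain ⟨i, hi, e⟩ := (Nat.dvd_prime_pow Nat.prime_two (m := 7)).1 (orderOf_dvd_of_pow_eq_one h2)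
  by_cases h : i ≤ 1
  · rw [← pow_two, ← orderOf_dvd_iff_pow_eq_one, e]
    exact (pow_dvd_pow 2 h).trans (by norm_num)
  exfalso
  have h4 : 4 ∣ orderOf a := by
    rw [e, show 4 = 2 ^ 2 from rfl]; exact pow_dvd_pow 2 (by omega)
  have h0 : orderOf a ≠ 0 := by rw [e]; positivity
  set b := a ^ (orderOf a / 4) with hb
  have hb4 : orderOf b = 4 := orderOf_pow_orderOf_div h0 h4
  refine hs.no_twelve (b * y) ?_
  have hby : Commute b y := hc.pow_left _
  rw [hby.orderOf_mul_eq_mul_orderOf_of_coprime (by rw [hy, hb4]; norm_num), hy, hb4]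

namespace Trio

variable {x t v : G} (hs : Setup G) (T : Trio x t v) {Q R : Subgroup G} (hQ : Core t Q)
  (hR : ∀ h : G, h ∈ R ↔ Commute h t ∧ Commute h v ∧ h ^ 128 = 1)

include hR in
omit [Finite G] in
theorem mem_R_of_two {a : G} (ht : Commute a t) (hv : Commute a v) (h : a * a = 1) : a ∈ R :=
  (hR a).2 ⟨ht, hv, by rw [show 128 = 2 * 64 from rfl, pow_mul, pow_two, h, one_pow]⟩

include hs T hR in
theorem four_mem_R {a : G} (h : a = 1 ∨ a = t ∨ a = v ∨ a = t * v) : a ∈ R := by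
  rcases h with rfl | rfl | rfl | rfl
  · exact R.one_mem
  · exact mem_R_of_two hR (Commute.refl _) (T.comm hs) (sq_of_order_two T.ht)
  · exact mem_R_of_two hR (T.comm hs).symm (Commute.refl _) (sq_of_order_two T.hv)
  · exact mem_R_of_two hR ((Commute.refl t).mul_left (T.comm hs).symm)
      ((T.comm hs).mul_left (Commute.refl v)) (sq_of_order_two (T.htv hs))

include hs T hR in
/-- An element of order three centralising a second four group inside `R`. -/
theorem exists_second (hne : ¬ 9 ∣ Nat.card R - 4) :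
    ∃ y r r' : G, Trio y r r' ∧ r ∈ R ∧ r' ∈ R ∧ Commute y x ∧ y * t * y⁻¹ = v ∧
      y * v * y⁻¹ = t * v ∧ y * (t * v) * y⁻¹ = t ∧ x * r * x⁻¹ = r' ∧
      (∀ a ∈ R, y * a * y⁻¹ ∈ R) ∧
      ∀ w, (w = r ∨ w = r' ∨ w = r * r') → w ≠ t ∧ w ≠ v ∧ w ≠ t * v := by
  classical
  obtain ⟨y, hy, hyx, yt, yv, ytv⟩ := T.exists_y hs
  obtain ⟨V, hVc, hV⟩ := T.exists_V hs
  have hVR : V ≤ R := fun a ha => T.four_mem_R hs hR ((hV a).1 ha)
  have hcard : Nat.card ↥((R : Set G) \ (V : Set G)) = Nat.card R - 4 := by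
    rw [Nat.card_coe_set_eq, Set.ncard_sdiff hVR, ← hVc, ← Nat.card_coe_set_eq,
      ← Nat.card_coe_set_eq]
    rfl
  have hVfix : ∀ a ∈ V, Commute x a := by
    intro a ha
    rcases (hV a).1 ha with rfl | rfl | rfl | rfl
    exacts [Commute.one_right _, T.cxt, T.cxv, T.cxt.mul_right T.cxv]
  have hinvz : ∀ {z : G}, (∀ a ∈ R, z * a * z⁻¹ ∈ R) → (∀ a ∈ V, z * a * z⁻¹ ∈ V) →
      ∀ a ∈ (R : Set G) \ (V : Set G), z * a * z⁻¹ ∈ (R : Set G) \ (V : Set G) := by
    intro z h1 h2 a ha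
    refine ⟨h1 a ha.1, fun h => ha.2 ?_⟩
    have hz : z ∈ Subgroup.normalizer (V : Set G) := mem_normalizer_of h2
    exact (Subgroup.mem_normalizer_iff.1 hz a).2 h
  obtain ⟨k, r, hr, hrk⟩ := T.exists_fixed hs hy hyx (S := (R : Set G) \ (V : Set G))
    (hinvz (T.R_inv_x hR) fun a ha => by rwa [conj_eq_self.2 (hVfix a ha)])
    (hinvz (R_inv_of hR ytv yt) fun a ha => (hV _).2 (by
      rcases (hV a).1 ha with rfl | rfl | rfl | rfl
      exacts [Or.inl (by group), Or.inr (Or.inr (Or.inl yt)), Or.inr (Or.inr (Or.inr yv)),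
        Or.inr (Or.inl ytv)]))
    (fun a ha hxa => ha.2 ((hV a).2 (T.mem_four hs hxa.symm ((hR a).1 ha.1).1 ((hR a).1 ha.1).2.2)))
    (by rwa [hcard])
  set y' := x ^ k * y with hy'
  have hy'x : Commute y' x := ((Commute.refl x).pow_left k).mul_left hyx
  have hy't : y' * t * y'⁻¹ = v := by
    rw [hy', show x ^ k * y * t * (x ^ k * y)⁻¹ = x ^ k * (y * t * y⁻¹) * (x ^ k)⁻¹ by group, yt]
    exact conj_eq_self.2 (T.cxv.pow_left k)
  obtain ⟨hy'v, hy'tv, hy'3⟩ := T.cycle hs hy'x hy't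
  have hr1 : r ≠ 1 := fun e => hr.2 (e ▸ V.one_mem)
  have hr2 : orderOf r = 2 :=
    order_two_of (sq_of_commute_three hs hy'3 hrk ((hR r).1 hr.1).2.2) hr1
  have hr'c : Commute y' (x * r * x⁻¹) :=
    ((commute_conj_left hrk (conj_eq_self.2 hy'x.symm))).symm
  have hne' : r ≠ x * r * x⁻¹ := fun e =>
    hr.2 ((hV r).2 (T.mem_four hs (conj_eq_self.1 e.symm).symm ((hR r).1 hr.1).1 ((hR r).1 hr.1).2.2))
  have T' : Trio y' r (x * r * x⁻¹) :=
    ⟨hy'3, hr2, (order_conj x r).trans hr2, hrk.symm, hr'c, hne'⟩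
  refine ⟨y', r, x * r * x⁻¹, T', hr.1, T.R_inv_x hR r hr.1, hy'x, hy't, hy'v, hy'tv, rfl,
    R_inv_of hR hy'tv hy't, fun w hw => ?_⟩
  have hwy : Commute y' w := by
    rcases hw with rfl | rfl | rfl
    exacts [T'.cxt, T'.cxv, T'.cxt.mul_right T'.cxv]
  have hcj := conj_eq_self.2 hwy
  refine ⟨?_, ?_, ?_⟩
  · rintro rfl; exact T.ne (hcj.symm.trans hy't)
  · rintro rfl; exact (T.rot hs).ne (hcj.symm.trans hy'v)
  · rintro rfl; exact (T.third hs).ne (hy'tv.symm.trans hcj)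

include hs T hR in
/-- `R` of order 16 is elementary abelian and self-centralising. -/
theorem sixteen (h16 : Nat.card R = 16) :
    (∀ a ∈ R, ∀ b ∈ R, a * b = b * a) ∧ (∀ a ∈ R, a * a = 1) ∧
      Subgroup.centralizer (R : Set G) = R := by
  classical
  obtain ⟨y, r, r', T', hr, hr', -, -, -, -, hxr, -, hdis⟩ :=
    T.exists_second hs hR (by rw [h16]; norm_num)
  obtain ⟨V, hVc, hV⟩ := T.exists_V hs
  obtain ⟨W, hWc, hW⟩ := T'.exists_V hs
  have hVR : ∀ a ∈ V, a ∈ R := fun a ha => T.four_mem_R hs hR ((hV a).1 ha)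
  have hWR : ∀ a ∈ W, a ∈ R := by
    intro a ha
    rcases (hW a).1 ha with rfl | rfl | rfl | rfl
    exacts [R.one_mem, hr, hr', R.mul_mem hr hr']
  have hinter : ∀ a, a ∈ V → a ∈ W → a = 1 := by
    intro a ha hb
    by_contra h1
    obtain ⟨d1, d2, d3⟩ := hdis a (((hW a).1 hb).resolve_left h1)
    rcases (hV a).1 ha with e | e | e | e
    exacts [h1 e, d1 e, d2 e, d3 e]
  let f : V × W → R := fun p => ⟨p.1 * p.2, R.mul_mem (hVR _ p.1.2) (hWR _ p.2.2)⟩
  have hf : Function.Bijective f := by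
    rw [Nat.bijective_iff_injective_and_card]
    refine ⟨fun p q h => ?_, by rw [Nat.card_prod, hVc, hWc, h16]⟩
    have e : (p.1 : G) * p.2 = q.1 * q.2 := congrArg Subtype.val h
    have e2 : (q.1 : G)⁻¹ * p.1 = q.2 * (p.2 : G)⁻¹ := by
      rw [eq_mul_inv_iff_mul_eq, mul_assoc, e, inv_mul_cancel_left]
    have h1 := hinter _ (V.mul_mem (V.inv_mem q.1.2) p.1.2)
      (e2 ▸ W.mul_mem q.2.2 (W.inv_mem p.2.2))
    have ha : p.1 = q.1 := Subtype.ext (inv_mul_eq_one.1 h1).symm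
    rw [e2, mul_inv_eq_one] at h1
    exact Prod.ext ha (Subtype.ext h1.symm)
  have hdec : ∀ h ∈ R, ∃ a ∈ V, ∃ b ∈ W, h = a * b := by
    intro h hh
    obtain ⟨p, hp⟩ := hf.2 ⟨h, hh⟩
    exact ⟨p.1, p.1.2, p.2, p.2.2, (congrArg Subtype.val hp).symm⟩
  have hcen : ∀ a ∈ V, ∀ h ∈ R, Commute a h := by
    intro a ha h hh
    obtain ⟨h1, h2, -⟩ := (hR h).1 hh
    rcases (hV a).1 ha with rfl | rfl | rfl | rfl
    exacts [Commute.one_left _, h1.symm, h2.symm, h1.symm.mul_left h2.symm]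
  have hWcomm : ∀ a ∈ W, ∀ b ∈ W, Commute a b := by
    have hc := T'.comm hs
    intro a ha b hb
    rcases (hW a).1 ha with rfl | rfl | rfl | rfl
    · exact Commute.one_left _
    all_goals rcases (hW b).1 hb with rfl | rfl | rfl | rfl
    all_goals first
      | exact Commute.one_right _
      | exact Commute.refl _
      | exact hc
      | exact hc.symm
      | exact (Commute.refl _).mul_right hc
      | exact hc.symm.mul_right (Commute.refl _)
      | exact ((Commute.refl _).mul_right hc).symm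
      | exact (hc.symm.mul_right (Commute.refl _)).symm
  have hcomm : ∀ a ∈ R, ∀ b ∈ R, Commute a b := by
    intro a ha b hb
    obtain ⟨a1, ha1, a2, ha2, rfl⟩ := hdec a ha
    obtain ⟨b1, hb1, b2, hb2, rfl⟩ := hdec b hb
    exact (hcen a1 ha1 _ hb).mul_left
      ((hcen b1 hb1 a2 (hWR _ ha2)).symm.mul_right (hWcomm a2 ha2 b2 hb2))
  have hVsq : ∀ a ∈ V, a * a = 1 := by
    intro a ha
    rcases (hV a).1 ha with rfl | rfl | rfl | rfl
    exacts [one_mul _, sq_of_order_two T.ht, sq_of_order_two T.hv, sq_of_order_two (T.htv hs)]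
  have hWsq : ∀ a ∈ W, a * a = 1 := by
    intro a ha
    rcases (hW a).1 ha with rfl | rfl | rfl | rfl
    exacts [one_mul _, sq_of_order_two T'.ht, sq_of_order_two T'.hv, sq_of_order_two (T'.htv hs)]
  refine ⟨hcomm, fun a ha => ?_, le_antisymm ?_ fun a ha => ?_⟩
  · obtain ⟨a1, ha1, a2, ha2, rfl⟩ := hdec a ha
    rw [(hcen a1 ha1 a2 (hWR _ ha2)).symm.mul_mul_mul_comm, hVsq _ ha1, hWsq _ ha2, one_mul]
  · set H := Subgroup.centralizer ({t} : Set G) ⊓ Subgroup.centralizer ({v} : Set G) with hH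
    have htR : t ∈ R := T.four_mem_R hs hR (Or.inr (Or.inl rfl))
    have hvR : v ∈ R := T.four_mem_R hs hR (Or.inr (Or.inr (Or.inl rfl)))
    have hCH : Subgroup.centralizer (R : Set G) ≤ H := fun a ha =>
      ⟨mem_cent.2 ((Subgroup.mem_centralizer_iff.1 ha t htR).symm),
        mem_cent.2 ((Subgroup.mem_centralizer_iff.1 ha v hvR).symm)⟩
    have hRC : R ≤ Subgroup.centralizer (R : Set G) := fun a ha =>
      Subgroup.mem_centralizer_iff.2 fun b hb => hcomm b hb a ha
    obtain ⟨R₀, hR₀, hc⟩ := T.exists_R hs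
    have hRR : R₀ = R := by ext a; rw [hR₀, hR]
    rw [hRR, h16, ← hH] at hc
    have hd := Subgroup.card_dvd_of_le hCH
    have hd2 := Subgroup.card_dvd_of_le hRC
    rw [← hc] at hd
    rw [h16] at hd2
    obtain ⟨m, hm⟩ := hd2
    have hm3 : m ∣ 3 := by
      rw [hm] at hd
      exact Nat.dvd_of_mul_dvd_mul_left (by norm_num : 0 < 16) (hd.trans (by norm_num))
    rcases (Nat.dvd_prime Nat.prime_three).1 hm3 with rfl | rfl
    · exact (Subgroup.eq_of_le_of_card_ge hRC (by rw [hm, h16])).ge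
    · exfalso
      have he : Subgroup.centralizer (R : Set G) = H :=
        Subgroup.eq_of_le_of_card_ge hCH (by rw [hm, ← hc])
      have hxC : x ∈ Subgroup.centralizer (R : Set G) :=
        he ▸ ⟨mem_cent.2 T.cxt, mem_cent.2 T.cxv⟩
      have hxr' : Commute x r := (Subgroup.mem_centralizer_iff.1 hxC r hr).symm
      exact T'.ne ((conj_eq_self.2 hxr').symm.trans hxr)
  · exact Subgroup.mem_centralizer_iff.2 fun b hb => hcomm b hb a ha

include hs T hR in
/-- The hexad at a four group with small centraliser. -/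
theorem hexad (h16 : Nat.card R = 16)
    (hCt : ∀ c : G, Commute c t → ∀ a ∈ R, c * a * c⁻¹ ∈ R) : Hexad R := by
  classical
  obtain ⟨hcomm, hsq, hself⟩ := T.sixteen hs hR h16
  obtain ⟨y, hy, hyx, yt, yv, ytv⟩ := T.exists_y hs
  set N := Subgroup.normalizer (R : Set G) with hN
  have hCN : ∀ c : G, Commute c t → c ∈ N := fun c hc => mem_normalizer_of (hCt c hc)
  have hyN : y ∈ N := mem_normalizer_of (R_inv_of hR ytv yt)
  have hNR : ∀ {n a : G}, n ∈ N → a ∈ R → n * a * n⁻¹ ∈ R := fun hn ha =>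
    (Subgroup.mem_normalizer_iff.1 hn _).1 ha
  have htR : t ∈ R := T.four_mem_R hs hR (Or.inr (Or.inl rfl))
  have hvR : v ∈ R := T.four_mem_R hs hR (Or.inr (Or.inr (Or.inl rfl)))
  have ht1 := ne_one_of_order T.ht (by norm_num)
  have hv1 := ne_one_of_order T.hv (by norm_num)
  -- the orbit of `t`
  set O : Set G := {w | ∃ n ∈ N, n * t * n⁻¹ = w} with hO
  have hOR : O ⊆ (R : Set G) \ {1} := by
    rintro w ⟨n, hn, rfl⟩
    exact ⟨hNR hn htR, fun e => ht1 (conj_eq_one_iff.1 e)⟩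
  have h15 : ((R : Set G) \ {1}).ncard = 15 := by
    rw [Set.ncard_sdiff_singleton_of_mem R.one_mem, ← Nat.card_coe_set_eq]
    exact (congrArg (· - 1) h16).trans rfl
  have hoN : 384 * O.ncard = Nat.card N := by
    have h := orbit_card N t
    rw [show N ⊓ Subgroup.centralizer ({t} : Set G) = Subgroup.centralizer ({t} : Set G) from
      inf_eq_right.2 (fun c hc => hCN c (mem_cent.1 hc)), hs.cent_invol t T.ht] at h
    rw [← h, ← Nat.card_coe_set_eq]
    rfl
  have hle15 : O.ncard ≤ 15 := h15 ▸ Set.ncard_le_ncard hOR (Set.toFinite _)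
  have hdvd : O.ncard ∣ 1155 := by
    have h := Subgroup.card_subgroup_dvd_card N
    rw [← hoN, hs.card, show 443520 = 384 * 1155 from rfl] at h
    exact Nat.dvd_of_mul_dvd_mul_left (by norm_num : 0 < 384) h
  have htO : t ∈ O := ⟨1, N.one_mem, by group⟩
  have hvO : v ∈ O := ⟨y, hyN, yt⟩
  have htvO : t * v ∈ O := ⟨y * y, N.mul_mem hyN hyN, by
    rw [show y * y * t * (y * y)⁻¹ = y * (y * t * y⁻¹) * y⁻¹ by group, yt, yv]⟩
  have h3 : 3 ∣ O.ncard := by
    have h := orbit_card (N ⊓ Subgroup.centralizer ({x} : Set G)) t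
    rw [inf_assoc, inf_eq_right.2 (show Subgroup.centralizer ({x} : Set G) ⊓
      Subgroup.centralizer ({t} : Set G) ≤ N from fun c hc => hCN c (mem_cent.1 hc.2)),
      T.card_fix hs] at h
    have h36 : 9 ∣ Nat.card ↥(N ⊓ Subgroup.centralizer ({x} : Set G)) := by
      have hge : ({t, v, t * v} : Set G).ncard ≤
          Nat.card {w : G // ∃ a ∈ N ⊓ Subgroup.centralizer ({x} : Set G), a * t * a⁻¹ = w} := by
        rw [← Nat.card_coe_set_eq]
        refine Nat.card_le_card_of_injective (fun w => ⟨w.1, ?_⟩)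
          (fun a b e => Subtype.ext (congrArg (fun z => (z.1 : G)) e))
        rcases w.2 with e | e | e <;> rw [e]
        · exact ⟨1, Subgroup.one_mem _, by group⟩
        · exact ⟨y, ⟨hyN, mem_cent.2 hyx⟩, yt⟩
        · refine ⟨y * y, ⟨N.mul_mem hyN hyN, mem_cent.2 (hyx.mul_left hyx)⟩, ?_⟩
          rw [show y * y * t * (y * y)⁻¹ = y * (y * t * y⁻¹) * y⁻¹ by group, yt, yv]
      rw [Set.ncard_eq_three.2 ⟨t, v, t * v, T.ne, (T.third hs).ne, (T.rot hs).ne, rfl⟩] at hge
      have hd := Subgroup.card_dvd_of_le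
        (inf_le_right : N ⊓ Subgroup.centralizer ({x} : Set G) ≤ _)
      rw [hs.cent_three x T.hx, ← h] at hd
      have := Nat.le_of_dvd (by norm_num) hd
      rw [← h]
      generalize Nat.card {w : G // ∃ a ∈ N ⊓ Subgroup.centralizer ({x} : Set G),
        a * t * a⁻¹ = w} = m at *
      have : m = 3 := by omega
      subst this; norm_num
    have h9 : 9 ∣ Nat.card N := h36.trans (Subgroup.card_dvd_of_le inf_le_left)
    rw [← hoN] at h9
    omega
  -- the eight conjugates of `v` in the centraliser of `t`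
  set O8 : Set G := {w | ∃ c : G, Commute c t ∧ c * v * c⁻¹ = w} with hO8
  have hO8c : O8.ncard = 8 := by
    have h := orbit_card (Subgroup.centralizer ({t} : Set G)) v
    obtain ⟨R₀, hR₀, hc⟩ := T.exists_R hs
    have hRR : R₀ = R := by ext a; rw [hR₀, hR]
    rw [hRR, h16] at hc
    rw [← hc, hs.cent_invol t T.ht] at h
    have e : O8.ncard = Nat.card {w : G // ∃ a ∈ Subgroup.centralizer ({t} : Set G),
        a * v * a⁻¹ = w} := by
      rw [← Nat.card_coe_set_eq]
      exact Nat.card_congr (Equiv.subtypeEquivRight fun w =>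
        ⟨fun ⟨c, hc, e⟩ => ⟨c, mem_cent.2 hc, e⟩, fun ⟨c, hc, e⟩ => ⟨c, mem_cent.1 hc, e⟩⟩)
    omega
  have hO8R : O8 ⊆ ((R : Set G) \ {1}) \ {t} := by
    rintro w ⟨c, hc, rfl⟩
    refine ⟨⟨hNR (hCN c hc) hvR, fun e => hv1 (conj_eq_one_iff.1 e)⟩, fun e => ?_⟩
    exact T.ne.symm (mul_left_cancel (mul_right_cancel
      ((Set.mem_singleton_iff.1 e).trans (conj_eq_self.2 hc).symm)))
  have hO15 : O = (R : Set G) \ {1} := by
    refine Set.eq_of_subset_of_ncard_le hOR ?_ (Set.toFinite _)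
    rw [h15]
    by_contra hlt
    have hO3 : O.ncard = 3 := by
      have h := hdvd
      have h' := h3
      generalize O.ncard = o at *
      interval_cases o <;> omega
    have heq : ({t, v, t * v} : Set G) = O := by
      refine Set.eq_of_subset_of_ncard_le ?_ ?_ (Set.toFinite _)
      · intro w hw
        rcases hw with rfl | rfl | rfl
        exacts [htO, hvO, htvO]
      · rw [hO3, Set.ncard_eq_three.2 ⟨t, v, t * v, T.ne, (T.third hs).ne, (T.rot hs).ne, rfl⟩]
    have hsub : O8 ⊆ ({v, t * v} : Set G) := by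
      rintro w ⟨c, hc, rfl⟩
      have hmem : c * v * c⁻¹ ∈ O := ⟨c * y, N.mul_mem (hCN c hc) hyN, by
        rw [show c * y * t * (c * y)⁻¹ = c * (y * t * y⁻¹) * c⁻¹ by group, yt]⟩
      rw [← heq] at hmem
      rcases hmem with e | e | e
      · exact absurd (mul_left_cancel (mul_right_cancel (e.trans (conj_eq_self.2 hc).symm)))
          T.ne.symm
      · exact Or.inl e
      · exact Or.inr e
    have := Set.ncard_le_ncard hsub (Set.toFinite _)
    rw [hO8c, Set.ncard_pair (T.rot hs).ne] at this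
    omega
  have hfromt : ∀ u ∈ R, u ≠ 1 → ∃ n ∈ N, n * t * n⁻¹ = u := fun u hu hu1 => by
    have : u ∈ O := hO15 ▸ (⟨hu, hu1⟩ : u ∈ (R : Set G) \ {1})
    exact this
  have hnorm : Nat.card N = 5760 := by rw [← hoN, hO15, h15]
  have htrans : ∀ u ∈ R, ∀ w ∈ R, u ≠ 1 → w ≠ 1 → ∃ n ∈ N, n * u * n⁻¹ = w := by
    intro u hu w hw hu1 hw1
    obtain ⟨a, ha, rfl⟩ := hfromt u hu hu1
    obtain ⟨b, hb, rfl⟩ := hfromt w hw hw1
    exact ⟨b * a⁻¹, N.mul_mem hb (N.inv_mem ha), by group⟩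
  have hcentle : ∀ u ∈ R, u ≠ 1 → Subgroup.centralizer ({u} : Set G) ≤ N := by
    intro u hu hu1 c hc
    obtain ⟨a, ha, rfl⟩ := hfromt u hu hu1
    have h1 : Commute (a⁻¹ * c * a⁻¹⁻¹) t :=
      commute_conj_left (g := a⁻¹) (mem_cent.1 hc) (by group)
    have h2 := N.mul_mem (N.mul_mem ha (hCN _ h1)) (N.inv_mem ha)
    rwa [show a * (a⁻¹ * c * a⁻¹⁻¹) * a⁻¹ = c by group] at h2
  have hnoline : ∀ u ∈ R, ∀ w ∈ R, u ≠ 1 → w ≠ 1 → u ≠ w → ∀ z : G, orderOf z = 3 → Commute z u →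
      Commute z w → ∀ a : G, orderOf a = 2 → Commute a u → Commute a w → a ∈ R := by
    intro u hu w hw hu1 hw1 huw z hz hzu hzw a ha hau haw
    obtain ⟨n, hn, hnu⟩ := htrans u hu t htR hu1 ht1
    obtain ⟨c, hct, hcx⟩ := T.conj_three hs (x' := n * z * n⁻¹) ((order_conj n z).trans hz)
      (commute_conj_left hzu hnu)
    set m := c⁻¹ * n with hm
    have hmN : m ∈ N := N.mul_mem (N.inv_mem (hCN c hct)) hn
    have hmu : m * u * m⁻¹ = t := by
      rw [hm, show c⁻¹ * n * u * (c⁻¹ * n)⁻¹ = c⁻¹ * (n * u * n⁻¹) * c⁻¹⁻¹ by group, hnu]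
      exact conj_eq_self.2 hct.inv_left
    have hmz : m * z * m⁻¹ = x := by
      rw [hm, show c⁻¹ * n * z * (c⁻¹ * n)⁻¹ = c⁻¹ * (n * z * n⁻¹) * c⁻¹⁻¹ by group, ← hcx]
      group
    have hat : Commute (m * a * m⁻¹) t := commute_conj_left hau hmu
    have hav : Commute (m * a * m⁻¹) (m * w * m⁻¹) := commute_conj haw
    have hw2 : orderOf (m * w * m⁻¹) = 2 := (order_conj m w).trans (order_two_of (hsq w hw) hw1)
    have hwx : Commute x (m * w * m⁻¹) := hmz ▸ commute_conj hzw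
    have hmv : Commute (m * a * m⁻¹) v := by
      rcases T.all hs hw2 hwx with e | e | e
      · exact absurd (mul_left_cancel (mul_right_cancel (hmu.trans e.symm))) huw
      · rwa [e] at hav
      · rw [e] at hav
        have h := hat.mul_right hav
        rwa [← mul_assoc, sq_of_order_two T.ht, one_mul] at h
    have hmem : m * a * m⁻¹ ∈ R :=
      mem_R_of_two hR hat hmv (sq_of_order_two ((order_conj m a).trans ha))
    exact (Subgroup.mem_normalizer_iff.1 hmN a).2 hmem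
  refine ⟨h16, hcomm, hsq, hself, hnorm, hcentle, htrans, ?_, ?_, hnoline⟩
  · intro g u hu hu1 hg
    obtain ⟨n, hn, hnu⟩ := htrans _ hg u hu (fun e => hu1 (conj_eq_one_iff.1 e)) hu1
    have h : n * g ∈ N := hcentle u hu hu1 (mem_cent.2 (conj_eq_self.1 (by
      rw [show n * g * u * (n * g)⁻¹ = n * (g * u * g⁻¹) * n⁻¹ by group, hnu])))
    simpa using N.mul_mem (N.inv_mem hn) h
  intro a ha ha2 haR
  set B := R ⊓ Subgroup.centralizer ({a} : Set G) with hB
  have haa := inv_of_order_two ha2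
  have haN : ∀ e ∈ R, a * e * a⁻¹ ∈ R := fun e he => hNR ha he
  let φ : R →* G := MonoidHom.mk' (fun e => (e : G) * (a * (e : G) * a⁻¹)) (by
    intro e f
    show (e : G) * f * (a * (e * f) * a⁻¹) = e * (a * e * a⁻¹) * (f * (a * f * a⁻¹))
    rw [conj_mul_eq, Commute.mul_mul_mul_comm (hcomm _ f.2 _ (haN _ e.2))])
  have hker : φ.ker.map R.subtype ≤ B := by
    rintro w ⟨e, he, rfl⟩
    have h : (e : G) * (a * e * a⁻¹) = 1 := he
    refine ⟨e.2, mem_cent.2 (Commute.symm ?_)⟩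
    refine conj_eq_self.1 ?_
    calc a * (e : G) * a⁻¹ = (e : G) * ((e : G) * (a * e * a⁻¹)) := by
          rw [← mul_assoc (e : G), hsq _ e.2, one_mul]
      _ = e := by rw [h, mul_one]
  have him : φ.range ≤ B := by
    rintro w ⟨e, rfl⟩
    refine ⟨R.mul_mem e.2 (haN _ e.2), mem_cent.2 (Commute.symm (conj_eq_self.1 ?_))⟩
    show a * ((e : G) * (a * e * a⁻¹)) * a⁻¹ = e * (a * e * a⁻¹)
    rw [conj_mul_eq, show a * (a * (e : G) * a⁻¹) * a⁻¹ = (a * a) * e * (a * a)⁻¹ by group,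
      sq_of_order_two ha2, one_mul, inv_one, mul_one]
    exact hcomm _ (haN _ e.2) _ e.2
  have h4 : 4 ≤ Nat.card B := by
    have h := Subgroup.card_mul_index φ.ker
    rw [Subgroup.index_ker, h16] at h
    have h1 : Nat.card φ.ker ≤ Nat.card B := by
      rw [← Subgroup.card_map_of_injective R.subtype_injective]
      exact Subgroup.card_le_of_le hker
    have h2 : Nat.card φ.range ≤ Nat.card B := Subgroup.card_le_of_le him
    by_contra h3
    have := Nat.mul_le_mul (h1.trans (show Nat.card B ≤ 3 by omega))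
      (h2.trans (show Nat.card B ≤ 3 by omega))
    omega
  have hdB : Nat.card B ∣ 2 ^ 4 := by
    have h := Subgroup.card_dvd_of_le (inf_le_left : B ≤ R)
    rwa [h16] at h
  obtain ⟨i, hi, hBi⟩ := (Nat.dvd_prime_pow Nat.prime_two).1 hdB
  rw [hBi] at h4
  rw [hBi]
  interval_cases i <;> first | rfl | (norm_num at h4; done) | exfalso
  · -- three dimensional fixed spaces
    have hnl : ∀ u ∈ B, ∀ w ∈ B, u ≠ 1 → w ≠ 1 → u ≠ w → ∀ z : G, orderOf z = 3 → Commute z u →
        ¬ Commute z w := fun u hu w hw hu1 hw1 huw z hz hzu hzw =>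
      haR (hnoline u hu.1 w hw.1 hu1 hw1 huw z hz hzu hzw a ha2 (mem_cent.1 hu.2).symm
        (mem_cent.1 hw.2).symm)
    -- such a subgroup through `t` is the complement of the eight conjugates of `v`
    have hcompl : ∀ n ∈ N, t ∈ {w | ∃ b ∈ B, n * b * n⁻¹ = w} →
        {w | ∃ b ∈ B, n * b * n⁻¹ = w} = (R : Set G) \ O8 := by
      intro n hn ⟨b₀, hb₀, hb₀t⟩
      refine Set.eq_of_subset_of_ncard_le ?_ ?_ (Set.toFinite _)
      · rintro w ⟨b, hb, rfl⟩
        refine ⟨hNR hn hb.1, ?_⟩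
        rintro ⟨c, hct, hcv⟩
        have hb1 : b ≠ 1 := by
          intro e
          rw [e, mul_one, mul_inv_cancel] at hcv
          exact hv1 (conj_eq_one_iff.1 hcv)
        have hb01 : b₀ ≠ 1 := fun e => ht1 (by rw [← hb₀t, e]; group)
        have hbb : b₀ ≠ b := fun e => by
          subst e
          rw [hb₀t, ← conj_eq_self.2 hct] at hcv
          exact T.ne.symm (mul_left_cancel (mul_right_cancel hcv))
        refine hnl b₀ hb₀ b hb hb01 hb1 hbb (n⁻¹ * (c * x * c⁻¹) * n⁻¹⁻¹) ?_ ?_ ?_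
        · rw [order_conj, order_conj]; exact T.hx
        · refine commute_conj_left (g := n⁻¹) (b := t) ?_ (by rw [← hb₀t]; group)
          exact commute_conj_left T.cxt (conj_eq_self.2 hct)
        · refine commute_conj_left (g := n⁻¹) (b := n * b * n⁻¹) ?_ (by group)
          rw [← hcv]
          exact commute_conj T.cxv
      · rw [Set.ncard_sdiff (hO8R.trans (Set.sdiff_subset.trans Set.sdiff_subset)), hO8c,
          ← Nat.card_coe_set_eq, show {w | ∃ b ∈ B, n * b * n⁻¹ = w} = (fun b => n * b * n⁻¹) ''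
            (B : Set G) from rfl, Set.ncard_image_of_injective _ (fun p q e => by simpa using e),
          ← Nat.card_coe_set_eq]
        exact le_of_eq ((congrArg (· - 8) h16).trans (Eq.trans (by norm_num) hBi.symm))
    obtain ⟨⟨u, hu⟩, hu1'⟩ := (Subgroup.ne_bot_iff_exists_ne_one (H := B)).1 (fun e => by
      rw [e, Subgroup.card_bot] at hBi; norm_num at hBi)
    have hu1 : u ≠ 1 := fun e => hu1' (Subtype.ext e)
    obtain ⟨w, hw, hwB⟩ : ∃ w ∈ R, w ∉ B := by
      by_contra hno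
      push Not at hno
      have := Subgroup.card_le_of_le (show R ≤ B from hno)
      rw [hBi, h16] at this
      norm_num at this
    obtain ⟨n, hn, hnu⟩ := htrans u hu.1 w hw hu1 (fun e => hwB (e ▸ B.one_mem))
    -- the two subgroups meet
    let g : B × B → R := fun p => ⟨(p.1 : G) * (n * p.2 * n⁻¹), R.mul_mem p.1.2.1 (hNR hn p.2.2.1)⟩
    have hg : ¬ Function.Injective g := by
      intro h
      have := Nat.card_le_card_of_injective g h
      rw [Nat.card_prod, hBi, h16] at this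
      norm_num at this
    simp only [Function.Injective, not_forall] at hg
    obtain ⟨p, q, hpq, hne⟩ := hg
    have hpq' : (p.1 : G) * (n * p.2 * n⁻¹) = q.1 * (n * q.2 * n⁻¹) := congrArg Subtype.val hpq
    have hz : n * ((p.2 : G) * (q.2 : G)⁻¹) * n⁻¹ = (p.1 : G)⁻¹ * q.1 := by
      rw [eq_inv_mul_iff_mul_eq]
      calc (p.1 : G) * (n * ((p.2 : G) * (q.2 : G)⁻¹) * n⁻¹)
          = (p.1 : G) * (n * p.2 * n⁻¹) * (n * (q.2 : G)⁻¹ * n⁻¹) := by group
        _ = q.1 := by rw [hpq']; group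
    set z := (p.1 : G)⁻¹ * q.1 with hzdef
    have hzB : z ∈ B := B.mul_mem (B.inv_mem p.1.2) q.1.2
    have hz1 : z ≠ 1 := by
      intro e
      rw [e, conj_eq_one_iff, mul_inv_eq_one] at hz
      rw [hzdef, inv_mul_eq_one] at e
      exact hne (Prod.ext (Subtype.ext e) (Subtype.ext hz))
    obtain ⟨m, hm, hmz⟩ := htrans z hzB.1 t htR hz1 ht1
    have e1 := hcompl m hm ⟨z, hzB, hmz⟩
    have e2 := hcompl (m * n) (N.mul_mem hm hn) ⟨(p.2 : G) * (q.2 : G)⁻¹,
      B.mul_mem p.2.2 (B.inv_mem q.2.2), by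
        rw [show m * n * ((p.2 : G) * (q.2 : G)⁻¹) * (m * n)⁻¹ =
          m * (n * ((p.2 : G) * (q.2 : G)⁻¹) * n⁻¹) * m⁻¹ by group, hz, hmz]⟩
    have hw' : m * w * m⁻¹ ∈ {w | ∃ b ∈ B, m * n * b * (m * n)⁻¹ = w} := ⟨u, hu, by
      rw [← hnu]; group⟩
    rw [e2, ← e1] at hw'
    obtain ⟨b, hb, e⟩ := hw'
    exact hwB ((mul_left_cancel (mul_right_cancel e)) ▸ hb)
  · -- `a` would centralise `R`
    have hBR : B = R := Subgroup.eq_of_le_of_card_ge inf_le_left (by rw [hBi, h16]; norm_num)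
    have haC : a ∈ Subgroup.centralizer (R : Set G) := Subgroup.mem_centralizer_iff.2 fun b hb => by
      have hb' : b ∈ B := hBR ▸ hb
      exact mem_cent.1 hb'.2
    rw [hself] at haC
    exact haR haC

end Trio

end CfsgLib.M22Count
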