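import Cfsg.Agent.M22Count.Hexad

/-!
The centraliser of the four group is not the whole core.
-/

set_option autoImplicit false
set_option linter.style.haveILetI false

open scoped Pointwise

namespace CfsgLib.M22Count

variable {G : Type*} [Group G] [Finite G]

/-- A fixed-point-free element of prime order on the nonidentity elements of a subgroup. -/
theorem dvd_card_sub_one {p : ℕ} [hp : Fact p.Prime] {f : G} (hf : orderOf f = p) {A : Subgroup G}
    (hA : ∀ a ∈ A, f * a * f⁻¹ ∈ A) (hfix : ∀ a ∈ A, Commute f a → a = 1) :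
    p ∣ Nat.card A - 1 := by
  classical
  let X := {a : G // a ∈ A ∧ a ≠ 1}
  haveI := Fintype.ofFinite X
  have hcard : Nat.card X = Nat.card A - 1 := by
    have h := Set.ncard_sdiff_singleton_of_mem (s := (A : Set G)) A.one_mem
    rw [← Nat.card_coe_set_eq, ← Nat.card_coe_set_eq] at h
    exact h
  by_contra hnd
  rw [← hcard, Nat.card_eq_fintype_card] at hnd
  have hfn : f ∈ Subgroup.normalizer (A : Set G) := mem_normalizer_of hA
  let σ : Equiv.Perm X := (MulAut.conj f).toEquiv.subtypeEquiv (fun a => by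
    show a ∈ A ∧ a ≠ 1 ↔ f * a * f⁻¹ ∈ A ∧ f * a * f⁻¹ ≠ 1
    rw [← Subgroup.mem_normalizer_iff.1 hfn a, ne_eq, ne_eq, conj_eq_one_iff])
  have hσ : ∀ (n : ℕ) (a : X), ((σ ^ n) a : G) = f ^ n * a * (f ^ n)⁻¹ := by
    intro n
    induction n with
    | zero => intro a; simp
    | succ n ih =>
      intro a
      rw [pow_succ, Equiv.Perm.mul_apply, ih]
      show f ^ n * (f * (a : G) * f⁻¹) * (f ^ n)⁻¹ = _
      rw [pow_succ]
      group
  obtain ⟨a, ha⟩ := Equiv.Perm.exists_fixed_point_of_prime (n := 1) hnd (σ := σ) (by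
    refine Equiv.ext fun a => Subtype.ext ?_
    rw [pow_one, hσ, ← hf, pow_orderOf_eq_one]
    simp)
  exact a.2.2 (hfix _ a.2.1 (conj_eq_self.1 (congrArg Subtype.val ha)))

omit [Finite G] in
theorem Setup.fixed_trivial {f : G} {p : ℕ} (hc : Nat.card (Subgroup.centralizer ({f} : Set G)) = p)
    {A : Subgroup G} (hcop : Nat.Coprime (Nat.card A) p) :
    ∀ a ∈ A, Commute f a → a = 1 := by
  intro a ha hfa
  rw [← orderOf_eq_one_iff]
  exact Nat.eq_one_of_dvd_coprimes hcop (Subgroup.orderOf_dvd_natCard A ha)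
    (hc ▸ Subgroup.orderOf_dvd_natCard _ (mem_cent.2 hfa.symm))

/-- A `2`-group normalised by `z` and permuting three elements cycled by `z` fixes them. -/
theorem fix_cycle {A : Subgroup G} (hA : Nat.card A ∣ 64) {z a b c : G} (za : z * a * z⁻¹ = b)
    (zb : z * b * z⁻¹ = c) (zc : z * c * z⁻¹ = a) (hab : a ≠ b) (hac : a ≠ c) (hbc : b ≠ c)
    (hAz : ∀ n ∈ A, z * n * z⁻¹ ∈ A)
    (hperm : ∀ n ∈ A, n * a * n⁻¹ = a ∨ n * a * n⁻¹ = b ∨ n * a * n⁻¹ = c) :
    ∀ n ∈ A, Commute n a ∧ Commute n b := by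
  classical
  set O : Set G := {w | ∃ n ∈ A, n * a * n⁻¹ = w} with hO
  have hcard : O.ncard ∣ 64 := by
    refine Dvd.dvd.trans ?_ hA
    exact ⟨_, (orbit_card A a).symm.trans (mul_comm _ _)⟩
  have hno : ¬ (b ∈ O ∧ c ∈ O) := by
    rintro ⟨hb, hc⟩
    have he : O = {a, b, c} := by
      refine Set.Subset.antisymm ?_ ?_
      · rintro w ⟨n, hn, rfl⟩
        exact hperm n hn
      · rintro w (rfl | rfl | rfl)
        exacts [⟨1, A.one_mem, by group⟩, hb, hc]
    rw [he, Set.ncard_eq_three.2 ⟨a, b, c, hab, hac, hbc, rfl⟩] at hcard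
    norm_num at hcard
  have hfix : ∀ n ∈ A, n * a * n⁻¹ = a := by
    intro n hn
    rcases hperm n hn with e | e | e
    · exact e
    · exfalso
      refine hno ⟨⟨n, hn, e⟩, ⟨z * n * z⁻¹ * n, A.mul_mem (hAz n hn) hn, ?_⟩⟩
      rw [show z * n * z⁻¹ * n * a * (z * n * z⁻¹ * n)⁻¹ =
        z * n * z⁻¹ * (n * a * n⁻¹) * (z * n * z⁻¹)⁻¹ by group, e, ← za,
        show z * n * z⁻¹ * (z * a * z⁻¹) * (z * n * z⁻¹)⁻¹ = z * (n * a * n⁻¹) * z⁻¹ by group,
        e, zb]
    · exfalso
      refine hno ⟨⟨(z * n * z⁻¹)⁻¹, A.inv_mem (hAz n hn), ?_⟩, ⟨n, hn, e⟩⟩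
      rw [← zc, ← e, show (z * n * z⁻¹)⁻¹ * (z * (n * a * n⁻¹) * z⁻¹) * (z * n * z⁻¹)⁻¹⁻¹ =
        z * a * z⁻¹ by group, za]
  intro n hn
  refine ⟨conj_eq_self.1 (hfix n hn), ?_⟩
  have hzA : z⁻¹ ∈ Subgroup.normalizer (A : Set G) := inv_mem (mem_normalizer_of hAz)
  have h := (Subgroup.mem_normalizer_iff.1 hzA n).1 hn
  rw [inv_inv] at h
  exact commute_conj_left (g := z) (conj_eq_self.1 (hfix _ h)) za |> fun h' => by
    simpa [mul_assoc] using h'

namespace Trio

variable {x t v : G} (hs : Setup G) (T : Trio x t v)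

include hs T in
/-- The `N`-orbit of `t` has order divisible by three. -/
theorem three_dvd {N : Subgroup G} {y : G} (hyx : Commute y x) (yt : y * t * y⁻¹ = v)
    (yv : y * v * y⁻¹ = t * v) (hy : y ∈ N)
    (hfix : Subgroup.centralizer ({x} : Set G) ⊓ Subgroup.centralizer ({t} : Set G) ≤ N)
    (h27 : Nat.card ↥(N ⊓ Subgroup.centralizer ({t} : Set G)) ∣ 384) :
    3 ∣ {w : G | ∃ n ∈ N, n * t * n⁻¹ = w}.ncard := by
  classical
  have h := orbit_card (N ⊓ Subgroup.centralizer ({x} : Set G)) t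
  rw [inf_assoc, inf_eq_right.2 hfix, T.card_fix hs] at h
  have hge : ({t, v, t * v} : Set G).ncard ≤
      Nat.card {w : G // ∃ a ∈ N ⊓ Subgroup.centralizer ({x} : Set G), a * t * a⁻¹ = w} := by
    rw [← Nat.card_coe_set_eq]
    refine Nat.card_le_card_of_injective (fun w => ⟨w.1, ?_⟩)
      (fun a b e => Subtype.ext (congrArg (fun z => (z.1 : G)) e))
    rcases w.2 with e | e | e <;> rw [e]
    · exact ⟨1, Subgroup.one_mem _, by group⟩
    · exact ⟨y, ⟨hy, mem_cent.2 hyx⟩, yt⟩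
    · refine ⟨y * y, ⟨N.mul_mem hy hy, mem_cent.2 (hyx.mul_left hyx)⟩, ?_⟩
      rw [show y * y * t * (y * y)⁻¹ = y * (y * t * y⁻¹) * y⁻¹ by group, yt, yv]
  rw [Set.ncard_eq_three.2 ⟨t, v, t * v, T.ne, (T.third hs).ne, (T.rot hs).ne, rfl⟩] at hge
  have hd := Subgroup.card_dvd_of_le
    (inf_le_right : N ⊓ Subgroup.centralizer ({x} : Set G) ≤ _)
  rw [hs.cent_three x T.hx, ← h] at hd
  have hle := Nat.le_of_dvd (by norm_num) hd
  have h9 : 9 ∣ Nat.card N := by
    refine Dvd.dvd.trans ?_ (Subgroup.card_dvd_of_le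
      (inf_le_left : N ⊓ Subgroup.centralizer ({x} : Set G) ≤ N))
    rw [← h]
    generalize Nat.card {w : G // ∃ a ∈ N ⊓ Subgroup.centralizer ({x} : Set G),
      a * t * a⁻¹ = w} = m at *
    have : m = 3 := by omega
    subst this; norm_num
  rw [← orbit_card N t] at h9
  by_contra hn
  have hc : Nat.Coprime 9 (Nat.card {w : G // ∃ a ∈ N, a * t * a⁻¹ = w}) :=
    ((Nat.prime_three.coprime_iff_not_dvd).2 hn).pow_left 2
  have h9' := (hc.dvd_of_dvd_mul_right h9).trans h27
  norm_num at h9'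

variable {Q : Subgroup G} (hQ : Core t Q)

set_option maxHeartbeats 3200000 in
include hs T hQ in
/-- The core does not centralise the four group. -/
theorem kill (hQv : ∀ q ∈ Q, Commute q v) : False := by
  classical
  have hR : ∀ h : G, h ∈ Q ↔ Commute h t ∧ Commute h v ∧ h ^ 128 = 1 := by
    obtain ⟨R, hR, -⟩ := T.exists_R hs
    have e : R = Q := le_antisymm (T.R_le hQ hR)
      (fun q hq => (hR q).2 ⟨hQ.comm q hq, hQv q hq, hQ.pow_eq hq⟩)
    exact e ▸ hR
  obtain ⟨R₀, hR₀, hH⟩ := T.exists_R hs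
  have hR₀Q : R₀ = Q := by ext a; rw [hR₀, hR]
  rw [hR₀Q, hQ.card] at hH
  obtain ⟨y, r, r', T', hr, hr', hyx, yt, yv, ytv, hxr, hyQ, hdis⟩ :=
    T.exists_second hs hR (by rw [hQ.card]; norm_num)
  obtain ⟨hxr', hxrr', -⟩ := T'.cycle hs hyx.symm hxr
  obtain ⟨s, hst, hsx, sv, stv⟩ := T.exists_s hs
  have ht1 := ne_one_of_order T.ht (by norm_num)
  have hv1 := ne_one_of_order T.hv (by norm_num)
  have htQ : t ∈ Q := T.four_mem_R hs hR (Or.inr (Or.inl rfl))
  have hvQ : v ∈ Q := T.four_mem_R hs hR (Or.inr (Or.inr (Or.inl rfl)))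
  have hxQ : ∀ q ∈ Q, x * q * x⁻¹ ∈ Q := hQ.conj x T.cxt
  obtain ⟨V, hVc, hV⟩ := T.exists_V hs
  obtain ⟨W, hWc, hW⟩ := T'.exists_V hs
  have hVQ : ∀ a ∈ V, a ∈ Q := fun a ha => T.four_mem_R hs hR ((hV a).1 ha)
  have hWQ : ∀ a ∈ W, a ∈ Q := by
    intro a ha
    rcases (hW a).1 ha with rfl | rfl | rfl | rfl
    exacts [Q.one_mem, hr, hr', Q.mul_mem hr hr']
  have hcen : ∀ a ∈ V, ∀ q ∈ Q, Commute a q := by
    intro a ha q hq
    rcases (hV a).1 ha with rfl | rfl | rfl | rfl
    exacts [Commute.one_left _, (hQ.comm q hq).symm, (hQv q hq).symm,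
      (hQ.comm q hq).symm.mul_left (hQv q hq).symm]
  have htV : t ∈ V := (hV t).2 (Or.inr (Or.inl rfl))
  have hvV : v ∈ V := (hV v).2 (Or.inr (Or.inr (Or.inl rfl)))
  have hrW : r ∈ W := (hW r).2 (Or.inr (Or.inl rfl))
  have hr'W : r' ∈ W := (hW r').2 (Or.inr (Or.inr (Or.inl rfl)))
  have hinter : ∀ a, a ∈ V → a ∈ W → a = 1 := by
    intro a ha hb
    by_contra h1
    obtain ⟨d1, d2, d3⟩ := hdis a (((hW a).1 hb).resolve_left h1)
    rcases (hV a).1 ha with e | e | e | e
    exacts [h1 e, d1 e, d2 e, d3 e]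
  -- `x` fixes `V` and cycles `W`
  have hxV : ∀ a ∈ V, x * a * x⁻¹ ∈ V := by
    intro a ha
    rcases (hV a).1 ha with rfl | rfl | rfl | rfl
    · simp [V.one_mem]
    · rwa [conj_eq_self.2 T.cxt]
    · rwa [conj_eq_self.2 T.cxv]
    · rwa [conj_eq_self.2 (T.cxt.mul_right T.cxv)]
  have hxW : ∀ a ∈ W, x * a * x⁻¹ ∈ W := by
    intro a ha
    rcases (hW a).1 ha with rfl | rfl | rfl | rfl
    · simp [W.one_mem]
    · rwa [hxr]
    · rw [hxr']; exact W.mul_mem hrW hr'W
    · rwa [hxrr']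
  have hyV : ∀ a ∈ V, y * a * y⁻¹ ∈ V := by
    intro a ha
    rcases (hV a).1 ha with rfl | rfl | rfl | rfl
    · simp [V.one_mem]
    · rwa [yt]
    · rw [yv]; exact V.mul_mem htV hvV
    · rwa [ytv]
  have hyW : ∀ a ∈ W, y * a * y⁻¹ ∈ W := by
    intro a ha
    rcases (hW a).1 ha with rfl | rfl | rfl | rfl
    · simp [W.one_mem]
    · rwa [conj_eq_self.2 T'.cxt]
    · rwa [conj_eq_self.2 T'.cxv]
    · rwa [conj_eq_self.2 (T'.cxt.mul_right T'.cxv)]
  -- the elementary abelian group `V * W`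
  let E : Subgroup G :=
  { carrier := {h | ∃ a ∈ V, ∃ b ∈ W, h = a * b}
    one_mem' := ⟨1, V.one_mem, 1, W.one_mem, (one_mul 1).symm⟩
    mul_mem' := by
      rintro p q ⟨a, ha, b, hb, rfl⟩ ⟨c, hc, d, hd, rfl⟩
      exact ⟨a * c, V.mul_mem ha hc, b * d, W.mul_mem hb hd,
        (hcen c hc b (hWQ b hb)).symm.mul_mul_mul_comm a d⟩
    inv_mem' := by
      rintro p ⟨a, ha, b, hb, rfl⟩
      exact ⟨a⁻¹, V.inv_mem ha, b⁻¹, W.inv_mem hb, by
        rw [mul_inv_rev]; exact ((hcen _ (V.inv_mem ha) _ (hWQ _ (W.inv_mem hb))).eq).symm⟩ }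
  have hmemE : ∀ h, h ∈ E ↔ ∃ a ∈ V, ∃ b ∈ W, h = a * b := fun h => Iff.rfl
  have hVE : V ≤ E := fun a ha => ⟨a, ha, 1, W.one_mem, (mul_one a).symm⟩
  have hWE : W ≤ E := fun b hb => ⟨1, V.one_mem, b, hb, (one_mul b).symm⟩
  have hEQ : E ≤ Q := by
    rintro h ⟨a, ha, b, hb, rfl⟩
    exact Q.mul_mem (hVQ a ha) (hWQ b hb)
  have hEc : Nat.card E = 16 := by
    let f : V × W → E := fun p => ⟨p.1 * p.2, p.1, p.1.2, p.2, p.2.2, rfl⟩
    have hf : Function.Bijective f := by
      refine ⟨fun p q h => ?_, ?_⟩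
      · have e : (p.1 : G) * p.2 = q.1 * q.2 := congrArg Subtype.val h
        have e2 : (q.1 : G)⁻¹ * p.1 = q.2 * (p.2 : G)⁻¹ := by
          rw [eq_mul_inv_iff_mul_eq, mul_assoc, e, inv_mul_cancel_left]
        have h1 := hinter _ (V.mul_mem (V.inv_mem q.1.2) p.1.2)
          (e2 ▸ W.mul_mem q.2.2 (W.inv_mem p.2.2))
        have ha : p.1 = q.1 := Subtype.ext (inv_mul_eq_one.1 h1).symm
        rw [e2, mul_inv_eq_one] at h1
        exact Prod.ext ha (Subtype.ext h1.symm)
      · rintro ⟨h, a, ha, b, hb, rfl⟩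
        exact ⟨(⟨a, ha⟩, ⟨b, hb⟩), rfl⟩
    rw [← Nat.card_eq_of_bijective f hf, Nat.card_prod, hVc, hWc]
  have hExy : ∀ {z : G}, (∀ a ∈ V, z * a * z⁻¹ ∈ V) → (∀ a ∈ W, z * a * z⁻¹ ∈ W) →
      ∀ a ∈ E, z * a * z⁻¹ ∈ E := by
    rintro z hzV hzW h ⟨a, ha, b, hb, rfl⟩
    exact ⟨_, hzV a ha, _, hzW b hb, conj_mul_eq z a b⟩
  have hxE := hExy hxV hxW
  have hyE := hExy hyV hyW
  have hEr : ∀ a ∈ E, Commute a r ∧ Commute a r' := by
    rintro h ⟨a, ha, b, hb, rfl⟩
    have hb' : Commute b r ∧ Commute b r' := by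
      rcases (hW b).1 hb with rfl | rfl | rfl | rfl
      exacts [⟨Commute.one_left _, Commute.one_left _⟩, ⟨Commute.refl _, T'.comm hs⟩,
        ⟨(T'.comm hs).symm, Commute.refl _⟩,
        ⟨(Commute.refl r).mul_left (T'.comm hs).symm, (T'.comm hs).mul_left (Commute.refl r')⟩]
    exact ⟨(hcen a ha r hr).mul_left hb'.1, (hcen a ha r' hr').mul_left hb'.2⟩
  -- the centraliser of `W` in the core
  set M := Q ⊓ Subgroup.centralizer ({r} : Set G) ⊓ Subgroup.centralizer ({r'} : Set G) with hM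
  have hEM : E ≤ M := fun a ha =>
    ⟨⟨hEQ ha, mem_cent.2 (hEr a ha).1⟩, mem_cent.2 (hEr a ha).2⟩
  have hMx : ∀ m ∈ M, x * m * x⁻¹ ∈ M := by
    intro m hm
    have h1 : Commute m r := mem_cent.1 hm.1.2
    have h2 : Commute m r' := mem_cent.1 hm.2
    exact ⟨⟨hxQ m hm.1.1, mem_cent.2 (commute_conj_left (h1.mul_right h2) hxrr')⟩,
      mem_cent.2 (commute_conj_left h1 hxr)⟩
  obtain ⟨Qr, hQr⟩ := hs.exists_core T'.ht
  have hmemN : ∀ {A : Subgroup G} {n a : G}, n ∈ Subgroup.normalizer (A : Set G) → a ∈ A →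
      n * a * n⁻¹ ∈ A := fun hn ha => (Subgroup.mem_normalizer_iff.1 hn _).1 ha
  rcases T.core_card hs hQ (inf_le_left.trans inf_le_left : M ≤ Q) hMx (hEM (hVE htV))
    (hEM (hVE hvV)) with h | h | h
  · have := Subgroup.card_le_of_le hEM
    rw [hEc, h] at this
    norm_num at this
  swap
  · -- the core centralises `W`
    have hMQ : M = Q := Subgroup.eq_of_le_of_card_ge (inf_le_left.trans inf_le_left)
      (by rw [hQ.card, h])
    have hQW : ∀ q ∈ Q, Commute q r ∧ Commute q r' := fun q hq => by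
      rw [← hMQ] at hq
      exact ⟨mem_cent.1 hq.1.2, mem_cent.1 hq.2⟩
    have hQQr : Q = Qr := Subgroup.eq_of_le_of_card_ge
      (hQr.max y T'.hx T'.cxt Q (fun q hq => (hQW q hq).1) (fun q hq => hQ.pow_eq hq) hyQ)
      (by rw [hQ.card, hQr.card])
    obtain ⟨g, hg⟩ := isConj_iff.1 (hs.invol_conj t r T.ht T'.ht)
    have hgQ : g ∈ Subgroup.normalizer (Q : Set G) := by
      have hle : Q.map (MulAut.conj g).toMonoidHom ≤ Qr := by
        refine hQr.max y T'.hx T'.cxt _ ?_ ?_ ?_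
        · rintro a ⟨q, hq, rfl⟩
          exact commute_conj_left (hQ.comm q hq) hg
        · rintro a ⟨q, hq, rfl⟩
          show (g * q * g⁻¹) ^ 128 = 1
          rw [conj_pow, hQ.pow_eq hq]; group
        · rintro a ⟨q, hq, rfl⟩
          refine ⟨g⁻¹ * y * g⁻¹⁻¹ * q * (g⁻¹ * y * g⁻¹⁻¹)⁻¹, hQ.conj _ ?_ q hq, ?_⟩
          · exact commute_conj_left (g := g⁻¹) T'.cxt (by rw [← hg]; group)
          · show g * _ * g⁻¹ = y * (g * q * g⁻¹) * y⁻¹
            group
      refine mem_normalizer_of fun q hq => ?_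
      rw [hQQr]
      exact hle ⟨q, hq, rfl⟩
    set N := Subgroup.normalizer (Q : Set G) with hN
    have hCN : ∀ c : G, Commute c t → c ∈ N := fun c hc => mem_normalizer_of (hQ.conj c hc)
    have hxN : x ∈ N := hCN x T.cxt
    have hyN : y ∈ N := mem_normalizer_of hyQ
    set O : Set G := {w | ∃ n ∈ N, n * t * n⁻¹ = w} with hO
    have hstab : N ⊓ Subgroup.centralizer ({t} : Set G) = Subgroup.centralizer ({t} : Set G) :=
      inf_eq_right.2 fun c hc => hCN c (mem_cent.1 hc)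
    have hoN : 384 * O.ncard = Nat.card N := by
      have h := orbit_card N t
      rw [hstab, hs.cent_invol t T.ht] at h
      rw [← h, ← Nat.card_coe_set_eq]
      rfl
    have hdvd : O.ncard ∣ 1155 := by
      have h := Subgroup.card_subgroup_dvd_card N
      rw [← hoN, hs.card, show 443520 = 384 * 1155 from rfl] at h
      exact Nat.dvd_of_mul_dvd_mul_left (by norm_num : 0 < 384) h
    have h3 : 3 ∣ O.ncard := T.three_dvd hs hyx yt yv hyN (fun c hc => hCN c (mem_cent.1 hc.2))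
      (by rw [hstab, hs.cent_invol t T.ht])
    have hle63 : O.ncard ≤ 63 := by
      have h1 : O ⊆ (Q : Set G) \ {1} := by
        rintro w ⟨n, hn, rfl⟩
        exact ⟨hmemN hn htQ, fun e => ht1 (conj_eq_one_iff.1 e)⟩
      have h2 := Set.ncard_le_ncard h1 (Set.toFinite _)
      rwa [Set.ncard_sdiff_singleton_of_mem Q.one_mem, ← Nat.card_coe_set_eq (Q : Set G),
        show Nat.card ↥(Q : Set G) = 64 from hQ.card] at h2
    have hne3 : O.ncard ≠ 3 := by
      intro e
      have hrO : r ∈ O := ⟨g, hgQ, hg⟩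
      have heq : ({t, v, t * v} : Set G) = O := by
        refine Set.eq_of_subset_of_ncard_le ?_ ?_ (Set.toFinite _)
        · intro w hw
          rcases hw with rfl | rfl | rfl
          · exact ⟨1, N.one_mem, by group⟩
          · exact ⟨y, hyN, yt⟩
          · exact ⟨y * y, N.mul_mem hyN hyN, by
              rw [show y * y * t * (y * y)⁻¹ = y * (y * t * y⁻¹) * y⁻¹ by group, yt, yv]⟩
        · rw [e, Set.ncard_eq_three.2 ⟨t, v, t * v, T.ne, (T.third hs).ne, (T.rot hs).ne, rfl⟩]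
      rw [← heq] at hrO
      obtain ⟨d1, d2, d3⟩ := hdis r (Or.inl rfl)
      rcases hrO with e | e | e
      exacts [d1 e, d2 e, d3 e]
    -- small prime divisors of the normaliser
    have hkill : ∀ p : ℕ, p.Prime → p ∣ O.ncard → ¬ p ∣ 63 → (∀ f : G, orderOf f = p →
        Nat.card (Subgroup.centralizer ({f} : Set G)) = p) → Nat.Coprime 64 p → False := by
      intro p hp hpO hp63 hcent hcop
      haveI := Fact.mk hp
      obtain ⟨f, hf⟩ := exists_prime_orderOf_dvd_card' (G := N) p (hoN ▸ hpO.mul_left _)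
      have hf' : orderOf (f : G) = p := by rw [Subgroup.orderOf_coe]; exact hf
      refine hp63 ?_
      have h := dvd_card_sub_one hf' (A := Q) (fun a ha => hmemN f.2 ha)
        (Setup.fixed_trivial (hcent _ hf') (by rw [hQ.card]; exact hcop))
      rwa [hQ.card] at h
    have hO : O.ncard = 15 ∨ O.ncard = 21 ∨ O.ncard = 33 := by
      generalize O.ncard = o at *
      interval_cases o <;> omega
    rcases hO with e | e | e
    · exact hkill 5 (by norm_num) (by rw [e]; norm_num) (by norm_num) hs.cent_five (by norm_num)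
    swap
    · exact hkill 11 (by norm_num) (by rw [e]; norm_num) (by norm_num) hs.cent_eleven (by norm_num)
    · have hNc : Nat.card N = 8064 := by rw [← hoN, e]
      haveI : Fact (Nat.Prime 7) := ⟨by norm_num⟩
      obtain ⟨f, hf⟩ := exists_prime_orderOf_dvd_card' (G := N) 7 (by rw [hNc]; norm_num)
      obtain ⟨P, hP⟩ := (IsPGroup.of_card (p := 7) (n := 1)
        (show Nat.card (Subgroup.zpowers f) = 7 ^ 1 by
          rw [Nat.card_zpowers, hf]; rfl)).exists_le_sylow
      have hPc : Nat.card (P : Subgroup N) = 7 := by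
        obtain ⟨n, hn⟩ := IsPGroup.iff_card.1 P.2
        have h1 : 7 ∣ Nat.card (P : Subgroup N) := by
          have h := Subgroup.card_dvd_of_le hP
          rwa [Nat.card_zpowers, hf] at h
        have h2 : 7 ^ n ∣ 8064 := hNc ▸ hn ▸ Subgroup.card_subgroup_dvd_card _
        rw [hn] at h1 ⊢
        have : n ≤ 1 := by
          by_contra hlt
          exact absurd ((pow_dvd_pow 7 (show 2 ≤ n by omega)).trans h2) (by norm_num)
        interval_cases n
        · norm_num at h1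
        · rfl
      have hPz : (P : Subgroup N) = Subgroup.zpowers f :=
        (Subgroup.eq_of_le_of_card_ge hP (by rw [hPc, Nat.card_zpowers, hf])).symm
      set NP := Subgroup.normalizer ((P : Subgroup N) : Set N) with hNP
      have hd21 : Nat.card NP ∣ 21 := by
        rw [← hs.norm_seven (f : G) (by rw [Subgroup.orderOf_coe]; exact hf),
          ← Subgroup.card_map_of_injective N.subtype_injective (K := NP)]
        refine Subgroup.card_dvd_of_le ?_
        rintro a ⟨b, hb, rfl⟩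
        refine mem_normalizer_of fun c hc => ?_
        obtain ⟨k, rfl⟩ := Subgroup.mem_zpowers_iff.1 hc
        have h1 := (Subgroup.mem_normalizer_iff.1 hb (f ^ k)).1
          (by rw [hPz]; exact Subgroup.zpow_mem _ (Subgroup.mem_zpowers f) k)
        rw [hPz] at h1
        obtain ⟨m, hm⟩ := Subgroup.mem_zpowers_iff.1 h1
        refine Subgroup.mem_zpowers_iff.2 ⟨m, ?_⟩
        simpa using congrArg Subtype.val hm
      have h7 : 7 ∣ Nat.card NP := hPc ▸ Subgroup.card_dvd_of_le Subgroup.le_normalizer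
      have hmod := card_sylow_modEq_one 7 N
      have hidx : Nat.card (Sylow 7 N) = NP.index := P.card_eq_index_normalizer
      have hmul := Subgroup.card_mul_index NP
      rw [← hidx, hNc] at hmul
      generalize Nat.card NP = k at *
      generalize Nat.card (Sylow 7 N) = m at *
      have hk21 := Nat.le_of_dvd (by norm_num) hd21
      unfold Nat.ModEq at hmod
      obtain ⟨j, rfl⟩ := h7
      rcases (Nat.dvd_prime Nat.prime_three).1
        (Nat.dvd_of_mul_dvd_mul_left (by norm_num : 0 < 7) (hd21 : 7 * j ∣ 7 * 3)) with rfl | rfl <;>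
        omega
  -- the centraliser of `W` in the core is `E`
  have hME : M = E := (Subgroup.eq_of_le_of_card_ge hEM (by rw [h, hEc])).symm
  have hnotQ : ¬ ∀ q ∈ Q, Commute q r ∧ Commute q r' := by
    intro hall
    have hQM : Q ≤ M := fun q hq => ⟨⟨hq, mem_cent.2 (hall q hq).1⟩, mem_cent.2 (hall q hq).2⟩
    have := Subgroup.card_le_of_le hQM
    rw [hQ.card, h] at this
    norm_num at this
  have hrQ' : (∀ q ∈ Q, Commute q r) → False := fun hall => hnotQ fun q hq => ⟨hall q hq, by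
    have hxn : x⁻¹ ∈ Subgroup.normalizer (Q : Set G) := inv_mem (mem_normalizer_of hxQ)
    have h1 := commute_conj_left (g := x) (hall _ (hmemN hxn hq)) hxr
    simpa [mul_assoc] using h1⟩
  set N1 := Subgroup.normalizer (E : Set G) with hN1
  have hxN1 : x ∈ N1 := mem_normalizer_of hxE
  have hyN1 : y ∈ N1 := mem_normalizer_of hyE
  have hQN1 : Q ≤ N1 := by
    obtain ⟨b, hb, hbE, hbn⟩ := exists_normalizer_gt hEQ (fun e => by
      rw [e, hQ.card] at hEc; norm_num at hEc) (n := 6) hQ.card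
    have hgt : 16 < Nat.card ↥(Q ⊓ N1) := by
      by_contra hle
      have he : E = Q ⊓ N1 := Subgroup.eq_of_le_of_card_ge (le_inf hEQ Subgroup.le_normalizer)
        (by rw [hEc]; omega)
      exact hbE (he ▸ ⟨hb, mem_normalizer_of hbn⟩)
    have hfull : Q ⊓ N1 = Q := Subgroup.eq_of_le_of_card_ge inf_le_left (by
      rw [hQ.card]
      rcases T.core_card hs hQ inf_le_left (M := Q ⊓ N1)
        (fun m hm => ⟨hxQ m hm.1, N1.mul_mem (N1.mul_mem hxN1 hm.2) (N1.inv_mem hxN1)⟩)
        ⟨htQ, Subgroup.le_normalizer (hVE htV)⟩ ⟨hvQ, Subgroup.le_normalizer (hVE hvV)⟩ with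
        h | h | h <;> omega)
    exact inf_eq_left.1 hfull
  -- the centraliser of `t` normalises `V`
  have hCV : ∀ c : G, Commute c t → ∀ a ∈ V, c * a * c⁻¹ ∈ V := by
    intro c hc
    have h := orbit_card (Subgroup.centralizer ({t} : Set G)) v
    rw [← hH, hs.cent_invol t T.ht] at h
    have he : ({v, t * v} : Set G) =
        {w | ∃ a ∈ Subgroup.centralizer ({t} : Set G), a * v * a⁻¹ = w} := by
      refine Set.eq_of_subset_of_ncard_le ?_ ?_ (Set.toFinite _)
      · rintro w (rfl | rfl)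
        exacts [⟨1, Subgroup.one_mem _, by group⟩, ⟨s, mem_cent.2 hst, sv⟩]
      · rw [Set.ncard_pair (T.rot hs).ne, ← Nat.card_coe_set_eq]
        show Nat.card {w : G // ∃ a ∈ Subgroup.centralizer ({t} : Set G), a * v * a⁻¹ = w} ≤ 2
        omega
    have hcv : c * v * c⁻¹ ∈ ({v, t * v} : Set G) := he ▸ ⟨c, mem_cent.2 hc, rfl⟩
    have hcvV : c * v * c⁻¹ ∈ V := by
      rcases hcv with e | e <;> rw [e]
      exacts [hvV, V.mul_mem htV hvV]
    intro a ha
    rcases (hV a).1 ha with rfl | rfl | rfl | rfl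
    · simp [V.one_mem]
    · rwa [conj_eq_self.2 hc]
    · exact hcvV
    · rw [conj_mul_eq, conj_eq_self.2 hc]; exact V.mul_mem htV hcvV
  set NV := Subgroup.normalizer (V : Set G) with hNV
  have hCNV : ∀ c : G, Commute c t → c ∈ NV := fun c hc => mem_normalizer_of (hCV c hc)
  have hyNV : y ∈ NV := mem_normalizer_of hyV
  have hblock : ∀ n : G, ∀ a ∈ V, a ≠ 1 → n * a * n⁻¹ = t → n ∈ NV := by
    intro n a ha ha1 e
    obtain ⟨m, hm, hma⟩ : ∃ m ∈ NV, m * t * m⁻¹ = a := by
      rcases (hV a).1 ha with h | h | h | h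
      · exact absurd h ha1
      · exact ⟨1, NV.one_mem, by rw [h]; group⟩
      · exact ⟨y, hyNV, yt.trans h.symm⟩
      · refine ⟨y * y, NV.mul_mem hyNV hyNV, ?_⟩
        rw [show y * y * t * (y * y)⁻¹ = y * (y * t * y⁻¹) * y⁻¹ by group, yt, yv, h]
    have h1 : n * m ∈ NV := hCNV _ (conj_eq_self.1 (by
      rw [show n * m * t * (n * m)⁻¹ = n * (m * t * m⁻¹) * n⁻¹ by group, hma, e]))
    simpa using NV.mul_mem h1 (NV.inv_mem hm)
  have hblock' : ∀ n : G, ∀ a ∈ V, a ≠ 1 → n * a * n⁻¹ ∈ V → n ∈ NV := by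
    intro n a ha ha1 hmem
    obtain ⟨m, hm, hmt⟩ : ∃ m ∈ NV, m * (n * a * n⁻¹) * m⁻¹ = t := by
      rcases (hV _).1 hmem with h | h | h | h
      · exact absurd (conj_eq_one_iff.1 h) ha1
      · exact ⟨1, NV.one_mem, by rw [h]; group⟩
      · refine ⟨y * y, NV.mul_mem hyNV hyNV, ?_⟩
        rw [h, show y * y * v * (y * y)⁻¹ = y * (y * v * y⁻¹) * y⁻¹ by group, yv, ytv]
      · exact ⟨y, hyNV, by rw [h]; exact ytv⟩
    have h1 := hblock (m * n) a ha ha1 (by rw [← hmt]; group)
    simpa using NV.mul_mem (NV.inv_mem hm) h1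
  -- the normaliser of `E` moves `V`
  have hmove : ∃ n ∈ N1, n ∉ NV := by
    by_contra hno
    push Not at hno
    obtain ⟨Rr, hRr, -⟩ := T'.exists_R hs
    have hERr : E ≤ Rr := fun a ha =>
      (hRr a).2 ⟨(hEr a ha).1, (hEr a ha).2, hQ.pow_eq (hEQ ha)⟩
    obtain ⟨hcases, hnorm⟩ := T'.R_cases hs hQr hRr
    rcases hcases with h16 | h64
    · have hE' : E = Rr := Subgroup.eq_of_le_of_card_ge hERr (by rw [hEc, h16])
      set Cr := Subgroup.centralizer ({r} : Set G) with hCr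
      have hCrV : ∀ c ∈ Cr, ∀ a ∈ V, c * a * c⁻¹ ∈ V := fun c hc a ha =>
        hmemN (hno c (mem_normalizer_of (hE' ▸ hnorm c (mem_cent.1 hc)))) ha
      have h1 := orbit_card Cr t
      have ho : Nat.card {w : G // ∃ a ∈ Cr, a * t * a⁻¹ = w} = 3 := by
        have e : {w : G | ∃ a ∈ Cr, a * t * a⁻¹ = w} = {t, v, t * v} := by
          refine Set.Subset.antisymm ?_ ?_
          · rintro w ⟨a, ha, rfl⟩
            rcases (hV _).1 (hCrV a ha t htV) with e | e | e | e
            · exact absurd (conj_eq_one_iff.1 e) ht1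
            exacts [Or.inl e, Or.inr (Or.inl e), Or.inr (Or.inr e)]
          · have hyC : y ∈ Cr := mem_cent.2 T'.cxt
            rintro w (rfl | rfl | rfl)
            · exact ⟨1, Cr.one_mem, by group⟩
            · exact ⟨y, hyC, yt⟩
            · exact ⟨y * y, Cr.mul_mem hyC hyC, by
                rw [show y * y * t * (y * y)⁻¹ = y * (y * t * y⁻¹) * y⁻¹ by group, yt, yv]⟩
        show Nat.card ↥{w : G | ∃ a ∈ Cr, a * t * a⁻¹ = w} = 3
        rw [Nat.card_coe_set_eq, e,
          Set.ncard_eq_three.2 ⟨t, v, t * v, T.ne, (T.third hs).ne, (T.rot hs).ne, rfl⟩]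
      rw [ho, hCr, hs.cent_invol r T'.ht] at h1
      set K := Cr ⊓ Subgroup.centralizer ({t} : Set G) with hK
      have hK128 : Nat.card K = 128 := by
        have h1' : Nat.card K * 3 = 384 := h1
        omega
      have h2 := orbit_card K v
      have ho2 : Nat.card {w : G // ∃ a ∈ K, a * v * a⁻¹ = w} ≤ 2 := by
        calc Nat.card {w : G // ∃ a ∈ K, a * v * a⁻¹ = w}
            = ({w : G | ∃ a ∈ K, a * v * a⁻¹ = w} : Set G).ncard := rfl
          _ ≤ ({v, t * v} : Set G).ncard := by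
              refine Set.ncard_le_ncard (fun w hw => ?_) (Set.toFinite _)
              obtain ⟨a, ha, rfl⟩ := hw
              rcases (hV _).1 (hCrV a ha.1 v hvV) with e | e | e | e
              · exact absurd (conj_eq_one_iff.1 e) hv1
              · exact absurd (mul_left_cancel (mul_right_cancel
                  (e.trans (conj_eq_self.2 (mem_cent.1 ha.2)).symm))) T.ne.symm
              · exact Or.inl e
              · exact Or.inr e
          _ ≤ 2 := (Set.ncard_insert_le _ _).trans (by simp)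
      have hKQ : K ⊓ Subgroup.centralizer ({v} : Set G) ≤ Q := fun a ha =>
        (hR a).2 ⟨mem_cent.1 ha.1.2, mem_cent.1 ha.2, pow_card_of_mem ha.1 (by rw [hK128])⟩
      have h64 : 64 ≤ Nat.card ↥(K ⊓ Subgroup.centralizer ({v} : Set G)) := by
        rw [hK128] at h2
        have := Nat.mul_le_mul_left (Nat.card ↥(K ⊓ Subgroup.centralizer ({v} : Set G))) ho2
        omega
      have he := Subgroup.eq_of_le_of_card_ge hKQ (by rw [hQ.card]; exact h64)
      exact hrQ' fun q hq => mem_cent.1 (he.symm ▸ hq : q ∈ K ⊓ _).1.1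
    · have hRc : Nat.card Rr = 64 := by rw [h64, hQr.card]
      have hyRr : ∀ a ∈ Rr, y * a * y⁻¹ ∈ Rr := T'.R_inv_x hRr
      obtain ⟨b, hb, hbE, hbn⟩ := exists_normalizer_gt hERr (fun e => by
        rw [e, hRc] at hEc; norm_num at hEc) (n := 6) hRc
      have hfull : Rr ⊓ N1 = Rr := Subgroup.eq_of_le_of_card_ge inf_le_left (by
        rw [hRc]
        have hgt : 16 < Nat.card ↥(Rr ⊓ N1) := by
          by_contra hle
          have he : E = Rr ⊓ N1 := Subgroup.eq_of_le_of_card_ge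
            (le_inf hERr Subgroup.le_normalizer) (by rw [hEc]; omega)
          exact hbE (he ▸ ⟨hb, mem_normalizer_of hbn⟩)
        rcases T'.core_card hs hQr (M := Rr ⊓ N1) (inf_le_left.trans h64.le)
          (fun m hm => ⟨hyRr m hm.1, N1.mul_mem (N1.mul_mem hyN1 hm.2) (N1.inv_mem hyN1)⟩)
          ⟨hERr (hWE hrW), Subgroup.le_normalizer (hWE hrW)⟩
          ⟨hERr (hWE hr'W), Subgroup.le_normalizer (hWE hr'W)⟩ with h | h | h <;> omega)
      have hcomm := fix_cycle (A := Rr) (by rw [hRc]) yt yv ytv T.ne (T.third hs).ne (T.rot hs).ne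
        hyRr (fun n hn => by
          rcases (hV _).1 (hmemN (hno n ((inf_eq_left.1 hfull) hn)) htV) with e | e | e | e
          · exact absurd (conj_eq_one_iff.1 e) ht1
          exacts [Or.inl e, Or.inr (Or.inl e), Or.inr (Or.inr e)])
      have hle : Rr ≤ M := fun a ha => by
        obtain ⟨h1, h2, h3⟩ := (hRr a).1 ha
        exact ⟨⟨(hR a).2 ⟨(hcomm a ha).1, (hcomm a ha).2, h3⟩, mem_cent.2 h1⟩, mem_cent.2 h2⟩
      have := Subgroup.card_le_of_le hle
      rw [hRc, h] at this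
      norm_num at this
  -- the orbit of `t` in the normaliser of `E`
  set S1 := N1 ⊓ Subgroup.centralizer ({t} : Set G) with hS1
  set B := N1 ⊓ NV with hB
  have hfixN1 : Subgroup.centralizer ({x} : Set G) ⊓ Subgroup.centralizer ({t} : Set G) ≤ N1 := by
    intro a ha
    obtain ⟨i, w, hw, rfl⟩ := T.mem_fix hs (mem_cent.1 ha.1) (mem_cent.1 ha.2)
    refine N1.mul_mem (N1.pow_mem hxN1 _) (Subgroup.le_normalizer (hVE ((hV w).2 ?_)))
    simpa using hw
  have hS1d : Nat.card S1 ∣ 384 := hs.cent_invol t T.ht ▸ Subgroup.card_dvd_of_le inf_le_right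
  have h192 : 192 ∣ Nat.card S1 := by
    refine Nat.Coprime.mul_dvd_of_dvd_of_dvd (by norm_num : Nat.Coprime 64 3) ?_ ?_
    · exact hQ.card ▸ Subgroup.card_dvd_of_le
        (le_inf hQN1 fun q hq => mem_cent.2 (hQ.comm q hq))
    · exact T.hx ▸ Subgroup.orderOf_dvd_natCard S1 ⟨hxN1, mem_cent.2 T.cxt⟩
  set O : Set G := {w | ∃ n ∈ N1, n * t * n⁻¹ = w} with hO
  have hoN : Nat.card S1 * O.ncard = Nat.card N1 := by
    have h := orbit_card N1 t
    rw [← h, ← Nat.card_coe_set_eq]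
    rfl
  have h3 : 3 ∣ O.ncard := T.three_dvd hs hyx yt yv hyN1 hfixN1 hS1d
  have hle15 : O.ncard ≤ 15 := by
    have h1 : O ⊆ (E : Set G) \ {1} := by
      rintro w ⟨n, hn, rfl⟩
      exact ⟨hmemN hn (hVE htV), fun e => ht1 (conj_eq_one_iff.1 e)⟩
    have h2 := Set.ncard_le_ncard h1 (Set.toFinite _)
    rwa [Set.ncard_sdiff_singleton_of_mem E.one_mem, ← Nat.card_coe_set_eq (E : Set G),
      show Nat.card ↥(E : Set G) = 16 from hEc] at h2
  have hdvd : O.ncard ∣ 2310 := by
    have h := Subgroup.card_subgroup_dvd_card N1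
    rw [← hoN, hs.card, show 443520 = 192 * 2310 from rfl] at h
    exact Nat.dvd_of_mul_dvd_mul_left (by norm_num : 0 < 192)
      ((Nat.mul_dvd_mul_right h192 _).trans h)
  have hBc : 3 * Nat.card S1 = Nat.card B := by
    have h := orbit_card B t
    have e1 : B ⊓ Subgroup.centralizer ({t} : Set G) = S1 := by
      rw [hB, hS1]
      exact le_antisymm (fun a ha => ⟨ha.1.1, ha.2⟩)
        (fun a ha => ⟨⟨ha.1, hCNV a (mem_cent.1 ha.2)⟩, ha.2⟩)
    have e2 : {w : G | ∃ a ∈ B, a * t * a⁻¹ = w} = {t, v, t * v} := by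
      refine Set.Subset.antisymm ?_ ?_
      · rintro w ⟨a, ha, rfl⟩
        rcases (hV _).1 (hmemN ha.2 htV) with e | e | e | e
        · exact absurd (conj_eq_one_iff.1 e) ht1
        exacts [Or.inl e, Or.inr (Or.inl e), Or.inr (Or.inr e)]
      · have hyB : y ∈ B := ⟨hyN1, hyNV⟩
        rintro w (rfl | rfl | rfl)
        · exact ⟨1, B.one_mem, by group⟩
        · exact ⟨y, hyB, yt⟩
        · exact ⟨y * y, B.mul_mem hyB hyB, by
            rw [show y * y * t * (y * y)⁻¹ = y * (y * t * y⁻¹) * y⁻¹ by group, yt, yv]⟩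
    rw [e1, show Nat.card {w : G // ∃ a ∈ B, a * t * a⁻¹ = w} = 3 by
      show Nat.card ↥{w : G | ∃ a ∈ B, a * t * a⁻¹ = w} = 3
      rw [Nat.card_coe_set_eq, e2,
        Set.ncard_eq_three.2 ⟨t, v, t * v, T.ne, (T.third hs).ne, (T.rot hs).ne, rfl⟩]] at h
    omega
  set B' := B.subgroupOf N1 with hB'
  have hidx : B'.index * 3 = O.ncard := by
    have h := Subgroup.card_mul_index B'
    rw [Nat.card_congr (Subgroup.subgroupOfEquivOfLe (inf_le_left : B ≤ N1)).toEquiv, ← hBc,
      ← hoN] at h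
    have hpos : 0 < Nat.card S1 := Nat.card_pos
    refine Nat.eq_of_mul_eq_mul_left hpos ?_
    rw [← h]; ring
  have hOcases : O.ncard = 3 ∨ O.ncard = 6 ∨ O.ncard = 15 := by
    generalize O.ncard = o at *
    have : 0 < o ∨ o = 0 := by omega
    interval_cases o <;> omega
  obtain ⟨n, hn, hnV⟩ := hmove
  rcases hOcases with e | e | e
  · have h1 : B'.index = 1 := by omega
    rw [Subgroup.index_eq_one, Subgroup.subgroupOf_eq_top] at h1
    exact hnV (h1 hn).2
  · -- two blocks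
    have h2 : B'.index = 2 := by omega
    have hnorm := Subgroup.normal_of_index_eq_two h2
    have hQB : Q ≤ B := fun q hq => ⟨hQN1 hq, hCNV q (hQ.comm q hq)⟩
    set a := n * t * n⁻¹ with ha
    have haE : a ∈ E := hmemN hn (hVE htV)
    have hmemV' : ∀ b ∈ B, n⁻¹ * b * n⁻¹⁻¹ ∈ NV := by
      intro b hb
      have := hnorm.conj_mem ⟨b, hb.1⟩ (Subgroup.mem_subgroupOf.2 hb) ⟨n⁻¹, N1.inv_mem hn⟩
      rw [Subgroup.mem_subgroupOf] at this
      exact this.2
    have hxB : x ∈ B := ⟨hxN1, hCNV x T.cxt⟩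
    have haV : a ∉ V := fun hmem => hnV (hblock' n t htV ht1 hmem)
    have hV' : ∀ b ∈ B, ∃ u ∈ V, b * a * b⁻¹ = n * u * n⁻¹ ∧ u ≠ 1 := fun b hb =>
      ⟨(n⁻¹ * b * n⁻¹⁻¹) * t * (n⁻¹ * b * n⁻¹⁻¹)⁻¹, hmemN (hmemV' b hb) htV, by rw [ha]; group,
        fun e => ht1 (conj_eq_one_iff.1 e)⟩
    have hxa : ¬ Commute x a := fun hc => by
      have h2 := T.mem_four hs hc.symm (hQ.comm a (hEQ haE)) (hQ.pow_eq (hEQ haE))
      exact haV ((hV a).2 h2)
    set b := x * a * x⁻¹ with hbdef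
    set c := x * b * x⁻¹ with hcdef
    have hab : a ≠ b := fun e => hxa (conj_eq_self.1 e.symm)
    have h3a : x * c * x⁻¹ = a := by
      rw [hcdef, hbdef, show x * (x * (x * a * x⁻¹) * x⁻¹) * x⁻¹ = x ^ 3 * a * (x ^ 3)⁻¹ by
        simp only [pow_succ, pow_zero, one_mul]; group, pow_three_of T.hx, one_mul, inv_one,
        mul_one]
    have hbc : b ≠ c := fun e => hab (mul_left_cancel (mul_right_cancel
      (show x * a * x⁻¹ = x * b * x⁻¹ from e)))
    have hac : a ≠ c := fun e => hab ((h3a.symm.trans (by rw [← e])))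
    obtain ⟨ub, hub, eb, hub1⟩ := hV' x hxB
    obtain ⟨uc, huc, ec, huc1⟩ := hV' (x * x) (B.mul_mem hxB hxB)
    rw [← hbdef] at eb
    rw [show x * x * a * (x * x)⁻¹ = x * (x * a * x⁻¹) * x⁻¹ by group, ← hbdef, ← hcdef] at ec
    have hthree : ({t, ub, uc} : Set G) = {t, v, t * v} := by
      have inj : ∀ p q : G, n * p * n⁻¹ = n * q * n⁻¹ → p = q := fun p q e =>
        mul_left_cancel (mul_right_cancel e)
      refine Set.eq_of_subset_of_ncard_le ?_ ?_ (Set.toFinite _)
      · rintro w (rfl | rfl | rfl)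
        · exact Or.inl rfl
        · rcases (hV _).1 hub with e | e | e | e
          · exact absurd e hub1
          exacts [Or.inl e, Or.inr (Or.inl e), Or.inr (Or.inr e)]
        · rcases (hV _).1 huc with e | e | e | e
          · exact absurd e huc1
          exacts [Or.inl e, Or.inr (Or.inl e), Or.inr (Or.inr e)]
      · rw [Set.ncard_eq_three.2 ⟨t, v, t * v, T.ne, (T.third hs).ne, (T.rot hs).ne, rfl⟩,
          Set.ncard_eq_three.2 ⟨t, ub, uc, fun e => hab (by rw [eb, ← e, ha]),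
            fun e => hac (by rw [ec, ← e, ha]), fun e => hbc (by rw [eb, ec, e]), rfl⟩]
    have hcomm := fix_cycle (A := Q) (by rw [hQ.card]) (hbdef.symm) (hcdef.symm) h3a hab hac hbc
      hxQ (fun q hq => by
        obtain ⟨u, hu, eu, hu1⟩ := hV' q (hQB hq)
        have : u ∈ ({t, ub, uc} : Set G) := by
          rw [hthree]
          rcases (hV _).1 hu with e | e | e | e
          · exact absurd e hu1
          exacts [Or.inl e, Or.inr (Or.inl e), Or.inr (Or.inr e)]
        rcases this with rfl | rfl | rfl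
        · exact Or.inl (by rw [eu, ha])
        · exact Or.inr (Or.inl (by rw [eu, eb]))
        · exact Or.inr (Or.inr (by rw [eu, ec])))
    obtain ⟨p, hp, w, hw, eaw⟩ := (hmemE a).1 haE
    have hQw : ∀ q ∈ Q, Commute q w := fun q hq => by
      have h1 := (hcen p hp q hq).symm.inv_right.mul_right (hcomm q hq).1
      rwa [eaw, inv_mul_cancel_left] at h1
    have hQw' : ∀ z : G, (∀ q ∈ Q, z⁻¹ * q * z ∈ Q) → ∀ u u' : G, z * u * z⁻¹ = u' →
        (∀ q ∈ Q, Commute q u) → ∀ q ∈ Q, Commute q u' := fun z hz u u' e hu q hq => by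
      have h1 := commute_conj_left (g := z) (hu _ (hz q hq)) e
      simpa [mul_assoc] using h1
    have hxinv : ∀ q ∈ Q, x⁻¹ * q * x ∈ Q := fun q hq => by
      have := hQ.conj x⁻¹ T.cxt.inv_left q hq
      rwa [inv_inv] at this
    rcases (hW w).1 hw with e | e | e | e
    · exact haV (by rw [eaw, e, mul_one]; exact hp)
    · subst e; exact hrQ' hQw
    · subst e
      exact hrQ' (hQw' x hxinv _ _ hxrr' (hQw' x hxinv _ _ hxr' hQw))
    · subst e
      exact hrQ' (hQw' x hxinv _ _ hxrr' hQw)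
  · -- five blocks
    have h5 : B'.index = 5 := by omega
    set K := B'.normalCore with hKdef
    haveI : K.Normal := Subgroup.normalCore_normal B'
    have hKB : Nat.card K ∣ Nat.card B' := Subgroup.card_dvd_of_le (Subgroup.normalCore_le B')
    have hB'c : Nat.card B' = 3 * Nat.card S1 := by
      rw [hBc]
      exact Nat.card_congr (Subgroup.subgroupOfEquivOfLe (inf_le_left : B ≤ N1)).toEquiv
    have hKidx : K.index ∣ 120 := by
      rw [hKdef, Subgroup.normalCore_eq_ker, Subgroup.index_ker]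
      refine (Subgroup.card_subgroup_dvd_card _).trans ?_
      rw [Nat.card_perm, ← Subgroup.index_eq_card, h5]
      norm_num [Nat.factorial]
    have hNc : Nat.card N1 = 15 * Nat.card S1 := by rw [← hoN, e]; ring
    have h2880 : 2880 ∣ Nat.card N1 := by
      rw [hNc, show 2880 = 15 * 192 from rfl]; exact Nat.mul_dvd_mul_left _ h192
    have h24 : 24 ∣ Nat.card K := by
      have h1 := h2880.trans ((dvd_of_eq (Subgroup.card_mul_index K).symm).trans
        (Nat.mul_dvd_mul_left _ hKidx))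
      rw [show 2880 = 24 * 120 from rfl] at h1
      exact Nat.dvd_of_mul_dvd_mul_right (by norm_num) h1
    have hK1152 : Nat.card K ∣ 1152 := by
      refine hKB.trans ?_
      rw [hB'c]
      exact Nat.mul_dvd_mul_left 3 hS1d
    haveI : Fact (Nat.Prime 3) := ⟨Nat.prime_three⟩
    haveI : Fact (Nat.Prime 5) := ⟨by norm_num⟩
    obtain ⟨P⟩ : Nonempty (Sylow 3 K) := inferInstance
    obtain ⟨k, hk⟩ := IsPGroup.iff_card.1 P.2
    have hk0 : k ≠ 0 := by
      rintro rfl
      exact P.not_dvd_index (by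
        have h1 := Subgroup.card_mul_index (P : Subgroup K)
        rw [hk, pow_zero, one_mul] at h1
        rw [h1]
        exact (show 3 ∣ 24 by norm_num).trans h24)
    have hk2 : k ≤ 2 := by
      by_contra hlt
      exact absurd ((pow_dvd_pow 3 (show 3 ≤ k by omega)).trans
        ((hk ▸ Subgroup.card_subgroup_dvd_card (P : Subgroup K)).trans hK1152)) (by norm_num)
    set P1 := (P : Subgroup K).map K.subtype with hP1
    set NP := Subgroup.normalizer (P1 : Set N1) with hNP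
    have hsup : NP ⊔ K = ⊤ := Sylow.normalizer_sup_eq_top P
    have h5NP : 5 ∣ Nat.card NP := by
      have hrel : K.index ∣ Nat.card NP := by
        rw [← Subgroup.relIndex_top_right, ← hsup, Subgroup.relIndex_sup_right]
        exact Subgroup.relIndex_dvd_card _ _
      have h1 : 5 ∣ Nat.card K * K.index := by
        rw [Subgroup.card_mul_index]; exact (show 5 ∣ 2880 by norm_num).trans h2880
      rcases (Nat.Prime.dvd_mul (by norm_num)).1 h1 with h | h
      · exact absurd (h.trans hK1152) (by norm_num)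
      · exact h.trans hrel
    obtain ⟨f, hf⟩ := exists_prime_orderOf_dvd_card' (G := NP) 5 h5NP
    have hf' : orderOf ((f : N1) : G) = 5 := by
      rw [Subgroup.orderOf_coe, Subgroup.orderOf_coe]; exact hf
    set P2 := P1.map N1.subtype with hP2
    have hP2c : Nat.card P2 = 3 ^ k := by
      rw [hP2, Subgroup.card_map_of_injective N1.subtype_injective, hP1,
        Subgroup.card_map_of_injective K.subtype_injective, hk]
    have h := dvd_card_sub_one (p := 5) hf' (A := P2) (by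
      rintro a ⟨b, hb, rfl⟩
      exact ⟨_, (Subgroup.mem_normalizer_iff.1 f.2 b).1 hb, by simp⟩)
      (Setup.fixed_trivial (hs.cent_five _ hf') (by
        rw [hP2c]; exact Nat.Coprime.pow_left _ (by norm_num)))
    rw [hP2c] at h
    interval_cases k <;> first | exact hk0 rfl | norm_num at h

end Trio

/-- A group with the counts of `M₂₂` has a hexad. -/
theorem Setup.exists_hexad (hs : Setup G) : ∃ E : Subgroup G, Hexad E := by
  classical
  haveI : Fact (Nat.Prime 2) := ⟨Nat.prime_two⟩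
  obtain ⟨t, ht⟩ := exists_prime_orderOf_dvd_card' (G := G) 2 (by rw [hs.card]; norm_num)
  obtain ⟨x, v, T⟩ := hs.exists_trio ht
  obtain ⟨Q, hQ⟩ := hs.exists_core ht
  obtain ⟨R, hR, -⟩ := T.exists_R hs
  obtain ⟨hcases, hnorm⟩ := T.R_cases hs hQ hR
  rcases hcases with h | h
  · exact ⟨R, T.hexad hs hR h hnorm⟩
  · exact (T.kill hs hQ fun q hq => ((hR q).1 (h ▸ hq)).2.1).elim

end CfsgLib.M22Count
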