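import Cfsg.Agent.M22Count.Defs
import Mathlib.GroupTheory.Transfer
import Mathlib.GroupTheory.SpecificGroups.Cyclic

/-!
Local facts at a pair of commuting involutions centralised by an element of order three.
-/

set_option autoImplicit false
set_option linter.style.haveILetI false

namespace CfsgLib.M22Count

variable {G : Type*} [Group G] [Finite G]

omit [Finite G] in
theorem mem_cent {a b : G} : a ∈ Subgroup.centralizer ({b} : Set G) ↔ a * b = b * a :=
  Subgroup.mem_centralizer_singleton_iff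

theorem mem_normalizer_of {A : Subgroup G} {g : G} (h : ∀ a ∈ A, g * a * g⁻¹ ∈ A) :
    g ∈ Subgroup.normalizer (A : Set G) :=
  Subgroup.mem_normalizer_fintype h

omit [Finite G] in
theorem sq_of_order_two {a : G} (h : orderOf a = 2) : a * a = 1 := by
  rw [← pow_two, ← h, pow_orderOf_eq_one]

omit [Finite G] in
theorem inv_of_order_two {a : G} (h : orderOf a = 2) : a⁻¹ = a :=
  inv_eq_of_mul_eq_one_right (sq_of_order_two h)

omit [Finite G] in
theorem ne_one_of_order {a : G} {n : ℕ} (h : orderOf a = n) (hn : n ≠ 1) : a ≠ 1 := fun e => by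
  rw [e, orderOf_one] at h; exact hn h.symm

omit [Finite G] in
theorem order_two_of {a : G} (h : a * a = 1) (hne : a ≠ 1) : orderOf a = 2 :=
  orderOf_eq_prime (by rw [pow_two, h]) hne

omit [Finite G] in
theorem pow_three_of {x : G} (h : orderOf x = 3) : x ^ 3 = 1 := by
  rw [← h, pow_orderOf_eq_one]

omit [Finite G] in
theorem pow_mod_three {x : G} (h : orderOf x = 3) (i : ℕ) : x ^ i = x ^ (i % 3) := by
  conv_lhs => rw [← pow_mod_orderOf, h]

/-- Orbit counting for conjugation. -/
theorem orbit_card (A : Subgroup G) (t : G) :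
    Nat.card ↥(A ⊓ Subgroup.centralizer ({t} : Set G)) *
      Nat.card {w : G // ∃ a ∈ A, a * t * a⁻¹ = w} = Nat.card A := by
  set K := (Subgroup.centralizer ({t} : Set G)).subgroupOf A with hK
  have e1 : Nat.card K = Nat.card ↥(A ⊓ Subgroup.centralizer ({t} : Set G)) := by
    rw [hK, ← Subgroup.card_map_of_injective (K := (Subgroup.centralizer ({t} : Set G)).subgroupOf A)
      A.subtype_injective, Subgroup.subgroupOf_map_subtype, inf_comm]
  have hf : ∀ a b : A, a⁻¹ * b ∈ K ↔ (a : G) * t * (a : G)⁻¹ = b * t * (b : G)⁻¹ := by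
    intro a b
    rw [hK, Subgroup.mem_subgroupOf, mem_cent]
    push_cast
    constructor
    · intro h
      calc (a : G) * t * (a : G)⁻¹ = a * (t * ((a : G)⁻¹ * b)) * (b : G)⁻¹ := by group
        _ = b * t * (b : G)⁻¹ := by rw [← h]; group
    · intro h
      calc (a : G)⁻¹ * b * t = (a : G)⁻¹ * (b * t * (b : G)⁻¹) * b := by group
        _ = t * ((a : G)⁻¹ * b) := by rw [← h]; group
  have e2 : Nat.card (A ⧸ K) = Nat.card {w : G // ∃ a ∈ A, a * t * a⁻¹ = w} := by
    refine Nat.card_eq_of_bijective (Quotient.lift (fun a : A =>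
      (⟨(a : G) * t * (a : G)⁻¹, a, a.2, rfl⟩ : {w : G // ∃ a ∈ A, a * t * a⁻¹ = w}))
      fun a b h => Subtype.ext ((hf a b).1 (QuotientGroup.leftRel_apply.1 h))) ⟨?_, ?_⟩
    · intro q r
      induction q using Quotient.inductionOn with
      | _ a =>
        induction r using Quotient.inductionOn with
        | _ b =>
          intro h
          exact Quotient.sound (QuotientGroup.leftRel_apply.2 ((hf a b).2 (congrArg Subtype.val h)))
    · rintro ⟨w, a, ha, rfl⟩
      exact ⟨Quotient.mk'' ⟨a, ha⟩, rfl⟩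
  rw [← e1, ← e2, ← Subgroup.index_eq_card, Subgroup.card_mul_index]

/-- Two involutions centralised by an element of order three. -/
structure Trio (x t v : G) : Prop where
  hx : orderOf x = 3
  ht : orderOf t = 2
  hv : orderOf v = 2
  cxt : Commute x t
  cxv : Commute x v
  ne : t ≠ v

namespace Trio

variable {x t v : G} (hs : Setup G) (T : Trio x t v)

include hs T in
theorem facts : Commute t v ∧ orderOf (t * v) = 2 ∧
    ∀ w : G, orderOf w = 2 → Commute x w → w = t ∨ w = v ∨ w = t * v := by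
  classical
  haveI := Fintype.ofFinite G
  haveI : Fact (Nat.Prime 2) := ⟨Nat.prime_two⟩
  set C := Subgroup.centralizer ({x} : Set G) with hC
  obtain ⟨K, hK⟩ := Sylow.exists_subgroup_card_pow_prime 2 (n := 2) (G := C)
    (by rw [hC, hs.cent_three x T.hx]; norm_num)
  have hcom : ∀ k : K, Commute x ((k : C) : G) := fun k => (mem_cent.1 (k : C).2).symm
  have hsq : ∀ k : K, ((k : C) : G) * ((k : C) : G) = 1 := by
    intro k
    have h4 : ((k : C) : G) ^ 4 = 1 := by
      have h := pow_card_eq_one' (x := k)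
      rw [hK] at h
      exact_mod_cast congrArg (fun a : K => ((a : C) : G)) h
    rcases (Nat.dvd_prime_pow Nat.prime_two (m := 2)).1 (orderOf_dvd_of_pow_eq_one h4) with
      ⟨i, hi, e⟩
    interval_cases i
    · rw [pow_zero, orderOf_eq_one_iff] at e; rw [e, one_mul]
    · exact sq_of_order_two (by rw [e]; rfl)
    · exfalso
      refine hs.no_twelve (x * ((k : C) : G)) ?_
      rw [(hcom k).orderOf_mul_eq_mul_orderOf_of_coprime (by rw [T.hx, e]; norm_num), T.hx, e]
      norm_num
  let f : {k : K // k ≠ 1} → {w : G // orderOf w = 2 ∧ Commute x w} := fun k =>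
    ⟨((k.1 : C) : G), order_two_of (hsq k.1) (fun e => k.2 (Subtype.ext (Subtype.ext e))), hcom k.1⟩
  have hf : Function.Bijective f := by
    rw [Nat.bijective_iff_injective_and_card]
    refine ⟨fun a b e => Subtype.ext (Subtype.ext (Subtype.ext (congrArg (fun w => (w.1 : G)) e))), ?_⟩
    rw [hs.three_invol x T.hx, Nat.card_eq_fintype_card, Fintype.card_subtype_compl,
      Fintype.card_subtype_eq, ← Nat.card_eq_fintype_card, hK]
    norm_num
  have hin : ∀ w : G, orderOf w = 2 → Commute x w → ∃ k : K, ((k : C) : G) = w := by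
    intro w hw hxw
    obtain ⟨k, hk⟩ := hf.2 ⟨w, hw, hxw⟩
    exact ⟨k.1, congrArg Subtype.val hk⟩
  obtain ⟨a, ha⟩ := hin t T.ht T.cxt
  obtain ⟨b, hb⟩ := hin v T.hv T.cxv
  have hab : ((a * b : K) : C) = (a : C) * b := rfl
  have hcomm : Commute t v := by
    have h1 := hsq (a * b)
    rw [hab, Subgroup.coe_mul, ha, hb] at h1
    have : t * v = (t * v)⁻¹ := eq_inv_of_mul_eq_one_left h1
    rw [mul_inv_rev, inv_of_order_two T.ht, inv_of_order_two T.hv] at this
    exact this
  have htv : orderOf (t * v) = 2 := by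
    refine order_two_of ?_ ?_
    · have h1 := hsq (a * b)
      rwa [hab, Subgroup.coe_mul, ha, hb] at h1
    · intro e
      exact T.ne (by rw [eq_inv_of_mul_eq_one_left e, inv_of_order_two T.hv])
  refine ⟨hcomm, htv, fun w hw hxw => ?_⟩
  by_contra hne
  push Not at hne
  obtain ⟨c, hc⟩ := hin w hw hxw
  have hval : ∀ p q : K, p = q → ((p : C) : G) = ((q : C) : G) := fun p q e => by rw [e]
  have hcard : ({1, a, b, a * b, c} : Finset K).card = 5 := by
    have n1 : ((1 : K) : C).1 = (1 : G) := rfl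
    have n2 : ((a * b : K) : C).1 = t * v := by rw [hab, Subgroup.coe_mul, ha, hb]
    have t1 := ne_one_of_order T.ht (by norm_num)
    have v1 := ne_one_of_order T.hv (by norm_num)
    have w1 := ne_one_of_order hw (by norm_num)
    have tv1 := ne_one_of_order htv (by norm_num)
    have e1 : a ≠ 1 := fun e => t1 (by rw [← ha, hval _ _ e]; exact n1)
    have e2 : b ≠ 1 := fun e => v1 (by rw [← hb, hval _ _ e]; exact n1)
    have e3 : a * b ≠ 1 := fun e => tv1 (by rw [← n2, hval _ _ e]; exact n1)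
    have e4 : c ≠ 1 := fun e => w1 (by rw [← hc, hval _ _ e]; exact n1)
    have e5 : a ≠ b := fun e => T.ne (by rw [← ha, ← hb, e])
    have e6 : a ≠ a * b := fun e => v1 (by
      have := hval _ _ e; rw [ha] at this; rw [n2] at this; simpa using this.symm)
    have e7 : b ≠ a * b := fun e => t1 (by
      have := hval _ _ e; rw [hb] at this; rw [n2] at this; simpa using this.symm)
    have e8 : a ≠ c := fun e => hne.1 (by rw [← ha, ← hc, e])
    have e9 : b ≠ c := fun e => hne.2.1 (by rw [← hb, ← hc, e])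
    have e10 : a * b ≠ c := fun e => hne.2.2 (by rw [← n2, ← hc, e])
    simp [e1.symm, e2.symm, e3.symm, e4.symm, e5, e6, e7, e8, e9, e10]
  have := Finset.card_le_univ ({1, a, b, a * b, c} : Finset K)
  rw [hcard, ← Nat.card_eq_fintype_card, hK] at this
  norm_num at this

include hs T in
theorem comm : Commute t v := (T.facts hs).1

include hs T in
theorem htv : orderOf (t * v) = 2 := (T.facts hs).2.1

include hs T in
theorem all {w : G} (hw : orderOf w = 2) (hxw : Commute x w) : w = t ∨ w = v ∨ w = t * v :=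
  (T.facts hs).2.2 w hw hxw

include T in
omit [Finite G] in
theorem swap : Trio x v t := ⟨T.hx, T.hv, T.ht, T.cxv, T.cxt, T.ne.symm⟩

include hs T in
theorem third : Trio x t (t * v) :=
  ⟨T.hx, T.ht, T.htv hs, T.cxt, T.cxt.mul_right T.cxv, fun e =>
    ne_one_of_order T.hv (by norm_num) (by simpa using e.symm)⟩

include hs T in
theorem rot : Trio x v (t * v) :=
  ⟨T.hx, T.hv, T.htv hs, T.cxv, T.cxt.mul_right T.cxv, fun e =>
    ne_one_of_order T.ht (by norm_num) (by simpa using e.symm)⟩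

include hs T in
theorem orbit_t : Nat.card {w : G // ∃ a ∈ Subgroup.centralizer ({x} : Set G),
    a * t * a⁻¹ = w} = 3 := by
  rw [← hs.three_invol x T.hx]
  refine Nat.card_congr (Equiv.subtypeEquivRight fun w => ⟨?_, ?_⟩)
  · rintro ⟨a, ha, rfl⟩
    have e : a * t * a⁻¹ = MulAut.conj a t := rfl
    refine ⟨by rw [e, MulEquiv.orderOf_eq]; exact T.ht, ?_⟩
    have hax : Commute x a := (mem_cent.1 ha).symm
    exact (hax.mul_right T.cxt).mul_right hax.inv_right
  · rintro ⟨hw, hxw⟩
    obtain ⟨z, hz, e⟩ := hs.three_fuse x t w T.hx T.ht hw T.cxt hxw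
    exact ⟨z, mem_cent.2 hz, e⟩

include hs T in
theorem card_fix :
    Nat.card ↥(Subgroup.centralizer ({x} : Set G) ⊓ Subgroup.centralizer ({t} : Set G)) = 12 := by
  have h := orbit_card (Subgroup.centralizer ({x} : Set G)) t
  rw [T.orbit_t hs, hs.cent_three x T.hx] at h
  omega

include hs T in
theorem mem_fix {a : G} (hax : Commute a x) (hat : Commute a t) :
    ∃ i : Fin 3, ∃ w ∈ ({1, t, v, t * v} : Set G), a = x ^ (i : ℕ) * w := by
  classical
  let wd : Fin 4 → G := ![1, t, v, t * v]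
  have hwc : ∀ j, Commute x (wd j) ∧ Commute t (wd j) ∧ wd j * wd j = 1 := by
    intro j
    fin_cases j
    · exact ⟨Commute.one_right _, Commute.one_right _, one_mul _⟩
    · exact ⟨T.cxt, Commute.refl t, sq_of_order_two T.ht⟩
    · exact ⟨T.cxv, T.comm hs, sq_of_order_two T.hv⟩
    · exact ⟨T.cxt.mul_right T.cxv, (Commute.refl t).mul_right (T.comm hs),
        sq_of_order_two (T.htv hs)⟩
  let f : Fin 3 × Fin 4 →
      ↥(Subgroup.centralizer ({x} : Set G) ⊓ Subgroup.centralizer ({t} : Set G)) := fun p =>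
    ⟨x ^ (p.1 : ℕ) * wd p.2, mem_cent.2 (((Commute.refl x).pow_left _).mul_left (hwc p.2).1.symm),
      mem_cent.2 ((T.cxt.pow_left _).mul_left (hwc p.2).2.1.symm)⟩
  have hinj : Function.Injective f := by
    rintro ⟨i, j⟩ ⟨k, l⟩ h
    have e : x ^ (i : ℕ) * wd j = x ^ (k : ℕ) * wd l := congrArg Subtype.val h
    have hp : ∀ (m : ℕ) (q : Fin 4), (x ^ m * wd q) ^ 4 = x ^ m := by
      intro m q
      rw [((hwc q).1.pow_left m).mul_pow, show 4 = 2 * 2 from rfl, pow_mul (wd q), pow_two (wd q),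
        (hwc q).2.2, one_pow, mul_one, ← pow_mul,
        show m * (2 * 2) = 3 * m + m by ring, pow_add, pow_mul, pow_three_of T.hx, one_pow, one_mul]
    have hik : i = k := by
      have h4 := congrArg (· ^ 4) e
      simp only [hp] at h4
      apply Fin.ext
      have := pow_eq_pow_iff_modEq.1 h4
      rw [T.hx] at this
      have h1 := i.2; have h2 := k.2
      unfold Nat.ModEq at this
      omega
    subst hik
    have e' : wd j = wd l := mul_left_cancel e
    have t1 := ne_one_of_order T.ht (by norm_num)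
    have v1 := ne_one_of_order T.hv (by norm_num)
    have tv1 := ne_one_of_order (T.htv hs) (by norm_num)
    have hne := T.ne
    have a1 : t ≠ t * v := fun e => v1 (by simpa using e.symm)
    have a2 : v ≠ t * v := fun e => t1 (by simpa using e.symm)
    have hlist : ∀ p q : Fin 4, p ≠ q → wd p ≠ wd q := by
      intro p q hpq
      fin_cases p <;> fin_cases q <;>
        first
          | exact absurd rfl hpq
          | exact t1 | exact t1.symm | exact v1 | exact v1.symm | exact tv1 | exact tv1.symm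
          | exact hne | exact hne.symm | exact a1 | exact a1.symm | exact a2 | exact a2.symm
    refine Prod.ext rfl ?_
    by_contra hjl
    exact hlist j l hjl e'
  have hbij : Function.Bijective f := by
    rw [Nat.bijective_iff_injective_and_card]
    exact ⟨hinj, by rw [T.card_fix hs]; simp⟩
  obtain ⟨⟨i, j⟩, hij⟩ := hbij.2 ⟨a, mem_cent.2 hax, mem_cent.2 hat⟩
  refine ⟨i, wd j, ?_, (congrArg Subtype.val hij).symm⟩
  fin_cases j <;> simp [wd]

include hs T in
theorem fix_all {a : G} (hax : Commute a x) (hat : Commute a t) : Commute a v := by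
  obtain ⟨i, w, hw, rfl⟩ := T.mem_fix hs hax hat
  refine (T.cxv.pow_left _).mul_left ?_
  simp only [Set.mem_insert_iff, Set.mem_singleton_iff] at hw
  rcases hw with rfl | rfl | rfl | rfl
  · exact Commute.one_left _
  · exact T.comm hs
  · exact Commute.refl _
  · exact (T.comm hs).mul_left (Commute.refl _)

include hs T in
theorem cycle {z : G} (hzx : Commute z x) (hzt : z * t * z⁻¹ = v) :
    z * v * z⁻¹ = t * v ∧ z * (t * v) * z⁻¹ = t ∧ orderOf z = 3 := by
  have hconj : ∀ a b : G, z * (a * b) * z⁻¹ = (z * a * z⁻¹) * (z * b * z⁻¹) := fun a b => by group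
  have hzv2 : orderOf (z * v * z⁻¹) = 2 := by
    rw [show z * v * z⁻¹ = MulAut.conj z v from rfl, MulEquiv.orderOf_eq]; exact T.hv
  have hzvx : Commute x (z * v * z⁻¹) := (hzx.symm.mul_right T.cxv).mul_right hzx.symm.inv_right
  have h1 : z * v * z⁻¹ = t * v := by
    rcases T.all hs hzv2 hzvx with e | e | e
    · exfalso
      have h3 : z * (t * v) * z⁻¹ = t * v := by rw [hconj, hzt, e, (T.comm hs).eq]
      have hc : Commute z (t * v) := mul_inv_eq_iff_eq_mul.1 h3
      have hz : Commute z t := by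
        have := ((T.third hs).swap.fix_all hs hzx hc)
        exact this
      have : z * t * z⁻¹ = t := mul_inv_eq_iff_eq_mul.2 hz
      exact T.ne (this.symm.trans hzt)
    · exfalso
      have : z * v * z⁻¹ = z * t * z⁻¹ := e.trans hzt.symm
      exact T.ne (mul_left_cancel (mul_right_cancel this)).symm
    · exact e
  have h2 : z * (t * v) * z⁻¹ = t := by
    rw [hconj, hzt, h1, (T.comm hs).eq, ← mul_assoc, sq_of_order_two T.hv, one_mul]
  refine ⟨h1, h2, ?_⟩
  have h3t : Commute (z ^ 3) t := by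
    refine mul_inv_eq_iff_eq_mul.1 ?_
    calc z ^ 3 * t * (z ^ 3)⁻¹ = z * (z * (z * t * z⁻¹) * z⁻¹) * z⁻¹ := by
          simp only [pow_succ, pow_zero, one_mul]; group
      _ = t := by rw [hzt, h1, h2]
  obtain ⟨i, w, hw, e⟩ := T.mem_fix hs (hzx.pow_left 3) h3t
  have hzw : z * w * z⁻¹ = w := by
    have h : z * z ^ 3 * z⁻¹ = z ^ 3 := by group
    rw [e] at h
    have hx : z * x ^ (i : ℕ) * z⁻¹ = x ^ (i : ℕ) := mul_inv_eq_iff_eq_mul.2 (hzx.pow_right _)
    rw [hconj, hx] at h
    exact mul_left_cancel h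
  have hw1 : w = 1 := by
    simp only [Set.mem_insert_iff, Set.mem_singleton_iff] at hw
    rcases hw with rfl | rfl | rfl | rfl
    · rfl
    · exact absurd (hzw.symm.trans hzt) T.ne
    · exact absurd (hzw.symm.trans h1) (T.rot hs).ne
    · exact absurd (h2.symm.trans hzw) (T.third hs).ne
  have h9 : z ^ 9 = 1 := by
    rw [show 9 = 3 * 3 from rfl, pow_mul, e, hw1, mul_one, ← pow_mul,
      mul_comm, pow_mul, pow_three_of T.hx, one_pow]
  rcases (Nat.dvd_prime_pow Nat.prime_three (m := 2)).1 (orderOf_dvd_of_pow_eq_one h9) with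
    ⟨k, hk, ek⟩
  interval_cases k
  · rw [pow_zero, orderOf_eq_one_iff] at ek
    exact absurd (by simpa [ek] using hzt) T.ne
  · exact ek
  · exact absurd ek (hs.no_nine z)

include hs T in
/-- An element of order three commuting with `x` and permuting the three involutions. -/
theorem exists_y : ∃ y : G, orderOf y = 3 ∧ Commute y x ∧ y * t * y⁻¹ = v ∧
    y * v * y⁻¹ = t * v ∧ y * (t * v) * y⁻¹ = t := by
  obtain ⟨y, hy, e⟩ := hs.three_fuse x t v T.hx T.ht T.hv T.cxt T.cxv
  obtain ⟨h1, h2, h3⟩ := T.cycle hs hy e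
  exact ⟨y, h3, hy, e, h1, h2⟩

include hs T in
/-- Elements of the centraliser of `x` commute modulo the stabiliser of the involutions. -/
theorem commutator_fix {a b : G} (ha : Commute a x) (hb : Commute b x) :
    Commute (a * b * a⁻¹ * b⁻¹) t := by
  haveI : Fact (Nat.Prime 3) := ⟨Nat.prime_three⟩
  set C := Subgroup.centralizer ({x} : Set G) with hC
  set K := (Subgroup.centralizer ({t} : Set G)).subgroupOf C with hK
  have hn : K.Normal := by
    refine ⟨fun k hk g => ?_⟩
    rw [hK, Subgroup.mem_subgroupOf, mem_cent] at hk ⊢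
    push_cast
    have hgx : Commute (g : G) x := mem_cent.1 g.2
    have hkx : Commute (k : G) x := mem_cent.1 k.2
    have hw2 : orderOf ((g : G)⁻¹ * t * (g : G)⁻¹⁻¹) = 2 := by
      rw [show (g : G)⁻¹ * t * (g : G)⁻¹⁻¹ = MulAut.conj (g : G)⁻¹ t from rfl, MulEquiv.orderOf_eq]
      exact T.ht
    have hwx : Commute x ((g : G)⁻¹ * t * (g : G)⁻¹⁻¹) :=
      (hgx.symm.inv_right.mul_right T.cxt).mul_right hgx.symm.inv_right.inv_right
    have hkv : Commute (k : G) v := T.fix_all hs hkx hk
    have hkw : Commute (k : G) ((g : G)⁻¹ * t * (g : G)⁻¹⁻¹) := by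
      rcases T.all hs hw2 hwx with e | e | e <;> rw [e]
      · exact hk
      · exact hkv
      · exact Commute.mul_right hk hkv
    calc (g : G) * k * (g : G)⁻¹ * t = g * (k * ((g : G)⁻¹ * t * (g : G)⁻¹⁻¹)) * (g : G)⁻¹ := by
          group
      _ = t * (g * k * (g : G)⁻¹) := by rw [hkw.eq]; group
  have hidx : Nat.card (C ⧸ K) = 3 := by
    have h := Subgroup.card_mul_index K
    rw [← Subgroup.index_eq_card]
    rw [hK, ← Subgroup.card_map_of_injective (K := (Subgroup.centralizer ({t} : Set G)).subgroupOf C)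
      C.subtype_injective, Subgroup.subgroupOf_map_subtype, inf_comm, hC, T.card_fix hs,
      hs.cent_three x T.hx] at h
    rw [hK, hC]
    omega
  haveI := isCyclic_of_prime_card hidx
  let a' : C := ⟨a, mem_cent.2 ha⟩
  let b' : C := ⟨b, mem_cent.2 hb⟩
  have hm : a' * b' * a'⁻¹ * b'⁻¹ ∈ K := by
    rw [← QuotientGroup.eq_one_iff]
    have hcm := IsCyclic.commGroup.mul_comm (a' : C ⧸ K) (b' : C ⧸ K)
    simp only [QuotientGroup.mk_mul, QuotientGroup.mk_inv]
    rw [hcm]
    group
  exact mem_cent.1 (Subgroup.mem_subgroupOf.1 hm)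

include hs T in
theorem no_inv {s : G} (hsx : s * x * s⁻¹ = x⁻¹) (hst : Commute s t) (hsv : Commute s v) :
    False := by
  obtain ⟨y, hy, hyx, yt, yv, ytv⟩ := T.exists_y hs
  have hkx : Commute (s * y * s⁻¹ * y⁻¹) x := by
    refine Commute.mul_left ?_ hyx.inv_left
    have h : s * y * s⁻¹ * x⁻¹ * (s * y * s⁻¹)⁻¹ = x⁻¹ := by
      rw [← hsx, show s * y * s⁻¹ * (s * x * s⁻¹) * (s * y * s⁻¹)⁻¹ = s * (y * x * y⁻¹) * s⁻¹ by
        group, show y * x * y⁻¹ = x from mul_inv_eq_iff_eq_mul.2 hyx]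
    have h' : Commute (s * y * s⁻¹) x⁻¹ := mul_inv_eq_iff_eq_mul.1 h
    simpa using h'.inv_right
  have hkt : Commute (s * y * s⁻¹ * y⁻¹) t := by
    refine mul_inv_eq_iff_eq_mul.1 ?_
    have e1 : y⁻¹ * t * y = t * v := by
      conv_lhs => rw [← ytv]
      group
    have e2 : s⁻¹ * (t * v) * s = t * v := by
      rw [mul_assoc, ← (hst.mul_right hsv).eq, inv_mul_cancel_left]
    calc s * y * s⁻¹ * y⁻¹ * t * (s * y * s⁻¹ * y⁻¹)⁻¹
        = s * (y * (s⁻¹ * (y⁻¹ * t * y) * s) * y⁻¹) * s⁻¹ := by group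
      _ = t := by rw [e1, e2, ytv]; exact mul_inv_eq_iff_eq_mul.2 hst
  obtain ⟨i, w, hw, hk⟩ := T.mem_fix hs hkx hkt
  set y' := x ^ (2 * (i : ℕ)) * y with hy'
  have hy'x : Commute y' x := ((Commute.refl x).pow_left _).mul_left hyx
  have hwx : Commute x w := by
    simp only [Set.mem_insert_iff, Set.mem_singleton_iff] at hw
    rcases hw with rfl | rfl | rfl | rfl
    exacts [Commute.one_right _, T.cxt, T.cxv, T.cxt.mul_right T.cxv]
  have hsy' : s * y' * s⁻¹ = w * y' := by
    have e1 : s * x ^ (2 * (i : ℕ)) * s⁻¹ = x ^ (i : ℕ) := by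
      rw [← conj_pow, hsx, inv_pow, inv_eq_iff_mul_eq_one, ← pow_add,
        show 2 * (i : ℕ) + i = 3 * i by ring, pow_mul, pow_three_of T.hx, one_pow]
    have e2 : s * y * s⁻¹ = x ^ (i : ℕ) * w * y := by rw [← hk]; group
    calc s * y' * s⁻¹ = (s * x ^ (2 * (i : ℕ)) * s⁻¹) * (s * y * s⁻¹) := by rw [hy']; group
      _ = (x ^ (i : ℕ) * x ^ (i : ℕ)) * (w * y) := by rw [e1, e2]; group
      _ = x ^ (2 * (i : ℕ)) * w * y := by rw [← pow_add, two_mul]; group
      _ = w * y' := by rw [(hwx.pow_left _).eq, hy', mul_assoc]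
  have hy't : y' * t * y'⁻¹ = v := by
    rw [hy', show x ^ (2 * (i : ℕ)) * y * t * (x ^ (2 * (i : ℕ)) * y)⁻¹ =
      x ^ (2 * (i : ℕ)) * (y * t * y⁻¹) * (x ^ (2 * (i : ℕ)))⁻¹ by group, yt]
    exact mul_inv_eq_iff_eq_mul.2 (T.cxv.pow_left _)
  obtain ⟨y'v, y'tv, hy'3⟩ := T.cycle hs hy'x hy't
  -- an element `e` of the four group with `(e * s)` centralising `y'`
  obtain ⟨e, hex, he⟩ : ∃ e : G, Commute e x ∧ e * (w * y') = y' * e := by
    have mv : ∀ a b : G, y' * a * y'⁻¹ = b → y' * a = b * y' := fun a b h =>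
      mul_inv_eq_iff_eq_mul.1 h
    simp only [Set.mem_insert_iff, Set.mem_singleton_iff] at hw
    rcases hw with e | e | e | e <;> rw [e]
    · exact ⟨1, Commute.one_left _, by simp⟩
    · refine ⟨v, T.cxv.symm, ?_⟩
      rw [mv v (t * v) y'v, ← mul_assoc, (T.comm hs).eq]
    · refine ⟨t * v, (T.cxt.mul_right T.cxv).symm, ?_⟩
      rw [mv (t * v) t y'tv, ← mul_assoc, mul_assoc t v v, sq_of_order_two T.hv, mul_one]
    · refine ⟨t, T.cxt.symm, ?_⟩
      clear_value y'
      rw [mv t v hy't, ← mul_assoc, ← mul_assoc, sq_of_order_two T.ht, one_mul]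
  have hs'y : Commute (e * s) y' := by
    calc e * s * y' = e * ((s * y' * s⁻¹)) * s := by group
      _ = e * (w * y') * s := by rw [hsy']
      _ = y' * (e * s) := by rw [he]; group
  have hs'x : e * s * x * (e * s)⁻¹ = x⁻¹ := by
    rw [show e * s * x * (e * s)⁻¹ = e * (s * x * s⁻¹) * e⁻¹ by group, hsx]
    exact mul_inv_eq_iff_eq_mul.2 hex.inv_right
  haveI : Fact (Nat.Prime 3) := ⟨Nat.prime_three⟩
  obtain ⟨⟨t', ht', hyt'⟩, ⟨v', hv', hyv'⟩, hne⟩ : ∃ a b :
      {w : G // orderOf w = 2 ∧ Commute y' w}, a ≠ b := by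
    classical
    have h3 := hs.three_invol y' hy'3
    haveI := Fintype.ofFinite {w : G // orderOf w = 2 ∧ Commute y' w}
    rw [Nat.card_eq_fintype_card] at h3
    exact Fintype.exists_pair_of_one_lt_card (by omega)
  have T' : Trio y' t' v' := ⟨hy'3, ht', hv', hyt', hyv', fun e => hne (Subtype.ext e)⟩
  have hcf := T'.commutator_fix hs hs'y hy'x.symm
  have hxx : e * s * x * (e * s)⁻¹ * x⁻¹ = x := by
    rw [hs'x, ← mul_inv_rev]
    exact inv_eq_of_mul_eq_one_right (by
      rw [← pow_three_of T.hx]; simp only [pow_succ, pow_zero, one_mul, mul_assoc])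
  rw [hxx] at hcf
  obtain ⟨j, w', hw', hj⟩ := T'.mem_fix hs hy'x.symm hcf
  have hw'2 : w' * w' = 1 ∧ Commute y' w' := by
    simp only [Set.mem_insert_iff, Set.mem_singleton_iff] at hw'
    rcases hw' with rfl | rfl | rfl | rfl
    exacts [⟨one_mul _, Commute.one_right _⟩, ⟨sq_of_order_two T'.ht, T'.cxt⟩,
      ⟨sq_of_order_two T'.hv, T'.cxv⟩, ⟨sq_of_order_two (T'.htv hs), T'.cxt.mul_right T'.cxv⟩]
  have h4 : x = y' ^ (j : ℕ) := by
    have := congrArg (· ^ 4) hj
    rw [(hw'2.2.pow_left _).mul_pow, show 4 = 2 * 2 from rfl, pow_mul w', pow_two w', hw'2.1,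
      one_pow, mul_one] at this
    rw [show 2 * 2 = 3 + 1 from rfl, pow_succ, pow_three_of T.hx, one_mul, pow_succ, ← pow_mul,
      mul_comm (j : ℕ) 3, pow_mul, pow_three_of T'.hx, one_pow, one_mul] at this
    exact this
  have hjne : (j : ℕ) ≠ 0 := fun e => ne_one_of_order T.hx (by norm_num) (by rw [h4, e, pow_zero])
  have hyj : ∃ k : ℕ, y' = x ^ k := by
    refine ⟨(j : ℕ), ?_⟩
    rw [h4, ← pow_mul, pow_mod_three T'.hx]
    have := j.2
    have := hjne
    interval_cases (j : ℕ) <;> first | omega | simp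
  obtain ⟨k, hk'⟩ := hyj
  apply T.ne
  rw [← hy't, hk']
  exact (mul_inv_eq_iff_eq_mul.2 (T.cxt.pow_left k)).symm

include hs T in
/-- Elements of order three in the centraliser of `t` are conjugate there. -/
theorem conj_three {x' : G} (hx' : orderOf x' = 3) (hxt : Commute x' t) :
    ∃ c : G, Commute c t ∧ c * x * c⁻¹ = x' := by
  classical
  have h := orbit_card (Subgroup.centralizer ({t} : Set G)) x
  rw [inf_comm, T.card_fix hs, hs.cent_invol t T.ht] at h
  let f : {w : G // ∃ a ∈ Subgroup.centralizer ({t} : Set G), a * x * a⁻¹ = w} →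
      {w : G // orderOf w = 3 ∧ Commute w t} := fun w => ⟨w.1, by
    obtain ⟨a, ha, e⟩ := w.2
    have hat : Commute a t := mem_cent.1 ha
    refine ⟨?_, ?_⟩
    · rw [← e, show a * x * a⁻¹ = MulAut.conj a x from rfl, MulEquiv.orderOf_eq]; exact T.hx
    · rw [← e]; exact (hat.mul_left T.cxt).mul_left hat.inv_left⟩
  have hf : Function.Bijective f := by
    rw [Nat.bijective_iff_injective_and_card]
    refine ⟨fun a b e => Subtype.ext (congrArg (fun w => (w.1 : G)) e), ?_⟩
    rw [hs.invol_three t T.ht]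
    omega
  obtain ⟨⟨w, a, ha, e⟩, hw⟩ := hf.2 ⟨x', hx', hxt⟩
  refine ⟨a, mem_cent.1 ha, ?_⟩
  rw [e]
  exact congrArg Subtype.val hw

include hs T in
/-- An element of the centraliser of `t` inverting `x` exchanges the other two involutions. -/
theorem exists_s : ∃ s : G, Commute s t ∧ s * x * s⁻¹ = x⁻¹ ∧ s * v * s⁻¹ = t * v ∧
    s * (t * v) * s⁻¹ = v := by
  obtain ⟨s, hst, hsx⟩ := T.conj_three hs (x' := x⁻¹) (by rw [orderOf_inv]; exact T.hx)
    T.cxt.inv_left
  have hconj : ∀ a b : G, s * (a * b) * s⁻¹ = (s * a * s⁻¹) * (s * b * s⁻¹) := fun a b => by group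
  have hv2 : orderOf (s * v * s⁻¹) = 2 := by
    rw [show s * v * s⁻¹ = MulAut.conj s v from rfl, MulEquiv.orderOf_eq]; exact T.hv
  have hvx : Commute x (s * v * s⁻¹) := by
    have h1 : Commute (s * x * s⁻¹) (s * v * s⁻¹) := by
      show _ = _
      rw [← hconj, ← hconj, T.cxv.eq]
    rw [hsx] at h1
    simpa using h1.inv_left
  have hst' : s * t * s⁻¹ = t := mul_inv_eq_iff_eq_mul.2 hst
  have e1 : s * v * s⁻¹ = t * v := by
    rcases T.all hs hv2 hvx with e | e | e
    · exact absurd (mul_left_cancel (mul_right_cancel (e.trans hst'.symm))) T.ne.symm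
    · exact absurd (mul_inv_eq_iff_eq_mul.1 e) (fun h => T.no_inv hs hsx hst h)
    · exact e
  refine ⟨s, hst, hsx, e1, ?_⟩
  rw [hconj, hst', e1, ← mul_assoc, sq_of_order_two T.ht, one_mul]

include hs T in
/-- The centraliser of the four group has a normal `3`-complement. -/
theorem exists_R : ∃ R : Subgroup G,
    (∀ h : G, h ∈ R ↔ Commute h t ∧ Commute h v ∧ h ^ 128 = 1) ∧
    3 * Nat.card R =
      Nat.card ↥(Subgroup.centralizer ({t} : Set G) ⊓ Subgroup.centralizer ({v} : Set G)) := by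
  classical
  haveI : Fact (Nat.Prime 3) := ⟨Nat.prime_three⟩
  set H := Subgroup.centralizer ({t} : Set G) ⊓ Subgroup.centralizer ({v} : Set G) with hH
  have hdvd : Nat.card H ∣ 384 := by
    rw [← hs.cent_invol t T.ht]; exact Subgroup.card_dvd_of_le inf_le_left
  let xH : H := ⟨x, mem_cent.2 T.cxt, mem_cent.2 T.cxv⟩
  have hxH : orderOf xH = 3 := by rw [← Subgroup.orderOf_coe]; exact T.hx
  obtain ⟨P, hP⟩ := (IsPGroup.of_card (p := 3) (n := 1)
    (show Nat.card (Subgroup.zpowers xH) = 3 ^ 1 by rw [Nat.card_zpowers, hxH]; rfl)).exists_le_sylow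
  have hPc : Nat.card (P : Subgroup H) = 3 := by
    obtain ⟨n, hn⟩ := IsPGroup.iff_card.1 P.2
    have h1 : 3 ∣ Nat.card (P : Subgroup H) := by
      have h := Subgroup.card_dvd_of_le hP
      rwa [Nat.card_zpowers, hxH] at h
    have h2 : 3 ^ n ∣ 384 := hn ▸ (Subgroup.card_subgroup_dvd_card _).trans hdvd
    rw [hn] at h1 ⊢
    have : n ≤ 1 := by
      by_contra hlt
      exact absurd ((pow_dvd_pow 3 (show 2 ≤ n by omega)).trans h2) (by norm_num)
    interval_cases n
    · norm_num at h1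
    · rfl
  have hPz : (P : Subgroup H) = Subgroup.zpowers xH :=
    (Subgroup.eq_of_le_of_card_ge hP (by rw [hPc, Nat.card_zpowers, hxH])).symm
  have hN : Subgroup.normalizer ((P : Subgroup H) : Set H) ≤
      Subgroup.centralizer ((P : Subgroup H) : Set H) := by
    intro a ha
    have hmem : a * xH * a⁻¹ ∈ (P : Subgroup H) :=
      (Subgroup.mem_normalizer_iff.1 ha xH).1 (hP (Subgroup.mem_zpowers _))
    rw [hPz] at hmem
    obtain ⟨k, hk, e⟩ : ∃ k < 3, xH ^ k = a * xH * a⁻¹ := by
      obtain ⟨m, hm⟩ := (mem_powers_iff_mem_zpowers (x := xH)).2 hmem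
      exact ⟨m % 3, Nat.mod_lt _ (by norm_num), by rw [← hxH, pow_mod_orderOf]; exact hm⟩
    have hax : a * xH = xH * a := by
      interval_cases k
      · rw [pow_zero, eq_comm, conj_eq_one_iff] at e
        exact absurd (congrArg Subtype.val e) (ne_one_of_order T.hx (by norm_num))
      · rw [pow_one] at e
        exact mul_inv_eq_iff_eq_mul.1 e.symm
      · exfalso
        refine T.no_inv hs (s := (a : G)) ?_ (mem_cent.1 a.2.1) (mem_cent.1 a.2.2)
        have e' := congrArg Subtype.val e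
        push_cast at e'
        rw [← e']
        refine (inv_eq_of_mul_eq_one_right ?_).symm
        rw [← pow_succ']
        exact pow_three_of T.hx
    rw [Subgroup.mem_centralizer_iff]
    intro b hb
    rw [SetLike.mem_coe, hPz] at hb
    obtain ⟨m, rfl⟩ := Subgroup.mem_zpowers_iff.1 hb
    exact ((show Commute xH a from hax.symm).zpow_left m)
  set K := (MonoidHom.transferSylow P hN).ker with hK
  have hc := (MonoidHom.ker_transferSylow_isComplement' P hN).card_mul_card
  have hKdvd : Nat.card K ∣ 128 := by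
    have h1 : 3 * Nat.card K ∣ 384 := by rw [← hPc, mul_comm, hc]; exact hdvd
    exact Nat.dvd_of_mul_dvd_mul_left (by norm_num : 0 < 3) h1
  refine ⟨K.map H.subtype, fun h => ⟨?_, ?_⟩, ?_⟩
  · rintro ⟨k, hk, rfl⟩
    refine ⟨mem_cent.1 k.2.1, mem_cent.1 k.2.2, ?_⟩
    obtain ⟨m, hm⟩ := hKdvd
    have h1 : (⟨k, hk⟩ : K) ^ 128 = 1 := by
      conv_lhs => rw [hm, pow_mul, pow_card_eq_one', one_pow]
    have h2 := congrArg (fun a : K => ((a : H) : G)) h1
    simpa using h2
  · rintro ⟨h1, h2, h3⟩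
    refine ⟨⟨h, mem_cent.2 h1, mem_cent.2 h2⟩, ?_, rfl⟩
    show MonoidHom.transferSylow P hN _ = 1
    rw [← orderOf_eq_one_iff]
    have d1 := orderOf_dvd_of_pow_eq_one (n := 128)
      (show (MonoidHom.transferSylow P hN ⟨h, mem_cent.2 h1, mem_cent.2 h2⟩) ^ 128 = 1 by
        rw [← map_pow, show (⟨h, mem_cent.2 h1, mem_cent.2 h2⟩ : H) ^ 128 = 1 from
          Subtype.ext h3, map_one])
    have d2 := orderOf_dvd_natCard (G := (P : Subgroup H))
      (MonoidHom.transferSylow P hN ⟨h, mem_cent.2 h1, mem_cent.2 h2⟩)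
    rw [hPc] at d2
    exact Nat.eq_one_of_dvd_coprimes (by norm_num) d1 d2
  · rw [Subgroup.card_map_of_injective H.subtype_injective, ← hc, hPc, mul_comm]

end Trio

end CfsgLib.M22Count
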