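import Cfsg.Agent.M22Count.Defs
import Cfsg.Agent.M22Count.ModelSideData
import Cfsg.Agent.M12Count.M12Side
import Cfsg.Agent.Mathieu.FixList
import Cfsg.Agent.Mathieu.ClassFacts
import Cfsg.Agent.Mathieu.Classes

/-!
The element-order counts of the Mathieu group of degree 22.

The group is replaced by the stabiliser of the first two base points; by conjugation with the
stabiliser of the points already fixed, the count is reduced to four cosets of the stabiliser of
four points, each with 960 elements.
-/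

set_option autoImplicit false

namespace CfsgLib.M22Count

open Cfsg CfsgLib.Mathieu

/-- The tables of the chain of the large group. -/
def gens24 : List (List ℕ) := chain24.flatMap fun l => l.2.1

/-- The table of a word. -/
def wtab22 (w : List ℕ) : List ℕ := w.foldr (fun i r => fcomp (gens24.getD i idTab) r) idTab

theorem rep_wtab22 : ∀ w : List ℕ, Rep M24 (wtab22 w)
  | [] => ⟨1, M24.one_mem, toTab_one⟩
  | i :: w => by
    refine M12Count.rep_mul ?_ (rep_wtab22 w)
    by_cases hi : i < gens24.length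
    · rw [List.getD_eq_getElem?_getD, List.getElem?_eq_getElem hi]
      obtain ⟨l, hl, ht⟩ := List.mem_flatMap.1 (List.getElem_mem hi)
      exact rep_M24 (List.all_eq_true.1 (List.all_eq_true.1 chain24_in l hl) _ ht)
    · rw [List.getD_eq_getElem?_getD, List.getElem?_eq_none (by omega)]
      exact ⟨1, M24.one_mem, toTab_one⟩

theorem quadFix_check :
    (fixList4F.all fun t => app t 0 == 0 && app t 1 == 1 && app t 2 == 2 && app t 3 == 3) = true ∧
    (fixList4F.map fun t => app t 4 * 576 + app t 12 * 24 + app t 6).Nodup := by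
  decide +kernel

theorem quadFix_nodup : fixList4F.Nodup := List.Nodup.of_map _ quadFix_check.2

theorem ords22_check :
    fixList4F.map (fun t => M12Count.ordTab (fcomp (wtab22 quadWA) t)) = ordsA ∧
    fixList4F.map (fun t => M12Count.ordTab (fcomp (wtab22 quadWB) t)) = ordsB ∧
    fixList4F.map (fun t => M12Count.ordTab (fcomp (wtab22 quadWC) t)) = ordsC ∧
    fixList4F.map (fun t => M12Count.ordTab (fcomp (wtab22 quadWD) t)) = ordsD := by
  decide +kernel

/-- The elements of order `n` fixing the first two base points. -/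
noncomputable def ordSet22 (n : ℕ) : Finset (Equiv.Perm GolayPt) := by
  classical exact Finset.univ.filter fun g => g ∈ base7Fix 2 ∧ orderOf g = n

theorem mem_ordSet22 {n : ℕ} {g : Equiv.Perm GolayPt} :
    g ∈ ordSet22 n ↔ (g ∈ M24 ∧ g (i2p 0) = i2p 0 ∧ g (i2p 1) = i2p 1) ∧ orderOf g = n := by
  simp [ordSet22, mem_base7Fix, base7]

/-- The count in one coset of the stabiliser of four points. -/
theorem card_coset22 (n a b : ℕ) (w : List ℕ) (os : List ℕ)
    (hw : ([0, 1, 2, 3].map fun i => app (wtab22 w) i) = [0, 1, a, b])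
    (hos : fixList4F.map (fun t => M12Count.ordTab (fcomp (wtab22 w) t)) = os)
    (h0 : os.contains 0 = false) :
    (((ordSet22 n).filter fun g => g (i2p 2) = i2p a).filter fun g => g (i2p 3) = i2p b).card =
      os.count n := by
  classical
  obtain ⟨x, hx, hxw⟩ := rep_wtab22 w
  simp only [List.map_cons, List.map_nil, List.cons.injEq, and_true, ← hxw,
    app_toTab x 0 (by norm_num), app_toTab x 1 (by norm_num), app_toTab x 2 (by norm_num),
    app_toTab x 3 (by norm_num)] at hw
  obtain ⟨hw0, hw1, hwa, hwb⟩ := hw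
  have hx0 : x (i2p 0) = i2p 0 := (i2p_p2i _).symm.trans (congrArg i2p hw0)
  have hx1 : x (i2p 1) = i2p 1 := (i2p_p2i _).symm.trans (congrArg i2p hw1)
  have hxa : x (i2p 2) = i2p a := (i2p_p2i _).symm.trans (congrArg i2p hwa)
  have hxb : x (i2p 3) = i2p b := (i2p_p2i _).symm.trans (congrArg i2p hwb)
  have hord : ∀ y : Equiv.Perm GolayPt, toTab y ∈ fixList4F →
      orderOf (x * y) = M12Count.ordTab (fcomp (wtab22 w) (toTab y)) := by
    intro y hy
    have hmem : M12Count.ordTab (fcomp (wtab22 w) (toTab y)) ∈ os :=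
      hos ▸ List.mem_map.2 ⟨_, hy, rfl⟩
    rw [M12Count.orderOf_eq_ordTab, ← fcomp_toTab, hxw]
    rw [← fcomp_toTab, hxw]
    intro e
    rw [e] at hmem
    simp [hmem] at h0
  have hcount : os.count n =
      (fixList4F.filter fun t => M12Count.ordTab (fcomp (wtab22 w) t) == n).length := by
    rw [← hos, List.count, List.countP_map, List.countP_eq_length_filter]
    rfl
  rw [hcount, ← List.toFinset_card_of_nodup (quadFix_nodup.filter _)]
  refine Finset.card_bij (fun g _ => toTab (x⁻¹ * g)) ?_ ?_ ?_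
  · intro g hg
    simp only [Finset.mem_filter, mem_ordSet22] at hg
    obtain ⟨⟨⟨⟨hg, hg0, hg1⟩, hn⟩, ha⟩, hb⟩ := hg
    have hmem : x⁻¹ * g ∈ base7Fix 4 := by
      refine mem_base7Fix.2 ⟨mul_mem (inv_mem hx) hg, fun i hi => ?_⟩
      simp only [base7, List.take_succ_cons, List.take_zero, List.mem_cons, List.not_mem_nil,
        or_false] at hi
      rw [Equiv.Perm.mul_apply, Equiv.Perm.inv_eq_iff_eq]
      rcases hi with rfl | rfl | rfl | rfl
      · rw [hg0, hx0]
      · rw [hg1, hx1]
      · rw [ha, hxa]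
      · rw [hb, hxb]
    have hy : toTab (x⁻¹ * g) ∈ fixList4F := fixList4F_eq ▸ toTab_mem_fixList4 hmem
    have := hord _ hy
    rw [mul_inv_cancel_left, hn] at this
    simp [hy, ← this]
  · intro g _ g' _ e
    exact mul_left_cancel (toTab_injective e)
  · intro t ht
    simp only [List.mem_toFinset, List.mem_filter, beq_iff_eq] at ht
    obtain ⟨y, hy, rfl⟩ := rep_fixList4 t (fixList4F_eq ▸ ht.1)
    obtain ⟨hy24, hfix⟩ := mem_base7Fix.1 hy
    have f : ∀ i, i ∈ [0, 1, 2, 3] → y (i2p i) = i2p i := hfix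
    refine ⟨x * y, ?_, by rw [inv_mul_cancel_left]⟩
    simp only [Finset.mem_filter, mem_ordSet22, Equiv.Perm.mul_apply, f 0 (by simp), f 1 (by simp),
      f 2 (by simp), f 3 (by simp)]
    exact ⟨⟨⟨⟨mul_mem hx hy24, hx0, hx1⟩, (hord y ht.1).trans ht.2⟩, hxa⟩, hxb⟩

/-- The large group maps the first base points to any distinct points. -/
theorem exists_map_base (k : ℕ) (hk : tupleOK (tuple5.take k) (List.range 24) = true)
    (xs : List GolayPt) (hlen : xs.length = (tuple5.take k).length) (hnd : xs.Nodup) :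
    ∃ g ∈ M24, (tuple5.take k).map (fun l => g (i2p l.1)) = xs :=
  exists_map_tuple (tuple5.take k) (List.range 24) M24
    (fun l hl => tuple5_rep l (List.mem_of_mem_take hl)) List.nodup_range
    (fun g _ p _ => List.mem_range.2 (p2i_lt _)) hk xs hlen hnd
    (fun x _ => List.mem_range.2 (p2i_lt _))

/-- All points other than those listed. -/
def restPts (l : List ℕ) : Finset GolayPt := Finset.univ \ (l.map i2p).toFinset

theorem mem_restPts {l : List ℕ} {x : GolayPt} : x ∈ restPts l ↔ ∀ i ∈ l, x ≠ i2p i := by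
  simp [restPts, eq_comm]

/-- The count of elements of order `n`, read off the four lists. -/
def countOf22 (n : ℕ) : ℕ :=
  ordsA.count n + 20 * ordsB.count n + 21 * (ordsC.count n + 20 * ordsD.count n)

theorem card_ordSet22 (n : ℕ) : (ordSet22 n).card = countOf22 n := by
  classical
  have hne : ∀ i j : ℕ, i < 24 → j < 24 → i ≠ j → (i2p i : GolayPt) ≠ i2p j :=
    fun i j hi hj h e => h (i2p_inj hi hj e)
  have fixes : ∀ (g : Equiv.Perm GolayPt) (i j : ℕ), i < 24 → j < 24 → i ≠ j →
      g (i2p i) = i2p i → g (i2p j) ≠ i2p i :=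
    fun g i j hi hj h e e' => hne i j hi hj h (g.injective (e.trans e'.symm))
  have htr1 : ∀ x ∈ restPts [0, 1, 2], ∃ k ∈ base7Fix 3, k (i2p 3) = x := by
    intro x hx
    simp only [mem_restPts, List.mem_cons, List.not_mem_nil, or_false, forall_eq_or_imp,
      forall_eq] at hx
    obtain ⟨g, hg, h⟩ := exists_map_base 4 (by decide +kernel) [i2p 0, i2p 1, i2p 2, x]
      (show 4 = (tuple5.take 4).length by decide +kernel)
      (by simp [hne 0 1, hne 0 2, hne 1 2, Ne.symm hx.1, Ne.symm hx.2.1, Ne.symm hx.2.2])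
    simp only [tuple5, chain24, List.take_succ_cons, List.take_zero, List.map_cons, List.map_nil,
      List.cons.injEq, and_true] at h
    obtain ⟨h0, h1, h2, h3⟩ := h
    refine ⟨g, mem_base7Fix.2 ⟨hg, ?_⟩, h3⟩
    simp [base7, h0, h1, h2]
  have htr2 : ∀ x ∈ restPts [0, 1, 2, 3], ∃ k ∈ base7Fix 4, k (i2p 4) = x := by
    intro x hx
    simp only [mem_restPts, List.mem_cons, List.not_mem_nil, or_false, forall_eq_or_imp,
      forall_eq] at hx
    obtain ⟨g, hg, h⟩ := exists_map_base5 [i2p 0, i2p 1, i2p 2, i2p 3, x] rfl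
      (by simp [hne 0 1, hne 0 2, hne 0 3, hne 1 2, hne 1 3, hne 2 3, Ne.symm hx.1, Ne.symm hx.2.1,
        Ne.symm hx.2.2.1, Ne.symm hx.2.2.2])
    simp only [List.map_cons, List.map_nil, List.cons.injEq, and_true] at h
    obtain ⟨h0, h1, h2, h3, h4⟩ := h
    refine ⟨g, mem_base7Fix.2 ⟨hg, ?_⟩, h4⟩
    simp [base7, h0, h1, h2, h3]
  have c1 : (restPts [0, 1, 2]).card = 21 := by decide +kernel
  have c2 : (restPts [0, 1, 2, 3]).card = 20 := by decide +kernel
  have hfix : ∀ {j : ℕ} {k : Equiv.Perm GolayPt}, k ∈ base7Fix j → ∀ i ∈ base7.take j,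
      k (i2p i) = i2p i := fun hk => (mem_base7Fix.1 hk).2
  have hconj : ∀ k ∈ base7Fix 2, ∀ g ∈ ordSet22 n, k * g * k⁻¹ ∈ ordSet22 n := by
    intro k hk g hg
    have hg' : g ∈ base7Fix 2 := by
      simpa [mem_base7Fix, base7] using (mem_ordSet22.1 hg).1
    have : k * g * k⁻¹ ∈ base7Fix 2 := mul_mem (mul_mem hk hg') (inv_mem hk)
    refine mem_ordSet22.2 ⟨by simpa [mem_base7Fix, base7] using this,
      (MulEquiv.orderOf_eq (MulAut.conj k) g).trans (mem_ordSet22.1 hg).2⟩
  have hconjB : ∀ a : ℕ, (a = 2 ∨ a = 3) → ∀ k ∈ base7Fix 4,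
      ∀ g ∈ (ordSet22 n).filter fun g => g (i2p 2) = i2p a,
        k * g * k⁻¹ ∈ (ordSet22 n).filter fun g => g (i2p 2) = i2p a := by
    intro a ha k hk g hg
    rw [Finset.mem_filter] at hg ⊢
    refine ⟨hconj k (base7Fix_antitone (by norm_num) hk) g hg.1, ?_⟩
    have k2 : k⁻¹ (i2p 2) = (i2p 2 : GolayPt) :=
      Equiv.Perm.inv_eq_iff_eq.2 (hfix hk 2 (by simp [base7])).symm
    simp only [Equiv.Perm.mul_apply, k2, hg.2]
    exact hfix hk a (by rcases ha with rfl | rfl <;> simp [base7])
  -- first point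
  rw [M12Count.card_split (ordSet22 n) (base7Fix 3) (restPts [0, 1, 2]) (i2p 2) (i2p 2) (i2p 3)
    (fun k hk => hconj k (base7Fix_antitone (by norm_num) hk))
    (fun k hk => hfix hk 2 (by simp [base7])) htr1 (by simp [mem_restPts]) (fun g hg => by
      obtain ⟨⟨-, h0, h1⟩, -⟩ := mem_ordSet22.1 hg
      have n0 := fixes g 0 2 (by norm_num) (by norm_num) (by norm_num) h0
      have n1 := fixes g 1 2 (by norm_num) (by norm_num) (by norm_num) h1
      simp only [Finset.mem_insert, mem_restPts, List.mem_cons, List.not_mem_nil, or_false,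
        forall_eq_or_imp, forall_eq]
      tauto), c1]
  -- second point
  rw [M12Count.card_split ((ordSet22 n).filter fun g => g (i2p 2) = i2p 2)
    (base7Fix 4) (restPts [0, 1, 2, 3]) (i2p 3) (i2p 3) (i2p 4)
    (hconjB 2 (Or.inl rfl)) (fun k hk => hfix hk 3 (by simp [base7])) htr2 (by simp [mem_restPts])
    (fun g hg => by
      rw [Finset.mem_filter] at hg
      obtain ⟨⟨-, h0, h1⟩, -⟩ := mem_ordSet22.1 hg.1
      have n0 := fixes g 0 3 (by norm_num) (by norm_num) (by norm_num) h0
      have n1 := fixes g 1 3 (by norm_num) (by norm_num) (by norm_num) h1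
      have n2 := fixes g 2 3 (by norm_num) (by norm_num) (by norm_num) hg.2
      simp only [Finset.mem_insert, mem_restPts, List.mem_cons, List.not_mem_nil, or_false,
        forall_eq_or_imp, forall_eq]
      tauto), c2]
  rw [M12Count.card_split ((ordSet22 n).filter fun g => g (i2p 2) = i2p 3)
    (base7Fix 4) (restPts [0, 1, 2, 3]) (i2p 3) (i2p 2) (i2p 4)
    (hconjB 3 (Or.inr rfl)) (fun k hk => hfix hk 3 (by simp [base7])) htr2 (by simp [mem_restPts])
    (fun g hg => by
      rw [Finset.mem_filter] at hg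
      obtain ⟨⟨-, h0, h1⟩, -⟩ := mem_ordSet22.1 hg.1
      have n0 := fixes g 0 3 (by norm_num) (by norm_num) (by norm_num) h0
      have n1 := fixes g 1 3 (by norm_num) (by norm_num) (by norm_num) h1
      have n3 : g (i2p 3) ≠ i2p 3 := fun e =>
        hne 2 3 (by norm_num) (by norm_num) (by norm_num) (g.injective (hg.2.trans e.symm))
      simp only [Finset.mem_insert, mem_restPts, List.mem_cons, List.not_mem_nil, or_false,
        forall_eq_or_imp, forall_eq]
      tauto), c2]
  obtain ⟨hA, hB, hC, hD⟩ := ords22_check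
  rw [card_coset22 n 2 3 quadWA _ (by decide +kernel) hA (by decide +kernel),
    card_coset22 n 2 4 quadWB _ (by decide +kernel) hB (by decide +kernel),
    card_coset22 n 3 2 quadWC _ (by decide +kernel) hC (by decide +kernel),
    card_coset22 n 3 4 quadWD _ (by decide +kernel) hD (by decide +kernel)]
  rfl

theorem nonempty_equiv_fix_two : Nonempty (↥Spor.M22 ≃* ↥(base7Fix 2)) := by
  obtain ⟨g, hg, hn, h0⟩ := exists_map_two (a := (none : GolayPt)) (b := some 0) (c := i2p 0)
    (d := i2p 1) (by simp) (fun e => by simpa using i2p_inj (by norm_num) (by norm_num) e)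
  refine nonempty_conj_equiv g fun k => ?_
  rw [M22_eq]
  simp only [Subgroup.mem_inf, MulAction.mem_stabilizer_iff, mem_base7Fix, base7,
    List.take_succ_cons, List.take_zero, List.mem_cons, List.not_mem_nil, or_false,
    forall_eq_or_imp, forall_eq, conj_mem_M24_iff hg]
  rw [← conj_fix_iff g k none (i2p 0) hn, ← conj_fix_iff g k (some 0) (i2p 1) h0, and_assoc]
  rfl

theorem cnt_M22 (n : ℕ) : cnt ↥Spor.M22 n = countOf22 n := by
  classical
  obtain ⟨e⟩ := nonempty_equiv_fix_two
  rw [← card_ordSet22, cnt, ← Nat.card_eq_finsetCard (ordSet22 n)]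
  refine (Nat.card_congr (e.toEquiv.subtypeEquiv (q := fun g => orderOf g = n) fun g => by
    rw [show e.toEquiv g = e g from rfl, MulEquiv.orderOf_eq])).trans (Nat.card_congr ?_)
  exact
    { toFun := fun g => ⟨g.1.1, by
        simp only [ordSet22, Finset.mem_filter, Finset.mem_univ, true_and]
        exact ⟨g.1.2, (Subgroup.orderOf_coe g.1).trans g.2⟩⟩
      invFun := fun g => ⟨⟨g.1, by
        have := g.2
        simp only [ordSet22, Finset.mem_filter, Finset.mem_univ, true_and] at this
        exact this.1⟩, by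
        rw [← Subgroup.orderOf_coe]
        exact (mem_ordSet22.1 g.2).2⟩
      left_inv := fun _ => rfl
      right_inv := fun _ => rfl }

theorem countOf22_check :
    ((List.range 12).all fun n => countOf22 n == 0 || decide (countOf22 n ∈ countValues)) = true ∧
    ∀ c ∈ countValues, ∃ n ∈ List.range 12, countOf22 n = c := by
  decide +kernel

theorem countOf22_large {n : ℕ} (hn : 12 ≤ n) : countOf22 n = 0 := by
  have h : (ordsA ++ ordsB ++ ordsC ++ ordsD).all (fun x => decide (x < 12)) = true := by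
    decide +kernel
  simp only [List.all_eq_true, decide_eq_true_eq, List.mem_append] at h
  have z : ∀ l : List ℕ, (∀ x ∈ l, x < 12) → l.count n = 0 := fun l hl =>
    List.count_eq_zero.2 fun hm => absurd (hl n hm) (by omega)
  rw [countOf22, z ordsA (fun x hx => h x (by tauto)), z ordsB (fun x hx => h x (by tauto)),
    z ordsC (fun x hx => h x (by tauto)), z ordsD (fun x hx => h x (by tauto))]

/-- The element-order counts of the Mathieu group of degree 22 take exactly the listed values. -/
theorem countValues_M22 :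
    (∀ n, cnt ↥Cfsg.Spor.M22 n ≠ 0 → cnt ↥Cfsg.Spor.M22 n ∈ countValues) ∧
    (∀ c ∈ countValues, ∃ n, cnt ↥Cfsg.Spor.M22 n = c) := by
  refine ⟨fun n hn => ?_, fun c hc => ?_⟩
  · rw [cnt_M22] at hn ⊢
    rcases lt_or_ge n 12 with h | h
    · have := List.all_eq_true.1 countOf22_check.1 n (List.mem_range.2 h)
      simp only [Bool.or_eq_true, beq_iff_eq, decide_eq_true_eq] at this
      exact this.resolve_left hn
    · exact absurd (countOf22_large h) hn
  · obtain ⟨n, -, hn⟩ := countOf22_check.2 c hc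
    exact ⟨n, (cnt_M22 n).trans hn⟩

/-- The Mathieu group of degree 22 satisfies the counting hypothesis. -/
theorem countHyp_M22 : CountHyp ↥Cfsg.Spor.M22 :=
  ⟨CfsgLib.Mathieu.card_M22, countValues_M22.1, countValues_M22.2⟩

end CfsgLib.M22Count
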